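import Mathlib
import Cfsg.Agent.H554.Base
import Cfsg.Agent.H554.Num
import Cfsg.Agent.StandardComponent.AltAut

/-!
# No Hall systems: the alternating groups (helper554)

* `noHall_alt` : `5 ≤ n`.
-/

set_option autoImplicit false

namespace Cfsg.Agent.H554.Alt

open Equiv MulAction Set

theorem card_stab {n : ℕ} (hn : 7 ≤ n) (s : powersetCard (Fin n) 2) :
    (stabilizer (alternatingGroup (Fin n)) s).index = n.choose 2 ∧
      Nat.card (stabilizer (alternatingGroup (Fin n)) s) = (n - 2).factorial := by
  have h3 : 3 ≤ Nat.card (Fin n) := by rw [Nat.card_fin]; omega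
  have hp := powersetCard.isPretransitive_alternatingGroup (α := Fin n) (n := 2) h3
  have h1 : (stabilizer (alternatingGroup (Fin n)) s).index = n.choose 2 := by
    rw [index_stabilizer_of_transitive, powersetCard.card, Nat.card_fin]
  refine ⟨h1, ?_⟩
  have h2 := (stabilizer (alternatingGroup (Fin n)) s).card_mul_index
  have hnt : Nontrivial (Fin n) := Fin.nontrivial_iff_two_le.mpr (by omega)
  have h4 := nat_card_alternatingGroup (α := Fin n)
  rw [Nat.card_fin] at h4
  rw [h1] at h2
  -- `(n - 2)! * C(n,2) * 2 = n!`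
  have h5 : n.choose 2 * 2 = n * (n - 1) := by
    rw [Nat.choose_two_right]
    exact Nat.div_mul_cancel (Nat.even_mul_pred_self n).two_dvd
  have h6 : n.factorial = n * (n - 1) * (n - 2).factorial := by
    obtain ⟨k, rfl⟩ : ∃ k, n = k + 2 := ⟨n - 2, by omega⟩
    rw [Nat.factorial_succ, Nat.factorial_succ]
    simp only [Nat.add_sub_cancel]
    ring_nf
    have : 2 + k - 1 = 1 + k := by omega
    rw [this]
    ring
  have h7 : n.choose 2 * (Nat.card (stabilizer (alternatingGroup (Fin n)) s)) = n.choose 2 * (n - 2).factorial := by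
    have h8 : 2 * (n.choose 2 * (Nat.card (stabilizer (alternatingGroup (Fin n)) s))) =
        2 * (n.choose 2 * (n - 2).factorial) := by
      calc _ = 2 * (Nat.card (stabilizer (alternatingGroup (Fin n)) s) * n.choose 2) := by ring
        _ = n.factorial := by rw [h2, h4]; exact Nat.mul_div_cancel' (Nat.dvd_factorial (by norm_num) (by omega))
        _ = n.choose 2 * 2 * (n - 2).factorial := by rw [h6, h5]
        _ = _ := by ring
    exact Nat.eq_of_mul_eq_mul_left (by norm_num) h8
  exact Nat.eq_of_mul_eq_mul_left (Nat.choose_pos (by omega)) h7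

theorem not_coprime {n : ℕ} (hn : 7 ≤ n) (h : Nat.Coprime (n - 2).factorial (n.choose 2)) : False := by
  have h5 : n.choose 2 * 2 = n * (n - 1) := by
    rw [Nat.choose_two_right]
    exact Nat.div_mul_cancel (Nat.even_mul_pred_self n).two_dvd
  rcases Nat.even_or_odd' n with ⟨k, hk | hk⟩
  · have h1 : n.choose 2 = k * (n - 1) := by
      have : 2 * n.choose 2 = 2 * (k * (n - 1)) := by
        rw [mul_comm 2, h5]
        nth_rewrite 1 [hk]
        ring
      exact Nat.eq_of_mul_eq_mul_left (by norm_num) this
    have h2 : k ∣ (n - 2).factorial := Nat.dvd_factorial (by omega) (by omega)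
    have h3 : k ∣ n.choose 2 := h1 ▸ dvd_mul_right _ _
    have := Nat.eq_one_of_dvd_coprimes h h2 h3
    omega
  · have h1 : n.choose 2 = k * n := by
      have : 2 * n.choose 2 = 2 * (k * n) := by
        rw [mul_comm 2, h5]
        have : n - 1 = 2 * k := by omega
        rw [this]
        ring
      exact Nat.eq_of_mul_eq_mul_left (by norm_num) this
    have h2 : k ∣ (n - 2).factorial := Nat.dvd_factorial (by omega) (by omega)
    have h3 : k ∣ n.choose 2 := h1 ▸ dvd_mul_right _ _
    have := Nat.eq_one_of_dvd_coprimes h h2 h3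
    omega

set_option backward.isDefEq.respectTransparency false in
theorem isCoatom_stab {n : ℕ} (hn : 7 ≤ n) (s : powersetCard (Fin n) 2) :
    IsCoatom (stabilizer (alternatingGroup (Fin n)) s) := by
  rw [powersetCard.stabilizer_coe]
  apply alternatingGroup.isCoatom_stabilizer
  · rw [powersetCard.coe_nonempty_iff]
    norm_num
  · rw [nonempty_compl, ne_eq, eq_univ_iff_ncard, powersetCard.ncard_eq, Nat.card_fin]
    omega
  · rw [powersetCard.ncard_eq, Nat.card_fin]
    omega

theorem noHall_alt_seven {n : ℕ} (hn : 7 ≤ n) : NoHall (alternatingGroup (Fin n)) := by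
  intro A m hA
  obtain ⟨ψ, hψ⟩ := StandardComponent.AltAut.exists_autHom n hn
  have h3 : 3 ≤ Nat.card (Fin n) := by rw [Nat.card_fin]; omega
  have hp := powersetCard.isPretransitive_alternatingGroup (α := Fin n) (n := 2) h3
  obtain ⟨s⟩ : Nonempty (powersetCard (Fin n) 2) := by
    rw [← Finite.card_pos_iff, powersetCard.card, Nat.card_fin]
    exact Nat.choose_pos (by omega)
  obtain ⟨h1, h2⟩ := card_stab hn s
  have hco := isCoatom_stab hn s
  have hb : stabilizer (alternatingGroup (Fin n)) s ≠ ⊥ := by
    intro hb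
    rw [hb, Subgroup.card_bot] at h2
    have : 3 ≤ (n - 2).factorial := (by omega : 3 ≤ n - 2).trans (Nat.self_le_factorial _)
    omega
  have hst : Stab A (stabilizer (alternatingGroup (Fin n)) s) := by
    intro a _
    obtain ⟨τ, hτ⟩ := hp.exists_smul_eq s (ψ a • s)
    have key : ∀ y : alternatingGroup (Fin n), y ∈ (stabilizer (alternatingGroup (Fin n)) s).map a.toMonoidHom ↔
        (y : Perm (Fin n)) • (ψ a • s) = ψ a • s := by
      intro y
      constructor
      · rintro ⟨x, hx, rfl⟩
        have hx' : (x : Perm (Fin n)) • s = s := hx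
        change ((a x : alternatingGroup (Fin n)) : Perm (Fin n)) • (ψ a • s) = ψ a • s
        rw [hψ, mul_smul, mul_smul, inv_smul_smul, hx']
      · intro hy
        refine ⟨a⁻¹ y, ?_, ?_⟩
        · change ((a⁻¹ y : alternatingGroup (Fin n)) : Perm (Fin n)) • s = s
          rw [hψ, map_inv, inv_inv, mul_smul, mul_smul, hy, inv_smul_smul]
        · exact MulAut.apply_inv_self _ a y
    refine ⟨τ, ?_⟩
    ext y
    rw [key, mem_map_conj]
    have h4 : (τ : Perm (Fin n)) • s = ψ a • s := hτ
    rw [← h4]
    change _ ↔ ((τ⁻¹ * y * τ : alternatingGroup (Fin n)) : Perm (Fin n)) • s = s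
    have h5 : ((τ⁻¹ * y * τ : alternatingGroup (Fin n)) : Perm (Fin n)) =
        (τ : Perm (Fin n))⁻¹ * (y : Perm (Fin n)) * (τ : Perm (Fin n)) := by simp
    rw [h5, mul_smul, mul_smul, inv_smul_eq_iff]
  obtain ⟨M, hM1, hM2, -, hM4, -⟩ := hA.hall _ hb hco.1 hst
  have hM : M = stabilizer (alternatingGroup (Fin n)) s := by
    rcases eq_or_lt_of_le hM1 with h | h
    · exact h.symm
    · exact absurd (hco.2 M h) hM2
  rw [hM, h1, h2] at hM4
  exact not_coprime hn hM4

theorem not_comm {n : ℕ} (hn : 5 ≤ n) : ¬ IsMulCommutative (alternatingGroup (Fin n)) := by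
  intro h
  have hc : Nat.card (alternatingGroup (Fin n)) * 2 = n.factorial := by
    have hnt : Nontrivial (Fin n) := Fin.nontrivial_iff_two_le.mpr (by omega)
    have h4 := nat_card_alternatingGroup (α := Fin n)
    rw [Nat.card_fin] at h4
    rw [h4, mul_comm]
    exact Nat.mul_div_cancel' (Nat.dvd_factorial (by norm_num) (by omega))
  have h3 : Subgroup.center (alternatingGroup (Fin n)) = ⊥ := alternatingGroup.center_eq_bot (by rw [Nat.card_fin]; omega)
  have h4 : Subgroup.center (alternatingGroup (Fin n)) = ⊤ := by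
    rw [eq_top_iff]
    intro x _
    rw [Subgroup.mem_center_iff]
    intro g
    exact h.is_comm.comm g x
  rw [h3] at h4
  have h5 := Subgroup.card_top (G := alternatingGroup (Fin n))
  rw [← h4, Subgroup.card_bot] at h5
  rw [← h5] at hc
  have : 5 ≤ n.factorial := hn.trans (Nat.self_le_factorial _)
  omega

theorem noHall_alt {n : ℕ} (hn : 5 ≤ n) : NoHall (alternatingGroup (Fin n)) := by
  rcases Nat.lt_or_ge n 7 with h | h
  · have hs : IsSimpleGroup (alternatingGroup (Fin n)) := alternatingGroup.isSimpleGroup (by rw [Nat.card_fin]; exact hn)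
    have hnt : Nontrivial (Fin n) := Fin.nontrivial_iff_two_le.mpr (by omega)
    have hc := nat_card_alternatingGroup (α := Fin n)
    rw [Nat.card_fin] at hc
    have h5 : n = 5 ∨ n = 6 := by omega
    have hna := not_comm hn
    rcases h5 with rfl | rfl
    · have hc' : Nat.card (alternatingGroup (Fin 5)) = 60 := by rw [hc]; decide +kernel
      refine noHall_of_burnside hna (l := [(2, 2), (3, 1), (5, 1)]) (by decide +kernel) (by rw [hc']; rfl) (r := 5)
        (by norm_num) (by rw [hc']; norm_num) (by rw [hc']; norm_num) ?_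
      intro q hq hq4
      have : q = 2 := by
        have h4 : q ∣ 2 ^ 2 := hq4
        exact (Nat.prime_dvd_prime_iff_eq hq Nat.prime_two).mp (hq.dvd_of_dvd_pow h4)
      subst this
      decide +kernel
    · have hc' : Nat.card (alternatingGroup (Fin 6)) = 360 := by rw [hc]; decide +kernel
      refine noHall_of_burnside hna (l := [(2, 3), (3, 2), (5, 1)]) (by decide +kernel) (by rw [hc']; rfl) (r := 5)
        (by norm_num) (by rw [hc']; norm_num) (by rw [hc']; norm_num) ?_
      intro q hq hq4
      have : q = 2 := by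
        have h4 : q ∣ 2 ^ 2 := hq4
        exact (Nat.prime_dvd_prime_iff_eq hq Nat.prime_two).mp (hq.dvd_of_dvd_pow h4)
      subst this
      decide +kernel
  · exact noHall_alt_seven h

end Cfsg.Agent.H554.Alt
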