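import Mathlib
import Cfsg.Agent.H554.SLSub
import Cfsg.Agent.H554.LieC
import Cfsg.Agent.S0249

/-!
# `PSL_{n+1}(F)`: diagram permutations, orders of the maximal parabolic subgroups (helper554)
-/

set_option autoImplicit false
set_option linter.unusedSectionVars false

namespace Cfsg.Agent.H554.PSLNum

open Matrix Pointwise Module
open CoxeterSystem Cfsg.Agent.ChevalleyStructure.CoxeterGeom Cfsg.Agent.Tits.Roots Cfsg.Agent.Tits.Core
  Cfsg.Agent.Tits.Exchange Cfsg.Agent.Nodes.Reps Cfsg.Agent.Nodes.BNOf Cfsg.Agent.Nodes.StabComb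
  Cfsg.Agent.Nodes.Bruhat Cfsg.Agent.Nodes.OppDec Cfsg.Agent.Nodes.LeviDec Cfsg.Agent.Nodes.NormalForm
  Cfsg.Agent.KFacts.RgdOpp Cfsg.Agent.H554.RG Cfsg.Agent.H554.SLSub
open Cfsg.Agent.LieRecognition.BNCox (cA cA_apply)
open Cfsg.Agent.LieRecognition.CoxClass (mA)
open Cfsg.Agent.Nodes.RootsA
open Cfsg.Agent.Nodes.RGDTypeA (tv_val T X XX mem_XX pr ns mono_ns Mono X_rtA ker_pr)

/-! ### Diagram permutations of a path -/

theorem cA_ne_two {n : ℕ} {a b : Fin n} (hab : a ≠ b) (h : cA n a b ≠ 2) : (a : ℕ) + 1 = b ∨ (b : ℕ) + 1 = a := by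
  by_contra hcon
  apply h
  rw [cA_apply]
  unfold mA
  rw [if_neg (Fin.val_ne_of_ne hab), if_neg hcon]

theorem cA_ne_two' {n : ℕ} {a b : Fin n} (h : (a : ℕ) + 1 = b ∨ (b : ℕ) + 1 = a) : cA n a b ≠ 2 := by
  rw [cA_apply]
  unfold mA
  rw [if_neg (by omega), if_pos h]
  norm_num

theorem leaf {n : ℕ} (hn : 0 < n) {σ : Equiv.Perm (Fin n)}
    (hσ : ∀ a b, cA n (σ a) (σ b) = cA n a b) : (σ ⟨0, hn⟩ : ℕ) = 0 ∨ (σ ⟨0, hn⟩ : ℕ) = n - 1 := by
  by_contra hcon
  push Not at hcon
  obtain ⟨h1, h2⟩ := hcon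
  have h3 := (σ ⟨0, hn⟩).2
  have hn1 : 1 < n := by omega
  refine LieC.sigma_ne hσ (u := ⟨0, hn⟩) (v := σ ⟨0, hn⟩) (c := ⟨1, hn1⟩)
    (a := ⟨(σ ⟨0, hn⟩ : ℕ) - 1, by omega⟩) (b := ⟨(σ ⟨0, hn⟩ : ℕ) + 1, by omega⟩) ?_ ?_ ?_ ?_ ?_ ?_ rfl
  · intro x hx hM
    have := cA_ne_two hx hM
    apply Fin.ext
    simp only at this ⊢
    omega
  · rw [Ne, Fin.ext_iff]
    simp only
    omega
  · rw [Ne, Fin.ext_iff]
    simp only
    omega
  · rw [Ne, Fin.ext_iff]
    simp only
    omega
  · apply cA_ne_two'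
    simp only
    omega
  · apply cA_ne_two'
    right
    rfl

theorem path_rigid {n : ℕ} (hn : 0 < n) {σ : Equiv.Perm (Fin n)}
    (hσ : ∀ a b, cA n (σ a) (σ b) = cA n a b) (h0 : σ ⟨0, hn⟩ = ⟨0, hn⟩) : σ = 1 := by
  have key : ∀ k : ℕ, ∀ (hk : k < n), σ ⟨k, hk⟩ = ⟨k, hk⟩ := by
    intro k
    induction k using Nat.strong_induction_on with
    | _ k ih =>
      intro hk
      rcases Nat.eq_zero_or_pos k with rfl | hk0
      · exact h0
      have h1 := ih (k - 1) (by omega) (by omega)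
      have h2 : cA n (σ ⟨k - 1, by omega⟩) (σ ⟨k, hk⟩) ≠ 2 := by
        rw [hσ]
        apply cA_ne_two'
        simp only
        omega
      have h3 : σ ⟨k - 1, by omega⟩ ≠ σ ⟨k, hk⟩ := by
        intro e
        have := congrArg Fin.val (σ.injective e)
        simp only at this
        omega
      have h4 := cA_ne_two h3 h2
      rw [h1] at h4
      simp only at h4
      rcases h4 with h4 | h4
      · apply Fin.ext
        simp only
        omega
      · exfalso
        have h5 := ih (k - 2) (by omega) (by omega)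
        have h6 : σ ⟨k, hk⟩ = ⟨k - 2, by omega⟩ := by
          apply Fin.ext
          simp only
          omega
        rw [← h5] at h6
        have := congrArg Fin.val (σ.injective h6)
        simp only at this
        omega
  ext x
  rw [show x = ⟨x.1, x.2⟩ from rfl, key x.1 x.2]
  rfl

/-! ### Orders -/

section Order

variable {n : ℕ} {F : Type*} [Field F] [Fintype F] {W : Type*} [Group W] (cs : CoxeterSystem (cA n) W) [Finite W]
  {p : ℕ} [Fact p.Prime] [CharP F p]

/-- the maximal parabolic subgroup -/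
abbrev PP (i : Fin n) : Subgroup (ProjectiveSpecialLinearGroup (Fin (n + 1)) F) :=
  PJ cs (isCartan n) ((T (Fin (n + 1)) F).map (pr n F)) (fun x => (X F x).map (pr n F)) {i}ᶜ

theorem sub_pos' {a b : ℕ} (hab : b < a) : 0 < Fintype.card F ^ a - Fintype.card F ^ b := by
  have h1 : Fintype.card F ^ b < Fintype.card F ^ a := Nat.pow_lt_pow_right Fintype.one_lt_card hab
  omega

include p in
theorem card_PP (i : Fin n) : (Nat.gcd (n + 1) (Fintype.card F - 1) * (Fintype.card F - 1)) *
    Nat.card (PP (F := F) cs i) =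
    (∏ j ∈ Finset.range (i.val + 1), (Fintype.card F ^ (i.val + 1) - Fintype.card F ^ j)) *
      ∏ j ∈ Finset.Ico (i.val + 1) (n + 1), (Fintype.card F ^ (n + 1) - Fintype.card F ^ j) := by
  have h1 := index_PJ_compl (F := F) (p := p) cs i
  have h2 := Cfsg.Agent.S0243.result (F := F) rfl (n + 1) (by have := i.2; omega)
  have h3 := (PP (F := F) cs i).card_mul_index
  rw [← Finset.prod_range (fun j => Fintype.card F ^ (i.val + 1) - Fintype.card F ^ j),
    ← Finset.prod_range (fun j => Fintype.card F ^ (n + 1) - Fintype.card F ^ j)] at h1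
  rw [← Finset.prod_range (fun j => Fintype.card F ^ (n + 1) - Fintype.card F ^ j),
    ← Finset.prod_range_mul_prod_Ico _ (show i.val + 1 ≤ n + 1 by have := i.2; omega), ← h3] at h2
  have h4 : 0 < ∏ j ∈ Finset.range (i.val + 1), (Fintype.card F ^ (n + 1) - Fintype.card F ^ j) := by
    refine Finset.prod_pos fun j hj => sub_pos' ?_
    have := Finset.mem_range.mp hj
    have := i.2
    omega
  apply Nat.eq_of_mul_eq_mul_left h4
  rw [← h1]
  have h5 : (PP (F := F) cs i).index * (∏ j ∈ Finset.range (i.val + 1),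
      (Fintype.card F ^ (i.val + 1) - Fintype.card F ^ j)) *
      (Nat.gcd (n + 1) (Fintype.card F - 1) * (Fintype.card F - 1) * Nat.card (PP (F := F) cs i)) =
      (∏ j ∈ Finset.range (i.val + 1), (Fintype.card F ^ (i.val + 1) - Fintype.card F ^ j)) *
      (Nat.gcd (n + 1) (Fintype.card F - 1) * ((Fintype.card F - 1) *
        (Nat.card (PP (F := F) cs i) * (PP (F := F) cs i).index))) := by ring
  rw [h5, h2, ← h1]
  ring

theorem sub_eq {a b : ℕ} (hab : b ≤ a) : Fintype.card F ^ a - Fintype.card F ^ b =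
    Fintype.card F ^ b * (Fintype.card F ^ (a - b) - 1) := by
  rw [Nat.mul_sub, mul_one, ← pow_add]
  congr 2
  omega

include p in
/-- `q ^ m - 1` divides the order of the stabiliser of a `k`-space for `2 ≤ m ≤ n + 1 - k`. -/
theorem dvd_PP (i : Fin n) {m : ℕ} (hm : 2 ≤ m) (hmn : m + i.val ≤ n) :
    Fintype.card F ^ m - 1 ∣ Nat.card (PP (F := F) cs i) := by
  have h1 := card_PP (F := F) (p := p) cs i
  have h2 : Fintype.card F - 1 ∣
      ∏ j ∈ Finset.range (i.val + 1), (Fintype.card F ^ (i.val + 1) - Fintype.card F ^ j) := by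
    have h3 : Fintype.card F - 1 ∣ Fintype.card F ^ (i.val + 1) - Fintype.card F ^ i.val := by
      rw [sub_eq (by omega), show i.val + 1 - i.val = 1 by omega, pow_one]
      exact dvd_mul_left _ _
    exact h3.trans (Finset.dvd_prod_of_mem (fun j => Fintype.card F ^ (i.val + 1) - Fintype.card F ^ j)
      (Finset.mem_range.mpr (by omega)))
  have h4 : (Fintype.card F - 1) * (Fintype.card F ^ m - 1) ∣
      ∏ j ∈ Finset.Ico (i.val + 1) (n + 1), (Fintype.card F ^ (n + 1) - Fintype.card F ^ j) := by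
    have h5 : ({n, n + 1 - m} : Finset ℕ) ⊆ Finset.Ico (i.val + 1) (n + 1) := by
      intro j hj
      rw [Finset.mem_insert, Finset.mem_singleton] at hj
      rw [Finset.mem_Ico]
      have := i.2
      omega
    refine dvd_trans ?_ (Finset.prod_dvd_prod_of_subset _ _ _ h5)
    rw [Finset.prod_pair (by omega)]
    refine mul_dvd_mul ?_ ?_
    · rw [sub_eq (by omega), show n + 1 - n = 1 by omega, pow_one]
      exact dvd_mul_left _ _
    · rw [sub_eq (by omega), show n + 1 - (n + 1 - m) = m by omega]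
      exact dvd_mul_left _ _
  have h6 : Nat.gcd (n + 1) (Fintype.card F - 1) ∣ Fintype.card F - 1 := Nat.gcd_dvd_right _ _
  have hq : 0 < Fintype.card F - 1 := by
    have := Fintype.one_lt_card (α := F)
    omega
  have h7 : 0 < Nat.gcd (n + 1) (Fintype.card F - 1) * (Fintype.card F - 1) :=
    Nat.mul_pos (Nat.gcd_pos_of_pos_left _ (by omega)) hq
  apply Nat.dvd_of_mul_dvd_mul_left h7
  rw [h1]
  calc Nat.gcd (n + 1) (Fintype.card F - 1) * (Fintype.card F - 1) * (Fintype.card F ^ m - 1)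
      ∣ (Fintype.card F - 1) * (Fintype.card F - 1) * (Fintype.card F ^ m - 1) :=
        Nat.mul_dvd_mul (Nat.mul_dvd_mul h6 dvd_rfl) dvd_rfl
    _ = (Fintype.card F - 1) * ((Fintype.card F - 1) * (Fintype.card F ^ m - 1)) := by ring
    _ ∣ _ := Nat.mul_dvd_mul h2 h4

include p in
theorem index_one (hn : 0 < n) : (PP (F := F) cs ⟨0, hn⟩).index * (Fintype.card F - 1) =
    Fintype.card F ^ (n + 1) - 1 := by
  have h1 := index_PJ_compl (F := F) (p := p) cs ⟨0, hn⟩
  simpa using h1

include p in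
theorem index_two (hn : 1 < n) : (PP (F := F) cs ⟨1, hn⟩).index * ((Fintype.card F ^ 2 - 1) * (Fintype.card F - 1)) =
    (Fintype.card F ^ (n + 1) - 1) * (Fintype.card F ^ n - 1) := by
  have h1 := index_PJ_compl (F := F) (p := p) cs ⟨1, hn⟩
  rw [← Finset.prod_range (fun j => Fintype.card F ^ (1 + 1) - Fintype.card F ^ j),
    ← Finset.prod_range (fun j => Fintype.card F ^ (n + 1) - Fintype.card F ^ j)] at h1
  simp only [Finset.prod_range_succ, Finset.prod_range_zero, one_mul, pow_zero] at h1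
  have h2 : Fintype.card F ^ (1 + 1) - Fintype.card F ^ 1 = Fintype.card F * (Fintype.card F - 1) := by
    rw [sub_eq (by omega)]; simp
  have h3 : Fintype.card F ^ (n + 1) - Fintype.card F ^ 1 = Fintype.card F * (Fintype.card F ^ n - 1) := by
    rw [sub_eq (by omega)]; simp
  rw [h2, h3] at h1
  have h4 : 0 < Fintype.card F := Fintype.card_pos
  apply Nat.eq_of_mul_eq_mul_left h4
  calc Fintype.card F * ((PP (F := F) cs ⟨1, hn⟩).index * ((Fintype.card F ^ 2 - 1) * (Fintype.card F - 1)))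
      = (PP (F := F) cs ⟨1, hn⟩).index * ((Fintype.card F ^ (1 + 1) - 1) * (Fintype.card F * (Fintype.card F - 1))) := by
        ring
    _ = (Fintype.card F ^ (n + 1) - 1) * (Fintype.card F * (Fintype.card F ^ n - 1)) := h1
    _ = _ := by ring

end Order

end Cfsg.Agent.H554.PSLNum
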