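import Mathlib
import Cfsg.Agent.H554.PSLNum

/-!
# No Hall systems: `PSL_d(q)`, `d ≥ 3`, the parabolic arguments (helper554)

* `dd_bot` : a Hall system has no graph automorphisms; `hall_PP` : the maximal parabolic subgroups are Hall subgroups;
* `noHall_of_odd`, `noHall_six`, ... : the numerical cases;
* `noHall_char_two` : `q > 2` even, `d ≥ 3` (the normaliser of the torus).
-/

set_option autoImplicit false
set_option linter.unusedSectionVars false

namespace Cfsg.Agent.H554.LiePSL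

open Matrix Pointwise Module
open CoxeterSystem Cfsg.Agent.ChevalleyStructure.CoxeterGeom Cfsg.Agent.Tits.Roots Cfsg.Agent.Tits.Core
  Cfsg.Agent.Tits.Exchange Cfsg.Agent.Nodes.Reps Cfsg.Agent.Nodes.BNOf Cfsg.Agent.Nodes.StabComb
  Cfsg.Agent.Nodes.Bruhat Cfsg.Agent.Nodes.OppDec Cfsg.Agent.Nodes.LeviDec Cfsg.Agent.Nodes.NormalForm
  Cfsg.Agent.KFacts.RgdOpp Cfsg.Agent.H554.RG Cfsg.Agent.H554.SLSub Cfsg.Agent.H554.PSLNum
open Cfsg.Agent.LieRecognition.BNCox (cA cA_apply)
open Cfsg.Agent.LieRecognition.CoxClass (mA)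
open Cfsg.Agent.Nodes.RootsA
open Cfsg.Agent.Nodes.RGDTypeA (tv_val T X XX mem_XX pr ns mono_ns Mono X_rtA ker_pr)

theorem exists_prime_ne_three {k : ℕ} (hk : 2 ≤ k) : ∃ s : ℕ, s.Prime ∧ s ∣ k ^ 2 + k + 1 ∧ s ≠ 3 := by
  by_contra hcon
  push Not at hcon
  have h4 : k ^ 2 + k + 1 = 3 ^ (k ^ 2 + k + 1).primeFactorsList.length :=
    Nat.eq_prime_pow_of_unique_prime_dvd (by positivity) fun hd1 hd2 => hcon _ hd1 hd2
  have h5 : ¬ 9 ∣ k ^ 2 + k + 1 := by
    intro h6
    have h7 : (k ^ 2 + k + 1) % 9 = 0 := Nat.mod_eq_zero_of_dvd h6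
    have h8 : k % 9 < 9 := Nat.mod_lt _ (by norm_num)
    rw [Nat.add_mod, Nat.add_mod (k ^ 2), Nat.pow_mod] at h7
    interval_cases h9 : k % 9 <;> simp at h7
  have h6 : (k ^ 2 + k + 1).primeFactorsList.length < 2 := by
    by_contra h7
    push Not at h7
    apply h5
    rw [h4]
    exact (pow_dvd_pow 3 h7 : 3 ^ 2 ∣ _)
  have h7 : k ^ 2 + k + 1 ≤ 3 := by
    rw [h4]
    calc 3 ^ (k ^ 2 + k + 1).primeFactorsList.length ≤ 3 ^ 1 := Nat.pow_le_pow_right (by norm_num) (by omega)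
      _ = 3 := by norm_num
  nlinarith

theorem not_dvd_of_sq_add {s k : ℕ} (hs : s.Prime) (hd : s ∣ k ^ 2 + k + 1) : ¬ s ∣ k ∧ ¬ s ∣ k + 1 ∧
    (s ≠ 3 → ¬ s ∣ k - 1) := by
  refine ⟨fun h => ?_, fun h => ?_, fun h3 h => ?_⟩
  · have h4 : s ∣ k * (k + 1) + 1 := by
      have : k * (k + 1) + 1 = k ^ 2 + k + 1 := by ring
      rw [this]; exact hd
    exact hs.one_lt.ne' (Nat.dvd_one.mp ((Nat.dvd_add_right (h.mul_right _)).mp h4))
  · have h4 : s ∣ (k + 1) * k + 1 := by
      have : (k + 1) * k + 1 = k ^ 2 + k + 1 := by ring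
      rw [this]; exact hd
    exact hs.one_lt.ne' (Nat.dvd_one.mp ((Nat.dvd_add_right (h.mul_right _)).mp h4))
  · rcases Nat.eq_zero_or_pos k with rfl | hk
    · norm_num at hd
      exact hs.one_lt.ne' hd
    obtain ⟨j, rfl⟩ : ∃ j, k = j + 1 := ⟨k - 1, by omega⟩
    rw [Nat.add_sub_cancel] at h
    have h4 : s ∣ j * (j + 3) + 3 := by
      have : j * (j + 3) + 3 = (j + 1) ^ 2 + (j + 1) + 1 := by ring
      rw [this]; exact hd
    have h5 := (Nat.dvd_add_right (h.mul_right _)).mp h4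
    exact h3 ((Nat.prime_dvd_prime_iff_eq hs Nat.prime_three).mp h5)

section Main

variable {n : ℕ} {F : Type*} [Field F] [Fintype F] {p : ℕ} [Fact p.Prime] [CharP F p]

/-- the Coxeter system -/
abbrev ca (n : ℕ) : CoxeterSystem (cA n) (cA n).Group := (cA n).toCoxeterSystem

/-- the torus -/
abbrev TP (n : ℕ) (F : Type*) [Field F] : Subgroup (ProjectiveSpecialLinearGroup (Fin (n + 1)) F) :=
  (T (Fin (n + 1)) F).map (pr n F)

/-- the root groups -/
abbrev XP (n : ℕ) (F : Type*) [Field F] (x : Fin n → ℤ) : Subgroup (ProjectiveSpecialLinearGroup (Fin (n + 1)) F) :=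
  (X F x).map (pr n F)

instance instFiniteGroupCA : Finite (cA n).Group := finite_W (ca n) (isCartan n)

variable (p) in
theorem rgdP : RGD (ca n) (isCartan n) p (TP n F) (fun i => pr n F (ns n F i)) (XP n F) :=
  Cfsg.Agent.Nodes.RGDTypeA.rgd_psl (F := F) (p := p) (ca n) (isCartan n)

theorem GG_P : GG (ca n) (isCartan n) (TP n F) (XP n F) = ⊤ := GG_psl (ca n)

theorem Sup_P : RGD.Sup (XP n F) {x | IsRoot (ca n) (isCartan n) x} = ⊤ :=
  Cfsg.Agent.Nodes.RGDTypeA.G1_psl_eq_top (ca n) (isCartan n)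

theorem not_comm (hn : 2 ≤ n) : ¬ IsMulCommutative (ProjectiveSpecialLinearGroup (Fin (n + 1)) F) := by
  intro hc
  -- the torus and a root group
  have hsimple : IsSimpleGroup (ProjectiveSpecialLinearGroup (Fin (n + 1)) F) :=
    Cfsg.Agent.S0249.result (n + 1) (by omega)
  obtain ⟨p, hp⟩ := CharP.exists F
  have : Fact p.Prime := ⟨CharP.char_is_prime F p⟩
  have R := rgdP (n := n) (F := F) p
  have h1 : (RGD.B (ca n) (isCartan n) (TP n F) (XP n F)).Normal := by
    refine ⟨fun a ha g => ?_⟩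
    have : g * a * g⁻¹ = a := by
      rw [isMulCommutative_iff] at hc
      rw [hc g a, mul_inv_cancel_right]
    rwa [this]
  have hne : Nonempty (Fin n) := ⟨⟨0, by omega⟩⟩
  rcases h1.eq_bot_or_eq_top with h2 | h2
  · exact B_ne_bot R h2
  · have h3 : PJ (ca n) (isCartan n) (TP n F) (XP n F) (∅ : Set (Fin n)) = ⊤ := top_le_iff.mp (h2 ▸ B_le_PJ)
    rw [PJ_eq_top_iff R GG_P] at h3
    exact Set.notMem_empty (⟨0, by omega⟩ : Fin n) (h3 ▸ Set.mem_univ _)

theorem simpleP (hn : 2 ≤ n) : IsSimpleGroup (ProjectiveSpecialLinearGroup (Fin (n + 1)) F) :=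
  Cfsg.Agent.S0249.result (n + 1) (by omega)

/-- **A Hall system has no graph automorphisms.** -/
theorem dd_bot (hn : 2 ≤ n) {A0 : Subgroup (MulAut (ProjectiveSpecialLinearGroup (Fin (n + 1)) F))} {m : ℕ}
    (hA : HallSys (ProjectiveSpecialLinearGroup (Fin (n + 1)) F) A0 m) :
    DD (ca n) (isCartan n) (TP n F) (XP n F) A0 = ⊥ := by
  obtain ⟨p, hp⟩ := CharP.exists F
  have : Fact p.Prime := ⟨CharP.char_is_prime F p⟩
  have R := rgdP (n := n) (F := F) p
  have hq : 2 ≤ Nat.card F := Finite.one_lt_card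
  have h1 := LieC.cast_neg_one (Nat.card F)
  have hX := fun x hx => card_X (F := F) (p := p) (ca n) (x := x) hx
  have hn0 : 0 < n := by omega
  have hlast : ∀ σ ∈ DD (ca n) (isCartan n) (TP n F) (XP n F) A0, (σ ⟨0, hn0⟩ : ℕ) ≠ n - 1 := by
    intro τ hτ hτ0
    by_cases hn3 : 3 ≤ n
    · obtain ⟨r, hr, hd, ho⟩ := exists_dom (ca n) (n := n) (by omega)
      refine false_of_root R GG_P hA hr hd ⟨0, hn0⟩ ⟨1, by omega⟩ ?_ ?_ (l := Nat.card F + 1) ?_ ?_ ?_ ?_
      · intro i hi
        apply ho i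
        · intro e
          exact hi 1 (Subgroup.one_mem _) (Fin.ext e.symm)
        · intro e
          exact hi τ hτ (Fin.ext (hτ0.trans e.symm))
      · intro σ hσ e
        have h2 := leaf hn0 (fun a b => DD_matrix R hσ a b)
        rw [e] at h2
        simp only at h2
        omega
      · omega
      · intro x hx
        rw [hX x hx, h1]
        ring
      · rw [hX r hr, h1]
      · rw [hX _ (isRoot_sr _ _ _), h1]
    · obtain rfl : n = 2 := by omega
      have hne : ∀ i : Fin 2, ∃ σ ∈ DD (ca 2) (isCartan 2) (TP 2 F) (XP 2 F) A0, σ ⟨0, hn0⟩ = i := by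
        intro i
        fin_cases i
        · exact ⟨1, Subgroup.one_mem _, rfl⟩
        · exact ⟨τ, hτ, Fin.ext hτ0⟩
      obtain ⟨h2, h3⟩ := hall_parabolic R GG_P hA (⟨0, hn0⟩ : Fin 2)
      have h4 : 2 ∣ m := by
        by_contra hodd
        obtain ⟨k, hk'⟩ := Nat.odd_iff.mpr (Nat.two_dvd_ne_zero.mp hodd)
        have h5 := DD_pow_m R GG_P hA hτ
        have hsq : τ ^ 2 = 1 := (by decide : ∀ ρ : Equiv.Perm (Fin 2), ρ ^ 2 = 1) τ
        rw [hk', pow_add, pow_mul, hsq, one_pow, one_mul, pow_one] at h5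
        rw [h5, Equiv.Perm.one_apply] at hτ0
        exact absurd hτ0 (by simp)
      have hB : (PJ (ca 2) (isCartan 2) (TP 2 F) (XP 2 F) {i | ∀ σ ∈ DD (ca 2) (isCartan 2) (TP 2 F) (XP 2 F) A0,
          σ ⟨0, hn0⟩ ≠ i}) ≤ RGD.B (ca 2) (isCartan 2) (TP 2 F) (XP 2 F) := by
        have h5 : ({i | ∀ σ ∈ DD (ca 2) (isCartan 2) (TP 2 F) (XP 2 F) A0, σ ⟨0, hn0⟩ ≠ i} : Set (Fin 2)) ⊆
            {i | (fun i => pr 2 F (ns 2 F i)) i ∈ RGD.B (ca 2) (isCartan 2) (TP 2 F) (XP 2 F)} := by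
          intro i hi
          obtain ⟨σ, hσ, e⟩ := hne i
          exact absurd e (hi σ hσ)
        have h6 := eq_PJ R GG_P (le_refl (RGD.B (ca 2) (isCartan 2) (TP 2 F) (XP 2 F)))
        rw [h6]
        exact PJ_mono R h5
      have h6 : Nat.card F + 1 ∣ (PJ (ca 2) (isCartan 2) (TP 2 F) (XP 2 F)
          {i | ∀ σ ∈ DD (ca 2) (isCartan 2) (TP 2 F) (XP 2 F) A0, σ ⟨0, hn0⟩ ≠ i}).index := by
        have h9 := relIndex_B_PJ_singleton R (0 : Fin 2)
        rw [hX _ (isRoot_sr _ _ _)] at h9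
        rw [← h9]
        exact (Subgroup.relIndex_dvd_index_of_le B_le_PJ).trans (Subgroup.index_dvd_of_le hB)
      have hq2 : 2 ∣ Nat.card F := by
        by_contra hodd
        have h7 : 2 ∣ Nat.card F + 1 := by omega
        have h8 := Nat.dvd_gcd (h7.trans h6) h4
        rw [h3] at h8
        norm_num at h8
      have hp2 : p = 2 := by
        obtain ⟨e, -, he⟩ := FiniteField.card F p
        rw [Nat.card_eq_fintype_card, he] at hq2
        exact ((Nat.prime_dvd_prime_iff_eq Nat.prime_two Fact.out).mp (Nat.prime_two.dvd_of_dvd_pow hq2)).symm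
      obtain ⟨s, hs1, hs2, hs3⟩ := exists_prime_ne_three hq
      obtain ⟨hs4, hs5, hs6⟩ := not_dvd_of_sq_add hs1 hs2
      have hs6 := hs6 hs3
      rw [Nat.card_eq_fintype_card] at hs2 hs4 hs5 hs6 hq
      have hsimple := simpleP (F := F) (n := 2) le_rfl
      refine false_of_p_dvd R (not_comm le_rfl) GG_P Sup_P hA (hp2 ▸ h4) hs1 ?_ ?_
      · -- `s ∣ |S|`
        have h7 := index_one (F := F) (p := p) (ca 2) hn0
        have h8 : (PP (F := F) (ca 2) ⟨0, hn0⟩).index = Fintype.card F ^ 2 + Fintype.card F + 1 := by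
          have h9 : 0 < Fintype.card F - 1 := by omega
          apply Nat.eq_of_mul_eq_mul_right h9
          rw [h7]
          obtain ⟨j, hj⟩ : ∃ j, Fintype.card F = j + 1 := ⟨Fintype.card F - 1, by omega⟩
          rw [hj, Nat.add_sub_cancel]
          have h10 : (j + 1) ^ (2 + 1) = ((j + 1) ^ 2 + (j + 1) + 1) * j + 1 := by ring
          rw [h10, Nat.add_sub_cancel]
        rw [← h8] at hs2
        exact hs2.trans (Subgroup.index_dvd_card _)
      · intro i hdv
        have h7 := card_PP (F := F) (p := p) (ca 2) i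
        have h8 := hdv.mul_left (Nat.gcd (2 + 1) (Fintype.card F - 1) * (Fintype.card F - 1))
        rw [h7] at h8
        -- the factors
        have key : ∀ a b : ℕ, b < a → a - b ≤ 2 → ¬ s ∣ Fintype.card F ^ a - Fintype.card F ^ b := by
          intro a b hab h2 hd
          rw [sub_eq hab.le] at hd
          rcases hs1.dvd_mul.mp hd with h9 | h9
          · exact hs4 (hs1.dvd_of_dvd_pow h9)
          · have h10 : a - b = 1 ∨ a - b = 2 := by omega
            rcases h10 with h10 | h10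
            · rw [h10, pow_one] at h9
              exact hs6 h9
            · rw [h10] at h9
              have h11 : Fintype.card F ^ 2 - 1 = (Fintype.card F + 1) * (Fintype.card F - 1) := by
                have := Nat.sq_sub_sq (Fintype.card F) 1
                rwa [one_pow] at this
              rw [h11] at h9
              rcases hs1.dvd_mul.mp h9 with h12 | h12
              · exact hs5 h12
              · exact hs6 h12
        rcases hs1.dvd_mul.mp h8 with h9 | h9
        · obtain ⟨j, hj, hjd⟩ := (hs1.prime.dvd_finsetProd_iff _).mp h9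
          have h10 := Finset.mem_range.mp hj
          have h11 := i.2
          exact key _ _ h10 (by omega) hjd
        · obtain ⟨j, hj, hjd⟩ := (hs1.prime.dvd_finsetProd_iff _).mp h9
          have h10 := Finset.mem_Ico.mp hj
          exact key _ _ h10.2 (by omega) hjd
  rw [eq_bot_iff]
  intro σ hσ
  rw [Subgroup.mem_bot]
  apply path_rigid hn0 (fun a b => DD_matrix R hσ a b)
  rcases leaf hn0 (fun a b => DD_matrix R hσ a b) with h2 | h2
  · exact Fin.ext h2
  · exact absurd h2 (hlast σ hσ)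

/-- **The maximal parabolic subgroups are Hall subgroups.** -/
theorem hall_PP (hn : 2 ≤ n) {A0 : Subgroup (MulAut (ProjectiveSpecialLinearGroup (Fin (n + 1)) F))} {m : ℕ}
    (hA : HallSys (ProjectiveSpecialLinearGroup (Fin (n + 1)) F) A0 m) (i : Fin n) :
    (Nat.card (PP (F := F) (ca n) i)).Coprime (PP (F := F) (ca n) i).index ∧
      (PP (F := F) (ca n) i).index.Coprime m := by
  obtain ⟨p, hp⟩ := CharP.exists F
  have : Fact p.Prime := ⟨CharP.char_is_prime F p⟩
  have R := rgdP (n := n) (F := F) p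
  have h1 := hall_parabolic R GG_P hA i
  rw [dd_bot hn hA] at h1
  have h2 : ({j | ∀ σ ∈ (⊥ : Subgroup (Equiv.Perm (Fin n))), σ i ≠ j} : Set (Fin n)) = {i}ᶜ := by
    ext j
    simp only [Subgroup.mem_bot, forall_eq, Equiv.Perm.one_apply, Set.mem_compl_iff, Set.mem_singleton_iff,
      Set.mem_ofPred_eq]
    exact ⟨fun h e => h e.symm, fun h e => h e.symm⟩
  rw [h2] at h1
  exact h1

theorem false_of_common (hn : 2 ≤ n) {A0 : Subgroup (MulAut (ProjectiveSpecialLinearGroup (Fin (n + 1)) F))} {m : ℕ}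
    (hA : HallSys (ProjectiveSpecialLinearGroup (Fin (n + 1)) F) A0 m) (i : Fin n) {c : ℕ} (hc : c ≠ 1)
    (h1 : c ∣ (PP (F := F) (ca n) i).index) (h2 : c ∣ Nat.card (PP (F := F) (ca n) i)) : False :=
  hc (Nat.eq_one_of_dvd_coprimes (hall_PP hn hA i).1 h2 h1)

end Main

end Cfsg.Agent.H554.LiePSL
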