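import Mathlib
import Cfsg.Agent.H554.LiePSL

/-!
# No Hall systems: `PSL_d(q)`, `d ≥ 3`, numerical cases and characteristic two (helper554)

* `noHall_even_dim` : `d ≥ 4` even; `noHall_big` : `d ≥ 7` odd; `noHall_five_odd` : `d = 5`, `q` odd;
  `noHall_three_one` : `d = 3`, `q ≡ 1` modulo `3`;
* `noHall_char_two` : `q > 2` even, `d ≥ 3` (the normaliser of the torus).
-/

set_option autoImplicit false
set_option linter.unusedSectionVars false

namespace Cfsg.Agent.H554.LiePSL

open Matrix Pointwise Module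
open CoxeterSystem Cfsg.Agent.ChevalleyStructure.CoxeterGeom Cfsg.Agent.Tits.Roots Cfsg.Agent.Tits.Core
  Cfsg.Agent.Tits.Exchange Cfsg.Agent.Nodes.Reps Cfsg.Agent.Nodes.BNOf Cfsg.Agent.Nodes.StabComb
  Cfsg.Agent.Nodes.Bruhat Cfsg.Agent.Nodes.OppDec Cfsg.Agent.Nodes.LeviDec Cfsg.Agent.Nodes.NormalForm
  Cfsg.Agent.KFacts.RgdOpp Cfsg.Agent.H554.RG Cfsg.Agent.H554.SLSub Cfsg.Agent.H554.PSLNum
open Cfsg.Agent.LieRecognition.BNCox (cA cA_apply)
open Cfsg.Agent.LieRecognition.CoxClass (mA)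
open Cfsg.Agent.Nodes.RootsA
open Cfsg.Agent.Nodes.RGDTypeA (tv_val T X XX mem_XX pr ns mono_ns Mono X_rtA ker_pr)

theorem sub_one_dvd (q : ℕ) {a b : ℕ} (hab : a ∣ b) : q ^ a - 1 ∣ q ^ b - 1 := by
  obtain ⟨c, rfl⟩ := hab
  rw [pow_mul]
  have := Nat.sub_dvd_pow_sub_pow (q ^ a) 1 c
  rwa [one_pow] at this

theorem sq_sub_one (q : ℕ) : q ^ 2 - 1 = (q + 1) * (q - 1) := by
  have := Nat.sq_sub_sq q 1
  rwa [one_pow] at this

section Num

variable {n : ℕ} {F : Type*} [Field F] [Fintype F]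

theorem q_two : 2 ≤ Fintype.card F := Fintype.one_lt_card

theorem noHall_even_dim (hn : 3 ≤ n) (hodd : Odd n) : NoHall (ProjectiveSpecialLinearGroup (Fin (n + 1)) F) := by
  obtain ⟨p, hp⟩ := CharP.exists F
  have : Fact p.Prime := ⟨CharP.char_is_prime F p⟩
  have hq := q_two (F := F)
  intro A0 m hA
  have hn0 : 0 < n := by omega
  refine false_of_common (by omega) hA ⟨0, hn0⟩ (c := Fintype.card F + 1) (by omega) ?_ ?_
  · have h1 := index_one (F := F) (p := p) (ca n) hn0
    obtain ⟨k, hk⟩ := hodd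
    have h2 : Fintype.card F ^ 2 - 1 ∣ Fintype.card F ^ (n + 1) - 1 := sub_one_dvd _ ⟨k + 1, by omega⟩
    rw [← h1, sq_sub_one] at h2
    exact Nat.dvd_of_mul_dvd_mul_right (by omega) h2
  · have h1 := dvd_PP (F := F) (p := p) (ca n) ⟨0, hn0⟩ (m := 2) le_rfl (by simp only; omega)
    rw [sq_sub_one] at h1
    exact (dvd_mul_right _ _).trans h1

/-- the index of the stabiliser of a plane -/
theorem index_two' {p : ℕ} [Fact p.Prime] [CharP F p] (hn : 1 < n) {c : ℕ}
    (hc : (Fintype.card F ^ 2 - 1) * c ∣ Fintype.card F ^ n - 1) : c ∣ (PP (F := F) (ca n) ⟨1, hn⟩).index := by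
  have hq := q_two (F := F)
  have h1 := index_two (F := F) (p := p) (ca n) hn
  obtain ⟨u, hu⟩ : Fintype.card F - 1 ∣ Fintype.card F ^ (n + 1) - 1 := by
    have := sub_one_dvd (Fintype.card F) (a := 1) (b := n + 1) (one_dvd _)
    rwa [pow_one] at this
  obtain ⟨w, hw⟩ := hc
  rw [hu, hw] at h1
  have hpos : 0 < (Fintype.card F ^ 2 - 1) * (Fintype.card F - 1) := by
    have h2 : 2 ^ 2 ≤ Fintype.card F ^ 2 := Nat.pow_le_pow_left hq 2
    exact Nat.mul_pos (by omega) (by omega)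
  have h3 : (PP (F := F) (ca n) ⟨1, hn⟩).index = c * (u * w) := by
    apply Nat.eq_of_mul_eq_mul_right hpos
    rw [h1]
    ring
  rw [h3]
  exact dvd_mul_right _ _

theorem noHall_big (hn : 6 ≤ n) (heven : Even n) : NoHall (ProjectiveSpecialLinearGroup (Fin (n + 1)) F) := by
  obtain ⟨p, hp⟩ := CharP.exists F
  have : Fact p.Prime := ⟨CharP.char_is_prime F p⟩
  have hq := q_two (F := F)
  intro A0 m hA
  have hn1 : 1 < n := by omega
  obtain ⟨e, he⟩ := heven
  rcases Nat.even_or_odd e with h2 | h2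
  · -- `q² + 1`
    have h5 : Fintype.card F ^ 4 - 1 = (Fintype.card F ^ 2 - 1) * (Fintype.card F ^ 2 + 1) := by
      have h6 := Nat.sq_sub_sq (Fintype.card F ^ 2) 1
      rw [one_pow, ← pow_mul] at h6
      rw [mul_comm]
      exact h6
    refine false_of_common (by omega) hA ⟨1, hn1⟩ (c := Fintype.card F ^ 2 + 1) ?_ (index_two' (p := p) hn1 ?_) ?_
    · have : 0 < Fintype.card F ^ 2 := by positivity
      omega
    · rw [← h5]
      obtain ⟨k, hk⟩ := h2
      exact sub_one_dvd _ ⟨k, by omega⟩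
    · have h1 := dvd_PP (F := F) (p := p) (ca n) ⟨1, hn1⟩ (m := 4) (by norm_num) (by simp only; omega)
      rw [h5] at h1
      exact (dvd_mul_left _ _).trans h1
  · -- `(q ^ e - 1) / (q - 1)`
    obtain ⟨c, hc⟩ : Fintype.card F - 1 ∣ Fintype.card F ^ e - 1 := by
      have := sub_one_dvd (Fintype.card F) (a := 1) (b := e) (one_dvd _)
      rwa [pow_one] at this
    refine false_of_common (by omega) hA ⟨1, hn1⟩ (c := c) ?_ (index_two' (p := p) hn1 ?_) ?_
    · rintro rfl
      rw [mul_one] at hc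
      have h3 : Fintype.card F ^ 1 < Fintype.card F ^ e := Nat.pow_lt_pow_right (by omega) (by omega)
      rw [pow_one] at h3
      omega
    · have h3 : Fintype.card F ^ n - 1 = (Fintype.card F ^ e + 1) * (Fintype.card F ^ e - 1) := by
        have h6 := Nat.sq_sub_sq (Fintype.card F ^ e) 1
        rw [one_pow, ← pow_mul] at h6
        rw [← h6]
        congr 2
        omega
      have h4 : Fintype.card F + 1 ∣ Fintype.card F ^ e + 1 := by
        have := Odd.nat_add_dvd_pow_add_pow (Fintype.card F) 1 h2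
        rwa [one_pow] at this
      rw [h3, hc, sq_sub_one, mul_assoc]
      exact Nat.mul_dvd_mul h4 dvd_rfl
    · have h1 := dvd_PP (F := F) (p := p) (ca n) ⟨1, hn1⟩ (m := e) (by omega) (by simp only; omega)
      rw [hc] at h1
      exact (dvd_mul_left _ _).trans h1

theorem noHall_five_odd (hq2 : Odd (Fintype.card F)) : NoHall (ProjectiveSpecialLinearGroup (Fin (4 + 1)) F) := by
  obtain ⟨p, hp⟩ := CharP.exists F
  have : Fact p.Prime := ⟨CharP.char_is_prime F p⟩
  have hq := q_two (F := F)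
  intro A0 m hA
  have h5 : Fintype.card F ^ 4 - 1 = (Fintype.card F ^ 2 - 1) * (Fintype.card F ^ 2 + 1) := by
    have h6 := Nat.sq_sub_sq (Fintype.card F ^ 2) 1
    rw [one_pow, ← pow_mul] at h6
    rw [mul_comm]
    exact h6
  have h2 : 2 ∣ Fintype.card F ^ 2 + 1 := by
    have : Odd (Fintype.card F ^ 2) := hq2.pow
    exact even_iff_two_dvd.mp this.add_one
  refine false_of_common (by omega) hA (1 : Fin 4) (c := 2) (by norm_num)
    (h2.trans (index_two' (F := F) (p := p) (n := 4) (by norm_num) (dvd_of_eq h5.symm))) ?_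
  have h1 := dvd_PP (F := F) (p := p) (ca 4) 1 (m := 2) le_rfl (by simp)
  refine dvd_trans ?_ h1
  have : Odd (Fintype.card F ^ 2) := hq2.pow
  exact even_iff_two_dvd.mp (Nat.Odd.sub_odd this odd_one)

theorem noHall_three_one (h3 : 3 ∣ Fintype.card F - 1) : NoHall (ProjectiveSpecialLinearGroup (Fin (2 + 1)) F) := by
  obtain ⟨p, hp⟩ := CharP.exists F
  have : Fact p.Prime := ⟨CharP.char_is_prime F p⟩
  have hq := q_two (F := F)
  intro A0 m hA
  refine false_of_common le_rfl hA (0 : Fin 2) (c := 3) (by norm_num) ?_ ?_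
  · have h7 := index_one (F := F) (p := p) (ca 2) (by norm_num)
    have h8 : (PP (F := F) (ca 2) 0).index = Fintype.card F ^ 2 + Fintype.card F + 1 := by
      have h9 : 0 < Fintype.card F - 1 := by omega
      apply Nat.eq_of_mul_eq_mul_right h9
      refine h7.trans ?_
      obtain ⟨j, hj⟩ : ∃ j, Fintype.card F = j + 1 := ⟨Fintype.card F - 1, by omega⟩
      rw [hj, Nat.add_sub_cancel]
      have h10 : (j + 1) ^ (2 + 1) = ((j + 1) ^ 2 + (j + 1) + 1) * j + 1 := by ring
      rw [h10, Nat.add_sub_cancel]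
    rw [h8]
    obtain ⟨j, hj⟩ := h3
    have h9 : Fintype.card F = 3 * j + 1 := by omega
    rw [h9]
    exact ⟨3 * j ^ 2 + 3 * j + 1, by ring⟩
  · have h1 := dvd_PP (F := F) (p := p) (ca 2) 0 (m := 2) le_rfl (by simp)
    refine dvd_trans ?_ h1
    rw [sq_sub_one]
    exact h3.mul_left _

end Num

/-! ### The monomial group -/

section Mono

variable {n : ℕ} {F : Type*} [Field F]

open Cfsg.Agent.LieClassical.SLGen

theorem smul_single_mono {σ : Equiv.Perm (Fin (n + 1))} {g : SpecialLinearGroup (Fin (n + 1)) F} (hg : Mono σ g)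
    (b : Fin (n + 1)) : ∃ c : F, c ≠ 0 ∧ g • (Pi.single b 1 : Fin (n + 1) → F) = Pi.single (σ b) c := by
  refine ⟨g.1 (σ b) b, hg.apply_ne_zero b, ?_⟩
  funext a
  rw [SLSub.smul_def', Matrix.mulVec_single_one]
  by_cases h : a = σ b
  · subst h
    rw [Pi.single_eq_same]
    rfl
  · rw [Pi.single_eq_of_ne h]
    by_contra hne
    exact h (hg a b hne)

/-- the monomial group is irreducible -/
theorem eq_top_of_mono (hn : 2 ≤ n) {a : F} (ha0 : a ≠ 0) (ha1 : a ≠ 1) {Y : Submodule F (Fin (n + 1) → F)}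
    (hY : Y ≠ ⊥) (hT : ∀ x ∈ T (Fin (n + 1)) F, ∀ v ∈ Y, x • v ∈ Y) (hN : ∀ i, ∀ v ∈ Y, ns n F i • v ∈ Y) : Y = ⊤ := by
  -- the action of the diagonal elements
  have hdiag : ∀ {i j : Fin (n + 1)} (hij : i ≠ j), ∀ v ∈ Y,
      (Pi.single i ((a - 1) * v i) + Pi.single j ((a⁻¹ - 1) * v j) : Fin (n + 1) → F) ∈ Y := by
    intro i j hij v hv
    have h1 := hT _ (Cfsg.Agent.Nodes.RGDTypeA.diag_mem_T hij ha0) v hv
    have h2 := Y.sub_mem h1 hv
    rw [diag2n_smul hij a ha0 v, add_assoc, add_sub_cancel_left, ← Pi.single_smul, ← Pi.single_smul,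
      smul_eq_mul, smul_eq_mul, mul_one, mul_one] at h2
    exact h2
  have hsingle : ∀ {i : Fin (n + 1)} {c : F}, c ≠ 0 → (Pi.single i c : Fin (n + 1) → F) ∈ Y →
      (Pi.single i 1 : Fin (n + 1) → F) ∈ Y := by
    intro i c hc h
    have h1 := Y.smul_mem c⁻¹ h
    rwa [← Pi.single_smul, smul_eq_mul, inv_mul_cancel₀ hc] at h1
  -- step two
  have hstep : ∀ {i k : Fin (n + 1)}, k ≠ i → ∀ v ∈ Y, v i ≠ 0 → v k = 0 →
      (Pi.single i 1 : Fin (n + 1) → F) ∈ Y := by
    intro i k hki v hv hi hk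
    have h1 := hdiag hki.symm v hv
    rw [hk, mul_zero, Pi.single_zero, add_zero] at h1
    exact hsingle (mul_ne_zero (sub_ne_zero.mpr ha1) hi) h1
  have hex : ∃ i : Fin (n + 1), (Pi.single i 1 : Fin (n + 1) → F) ∈ Y := by
    obtain ⟨v, hv, hv0⟩ := Submodule.exists_mem_ne_zero_of_ne_bot hY
    obtain ⟨i, hi⟩ : ∃ i, v i ≠ 0 := Function.ne_iff.mp hv0
    have hc1 : 3 ≤ Fintype.card (Fin (n + 1)) := by rw [Fintype.card_fin]; omega
    obtain ⟨j, hj⟩ : ∃ j : Fin (n + 1), j ≠ i := by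
      have : Nontrivial (Fin (n + 1)) := Fintype.one_lt_card_iff_nontrivial.mp (by omega)
      exact exists_ne i
    obtain ⟨k, hk⟩ : ∃ k : Fin (n + 1), k ∉ ({i, j} : Finset (Fin (n + 1))) := by
      by_contra hcon
      push Not at hcon
      have h1 : Finset.univ ⊆ ({i, j} : Finset (Fin (n + 1))) := fun x _ => hcon x
      have h2 := (Finset.card_le_card h1).trans Finset.card_le_two
      rw [Finset.card_univ] at h2
      omega
    rw [Finset.mem_insert, Finset.mem_singleton, not_or] at hk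
    have h1 := hdiag hj.symm v hv
    refine ⟨i, hstep hk.1 _ h1 ?_ ?_⟩
    · rw [Pi.add_apply, Pi.single_eq_same, Pi.single_eq_of_ne hj.symm, add_zero]
      exact mul_ne_zero (sub_ne_zero.mpr ha1) hi
    · rw [Pi.add_apply, Pi.single_eq_of_ne hk.1, Pi.single_eq_of_ne hk.2, add_zero]
  obtain ⟨i₀, hi₀⟩ := hex
  -- all basis vectors
  have hnb : ∀ i : Fin n, ((Pi.single i.castSucc 1 : Fin (n + 1) → F) ∈ Y ↔
      (Pi.single i.succ 1 : Fin (n + 1) → F) ∈ Y) := by
    intro i
    constructor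
    · intro h
      obtain ⟨c, hc, e⟩ := smul_single_mono (mono_ns (F := F) i) i.castSucc
      rw [Equiv.swap_apply_left] at e
      exact hsingle hc (e ▸ hN i _ h)
    · intro h
      obtain ⟨c, hc, e⟩ := smul_single_mono (mono_ns (F := F) i) i.succ
      rw [Equiv.swap_apply_right] at e
      exact hsingle hc (e ▸ hN i _ h)
  have hzero : (Pi.single (0 : Fin (n + 1)) 1 : Fin (n + 1) → F) ∈ Y := by
    have key : ∀ i : Fin (n + 1), (Pi.single i 1 : Fin (n + 1) → F) ∈ Y →
        (Pi.single (0 : Fin (n + 1)) 1 : Fin (n + 1) → F) ∈ Y := by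
      intro i
      induction i using Fin.induction with
      | zero => exact id
      | succ i ih => exact fun h => ih ((hnb i).mpr h)
    exact key i₀ hi₀
  have hall : ∀ i : Fin (n + 1), (Pi.single i 1 : Fin (n + 1) → F) ∈ Y := by
    intro i
    induction i using Fin.induction with
    | zero => exact hzero
    | succ i ih => exact (hnb i).mp ih
  rw [eq_top_iff]
  intro v _
  rw [← Finset.univ_sum_single v]
  refine Y.sum_mem fun i _ => ?_
  have h1 := Y.smul_mem (v i) (hall i)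
  rwa [← Pi.single_smul, smul_eq_mul, mul_one] at h1

/-- **`PSL_d(q)`, `d ≥ 3`, `q > 2` even.** -/
theorem noHall_char_two [Fintype F] (hn : 2 ≤ n) (hq : 2 < Fintype.card F) (h2 : 2 ∣ Fintype.card F) :
    NoHall (ProjectiveSpecialLinearGroup (Fin (n + 1)) F) := by
  obtain ⟨p, hp⟩ := CharP.exists F
  have hpp : Fact p.Prime := ⟨CharP.char_is_prime F p⟩
  have hp2 : p = 2 := by
    obtain ⟨e, -, he⟩ := FiniteField.card F p
    rw [he] at h2
    exact ((Nat.prime_dvd_prime_iff_eq Nat.prime_two hpp.out).mp (Nat.prime_two.dvd_of_dvd_pow h2)).symm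
  have R := rgdP (n := n) (F := F) p
  have hsimple := simpleP (F := F) hn
  have hne : Nonempty (Fin n) := ⟨⟨0, by omega⟩⟩
  obtain ⟨a, ha0, ha1⟩ : ∃ a : F, a ≠ 0 ∧ a ≠ 1 := by
    classical
    by_contra hcon
    push Not at hcon
    have h1 : (Finset.univ : Finset F) ⊆ {0, 1} := by
      intro a _
      rw [Finset.mem_insert, Finset.mem_singleton]
      by_cases h : a = 0
      · exact Or.inl h
      · exact Or.inr (hcon a h)
    have h2 := Finset.card_le_card h1
    rw [Finset.card_univ] at h2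
    have h3 : ({0, 1} : Finset F).card ≤ 2 := Finset.card_le_two
    omega
  have hkey : ∀ Y : Submodule F (Fin (n + 1) → F), Y ≠ ⊥ →
      (∀ x : SpecialLinearGroup (Fin (n + 1)) F,
        pr n F x ∈ Subgroup.normalizer (TP n F : Set (ProjectiveSpecialLinearGroup (Fin (n + 1)) F)) →
        ∀ v ∈ Y, x • v ∈ Y) → Y = ⊤ := by
    intro Y hY h
    refine eq_top_of_mono hn ha0 ha1 hY ?_ ?_
    · intro x hx
      exact h x (Subgroup.le_normalizer (Subgroup.mem_map_of_mem _ hx))
    · intro i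
      exact h _ (R.nsys.norm i)
  refine noHall_of_normalizer_T R (not_comm hn) GG_P Sup_P hp2 ?_ ?_
  · -- `T ≠ 1`
    intro hT
    have h01 : (⟨0, by omega⟩ : Fin (n + 1)) ≠ ⟨1, by omega⟩ := by
      intro e
      have := congrArg Fin.val e
      simp at this
    have h1 : pr n F (SpecialLinearGroup.diag2n h01 a ha0) ∈ TP n F :=
      Subgroup.mem_map_of_mem _ (Cfsg.Agent.Nodes.RGDTypeA.diag_mem_T h01 ha0)
    rw [hT, Subgroup.mem_bot] at h1
    have h2 : SpecialLinearGroup.diag2n h01 a ha0 ∈ (pr n F).ker := h1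
    rw [ker_pr] at h2
    obtain ⟨r, -, hr⟩ := Matrix.SpecialLinearGroup.mem_center_iff.mp h2
    -- evaluate at two coordinates
    have h3 : ∀ i : Fin (n + 1), (SpecialLinearGroup.diag2n h01 a ha0 • (fun _ => 1 : Fin (n + 1) → F)) i = r := by
      intro i
      rw [SLSub.smul_def', ← hr, Matrix.scalar_apply, Matrix.mulVec_diagonal, mul_one]
    have h4 := h3 ⟨0, by omega⟩
    have h5 := h3 ⟨2, by omega⟩
    have hne' : ∀ {i j : ℕ} (hi : i < n + 1) (hj : j < n + 1), i ≠ j → (⟨i, hi⟩ : Fin (n + 1)) ≠ ⟨j, hj⟩ := by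
      intro i j hi hj hij e
      exact hij (congrArg Fin.val e)
    rw [diag2n_smul, Pi.add_apply, Pi.add_apply, Pi.smul_apply, Pi.smul_apply, Pi.single_eq_same,
      Pi.single_eq_of_ne (hne' _ _ (by norm_num))] at h4
    rw [diag2n_smul, Pi.add_apply, Pi.add_apply, Pi.smul_apply, Pi.smul_apply,
      Pi.single_eq_of_ne (hne' _ _ (by norm_num)), Pi.single_eq_of_ne (hne' _ _ (by norm_num))] at h5
    apply ha1
    simp only [smul_eq_mul, mul_one, mul_zero, add_zero] at h4 h5
    linear_combination h4 - h5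
  · intro g i hle
    obtain ⟨Y, hY1, hY2, hY3⟩ := exists_submodule (p := p) (ca n) hle
    exact hY2 (hkey Y hY1 hY3)

end Mono

end Cfsg.Agent.H554.LiePSL
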