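import Mathlib
import Cfsg.Agent.H554.LiePSL2
import Cfsg.Agent.ClassicalGeometry.AutPSL.Main

/-!
# No Hall systems: `PSL₃(q)`, `q` odd, `3 ∤ q - 1` (helper554)

The subgroup `SO₃(q)` is stable under all automorphisms, irreducible and of order divisible by `p`.
-/

set_option autoImplicit false
set_option linter.unusedSectionVars false

namespace Cfsg.Agent.H554.LieSO3

open Matrix Pointwise Module
open Cfsg.Agent.H554.RG Cfsg.Agent.H554.SLSub Cfsg.Agent.H554.PSLNum Cfsg.Agent.H554.LiePSL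
open Cfsg.Agent.ClassicalGeometry.AutPSL.Auto
open Cfsg.Agent.Nodes.RGDTypeA (pr ker_pr pr_surjective)

variable {F : Type*} [Field F]

/-- the form -/
def J (F : Type*) [Field F] : Matrix (Fin 3) (Fin 3) F := !![0, 0, 1; 0, 1, 0; 1, 0, 0]

theorem J_mul_J : J F * J F = 1 := by
  unfold J
  ext i j
  fin_cases i <;> fin_cases j <;> simp [Matrix.mul_apply, Fin.sum_univ_three]

theorem J_transpose : (J F)ᵀ = J F := by
  unfold J
  ext i j
  fin_cases i <;> fin_cases j <;> simp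

/-- `SO₃(F)` -/
def SO (F : Type*) [Field F] : Subgroup (SpecialLinearGroup (Fin 3) F) where
  carrier := {g | g.1ᵀ * J F * g.1 = J F}
  mul_mem' := by
    intro g h hg hh
    change (g.1 * h.1)ᵀ * J F * (g.1 * h.1) = J F
    rw [transpose_mul]
    calc h.1ᵀ * g.1ᵀ * J F * (g.1 * h.1) = h.1ᵀ * (g.1ᵀ * J F * g.1) * h.1 := by simp only [mul_assoc]
      _ = h.1ᵀ * J F * h.1 := by rw [show g.1ᵀ * J F * g.1 = J F from hg]
      _ = J F := hh
  one_mem' := by
    change (1 : Matrix (Fin 3) (Fin 3) F)ᵀ * J F * 1 = J F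
    rw [transpose_one, one_mul, mul_one]
  inv_mem' := by
    intro g hg
    change (g⁻¹).1ᵀ * J F * (g⁻¹).1 = J F
    have h1 : g.1 * (g⁻¹).1 = 1 := by
      rw [← Matrix.SpecialLinearGroup.coe_mul, mul_inv_cancel, Matrix.SpecialLinearGroup.coe_one]
    have h2 : (g⁻¹).1ᵀ * g.1ᵀ = 1 := by rw [← transpose_mul, h1, transpose_one]
    calc (g⁻¹).1ᵀ * J F * (g⁻¹).1 = (g⁻¹).1ᵀ * (g.1ᵀ * J F * g.1) * (g⁻¹).1 := by
          rw [show g.1ᵀ * J F * g.1 = J F from hg]
      _ = ((g⁻¹).1ᵀ * g.1ᵀ) * J F * (g.1 * (g⁻¹).1) := by simp only [mul_assoc]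
      _ = J F := by rw [h1, h2, one_mul, mul_one]

theorem mem_SO {g : SpecialLinearGroup (Fin 3) F} : g ∈ SO F ↔ g.1ᵀ * J F * g.1 = J F := Iff.rfl

/-- a unipotent element -/
def uu (F : Type*) [Field F] (k : F) : SpecialLinearGroup (Fin 3) F :=
  ⟨!![1, k, -(k ^ 2 / 2); 0, 1, -k; 0, 0, 1], by simp [Matrix.det_fin_three]⟩

/-- the long element -/
def ww (F : Type*) [Field F] : SpecialLinearGroup (Fin 3) F :=
  ⟨!![0, 0, -1; 0, -1, 0; -1, 0, 0], by simp [Matrix.det_fin_three]⟩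

theorem uu_mem (h2 : (2 : F) ≠ 0) (k : F) : uu F k ∈ SO F := by
  rw [mem_SO]
  unfold uu J
  ext i j
  fin_cases i <;> fin_cases j <;> simp [Matrix.mul_apply, Fin.sum_univ_three] <;> field_simp <;> ring

theorem ww_mem : ww F ∈ SO F := by
  rw [mem_SO]
  unfold ww J
  ext i j
  fin_cases i <;> fin_cases j <;> simp [Matrix.mul_apply, Fin.sum_univ_three]

theorem uu_mul (h2 : (2 : F) ≠ 0) (k l : F) : uu F k * uu F l = uu F (k + l) := by
  apply Subtype.ext
  rw [Matrix.SpecialLinearGroup.coe_mul]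
  unfold uu
  ext i j
  fin_cases i <;> fin_cases j <;> simp [Matrix.mul_apply, Fin.sum_univ_three] <;> (try field_simp) <;> ring

theorem uu_zero : uu F 0 = 1 := by
  apply Subtype.ext
  unfold uu
  ext i j
  fin_cases i <;> fin_cases j <;> simp

theorem uu_pow (h2 : (2 : F) ≠ 0) (k : ℕ) : uu F 1 ^ k = uu F k := by
  induction k with
  | zero => rw [pow_zero, Nat.cast_zero, uu_zero]
  | succ k ih => rw [pow_succ, ih, uu_mul h2, Nat.cast_succ]

/-- the irreducibility -/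
theorem eq_top_of_inv (h2 : (2 : F) ≠ 0) {Y : Submodule F (Fin 3 → F)} (hY : Y ≠ ⊥)
    (hu : ∀ v ∈ Y, uu F 1 • v ∈ Y) (hw : ∀ v ∈ Y, ww F • v ∈ Y) : Y = ⊤ := by
  have hN : ∀ v ∈ Y, (![v 1 - v 2 / 2, -v 2, 0] : Fin 3 → F) ∈ Y := by
    intro v hv
    have h3 := Y.sub_mem (hu v hv) hv
    convert h3 using 1
    rw [Matrix.SpecialLinearGroup.smul_def]
    change _ = (uu F 1).1 *ᵥ v - v
    unfold uu
    funext i
    fin_cases i <;> simp [Matrix.mulVec, dotProduct, Fin.sum_univ_three] <;> ring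
  have hw' : ∀ v ∈ Y, (![-v 2, -v 1, -v 0] : Fin 3 → F) ∈ Y := by
    intro v hv
    convert hw v hv using 1
    rw [Matrix.SpecialLinearGroup.smul_def]
    change _ = (ww F).1 *ᵥ v
    unfold ww
    funext i
    fin_cases i <;> simp [Matrix.mulVec, dotProduct, Fin.sum_univ_three]
  -- `e₀ ∈ Y`
  have h0 : (![1, 0, 0] : Fin 3 → F) ∈ Y := by
    obtain ⟨v, hv, hv0⟩ := Submodule.exists_mem_ne_zero_of_ne_bot hY
    have key : ∀ c : F, c ≠ 0 → (![c, 0, 0] : Fin 3 → F) ∈ Y → (![1, 0, 0] : Fin 3 → F) ∈ Y := by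
      intro c hc h
      have h3 := Y.smul_mem c⁻¹ h
      convert h3 using 1
      funext i
      fin_cases i <;> simp [hc]
    by_cases hv2 : v 2 = 0
    · by_cases hv1 : v 1 = 0
      · have hv0' : v 0 ≠ 0 := by
          intro h
          apply hv0
          funext i
          fin_cases i <;> simp [h, hv1, hv2]
        refine key (v 0) hv0' ?_
        convert hv using 1
        funext i
        fin_cases i <;> simp [hv1, hv2]
      · refine key (v 1) hv1 ?_
        convert hN v hv using 1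
        funext i
        fin_cases i <;> simp [hv2]
    · refine key (-v 2) (neg_ne_zero.mpr hv2) ?_
      convert hN _ (hN v hv) using 1
      funext i
      fin_cases i <;> simp
  have h2' : (![0, 0, -1] : Fin 3 → F) ∈ Y := by
    convert hw' _ h0 using 1
    funext i
    fin_cases i <;> simp
  have h1 : (![1 / 2, 1, 0] : Fin 3 → F) ∈ Y := by
    convert hN _ h2' using 1
    funext i
    fin_cases i <;> simp
    ring
  rw [eq_top_iff]
  intro v _
  have h3 := Y.add_mem (Y.add_mem (Y.smul_mem (v 0 - v 1 / 2) h0) (Y.smul_mem (v 1) h1)) (Y.smul_mem (-v 2) h2')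
  convert h3 using 1
  funext i
  fin_cases i <;> simp
  ring

/-! ### Automorphisms -/

theorem fld_SO (σ : F ≃+* F) : (SO F).map (fld σ).toMonoidHom = SO F := by
  have key : ∀ σ : F ≃+* F, ∀ g ∈ SO F, fld σ g ∈ SO F := by
    intro σ g hg
    rw [mem_SO] at hg ⊢
    have h1 : (fld σ g).1 = g.1.map σ := rfl
    have h2 : (J F).map σ = J F := by
      unfold J
      ext i j
      fin_cases i <;> fin_cases j <;> simp
    have h3 := congrArg (fun A : Matrix (Fin 3) (Fin 3) F => A.map σ) hg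
    simp only [Matrix.map_mul, h2, Matrix.transpose_map] at h3
    rw [h1]
    exact h3
  apply le_antisymm
  · rintro _ ⟨g, hg, rfl⟩
    exact key σ g hg
  · intro g hg
    refine ⟨fld σ⁻¹ g, key _ g hg, ?_⟩
    change fld σ (fld σ⁻¹ g) = g
    rw [← MulAut.mul_apply, ← map_mul, mul_inv_cancel, map_one, MulAut.one_apply]

theorem itr_SO : (SO F).map (itr : MulAut (SpecialLinearGroup (Fin 3) F)).toMonoidHom = SO F := by
  have key : ∀ g ∈ SO F, itr g ∈ SO F := by
    intro g hg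
    rw [mem_SO, coe_itr, transpose_transpose]
    have h1 : g.1 * (g⁻¹).1 = 1 := by
      rw [← Matrix.SpecialLinearGroup.coe_mul, mul_inv_cancel, Matrix.SpecialLinearGroup.coe_one]
    have h1' : (g⁻¹).1 * g.1 = 1 := by
      rw [← Matrix.SpecialLinearGroup.coe_mul, inv_mul_cancel, Matrix.SpecialLinearGroup.coe_one]
    have h2 : g.1ᵀ * (g⁻¹).1ᵀ = 1 := by rw [← transpose_mul, h1', transpose_one]
    -- `g J gᵀ = J`
    have h3 : J F * g.1 = (g⁻¹).1ᵀ * J F := by
      have h4 : (g⁻¹).1ᵀ * g.1ᵀ = 1 := by rw [← transpose_mul, h1, transpose_one]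
      calc J F * g.1 = ((g⁻¹).1ᵀ * g.1ᵀ) * J F * g.1 := by rw [h4, one_mul]
        _ = (g⁻¹).1ᵀ * (g.1ᵀ * J F * g.1) := by simp only [mul_assoc]
        _ = _ := by rw [mem_SO.mp hg]
    have h4 : g.1 * J F = J F * (g⁻¹).1ᵀ := by
      calc g.1 * J F = (J F * J F) * g.1 * J F := by rw [J_mul_J, one_mul]
        _ = J F * (J F * g.1) * J F := by simp only [mul_assoc]
        _ = J F * ((g⁻¹).1ᵀ * J F) * J F := by rw [h3]
        _ = J F * (g⁻¹).1ᵀ * (J F * J F) := by simp only [mul_assoc]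
        _ = _ := by rw [J_mul_J, mul_one]
    calc (g⁻¹).1 * J F * (g⁻¹).1ᵀ = (g⁻¹).1 * (J F * (g⁻¹).1ᵀ) := by rw [mul_assoc]
      _ = (g⁻¹).1 * (g.1 * J F) := by rw [h4]
      _ = ((g⁻¹).1 * g.1) * J F := by rw [mul_assoc]
      _ = J F := by rw [h1', one_mul]
  apply le_antisymm
  · rintro _ ⟨g, hg, rfl⟩
    exact key g hg
  · intro g hg
    refine ⟨itr g, key g hg, ?_⟩
    change itr (itr g) = g
    rw [← MulAut.mul_apply, itr_mul_itr, MulAut.one_apply]

variable [Fintype F]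

theorem exists_cube (h3 : ¬ 3 ∣ Fintype.card F - 1) {d : F} (hd : d ≠ 0) : ∃ c : F, c ≠ 0 ∧ c ^ 3 = d := by
  have h1 : (Nat.card Fˣ).Coprime 3 := by
    rw [Nat.coprime_comm, Nat.Prime.coprime_iff_not_dvd Nat.prime_three, Nat.card_units, Nat.card_eq_fintype_card]
    exact h3
  have h2 := (powCoprime h1).surjective (Units.mk0 d hd)
  obtain ⟨c, hc⟩ := h2
  refine ⟨c, c.ne_zero, ?_⟩
  have := congrArg Units.val hc
  simpa using this

/-- conjugation by `GL₃` is inner -/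
theorem cj_inner (h3 : ¬ 3 ∣ Fintype.card F - 1) (A : GL (Fin 3) F) : ∃ s : SpecialLinearGroup (Fin 3) F,
    cj A = MulAut.conj s := by
  have hA : (A : Matrix (Fin 3) (Fin 3) F).det ≠ 0 := by
    have := (Matrix.isUnit_iff_isUnit_det _).mp A.isUnit
    exact this.ne_zero
  obtain ⟨c, hc0, hc⟩ := exists_cube h3 hA
  let s : SpecialLinearGroup (Fin 3) F := ⟨c⁻¹ • (A : Matrix (Fin 3) (Fin 3) F), by
    rw [Matrix.det_smul, Fintype.card_fin, ← hc, inv_pow]
    exact inv_mul_cancel₀ (pow_ne_zero 3 hc0)⟩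
  refine ⟨s, ?_⟩
  apply MulEquiv.ext
  intro g
  apply Subtype.ext
  rw [coe_cj]
  have h1 : (MulAut.conj s g : SpecialLinearGroup (Fin 3) F).1 = s.1 * g.1 * (s⁻¹).1 := by
    rw [MulAut.conj_apply, Matrix.SpecialLinearGroup.coe_mul, Matrix.SpecialLinearGroup.coe_mul]
  rw [h1]
  have h2 : s.1 * (s⁻¹).1 = 1 := by
    rw [← Matrix.SpecialLinearGroup.coe_mul, mul_inv_cancel, Matrix.SpecialLinearGroup.coe_one]
  have h4 : (s⁻¹).1 = c • ((A⁻¹ : GL (Fin 3) F) : Matrix (Fin 3) (Fin 3) F) := by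
    have h5 : (c • ((A⁻¹ : GL (Fin 3) F) : Matrix (Fin 3) (Fin 3) F)) * s.1 = 1 := by
      change (c • ((A⁻¹ : GL (Fin 3) F) : Matrix (Fin 3) (Fin 3) F)) * (c⁻¹ • (A : Matrix (Fin 3) (Fin 3) F)) = 1
      rw [Matrix.smul_mul, Matrix.mul_smul, smul_smul, mul_inv_cancel₀ hc0, one_smul, ← Units.val_mul,
        inv_mul_cancel, Units.val_one]
    calc (s⁻¹).1 = ((c • ((A⁻¹ : GL (Fin 3) F) : Matrix (Fin 3) (Fin 3) F)) * s.1) * (s⁻¹).1 := by rw [h5, one_mul]
      _ = _ := by rw [mul_assoc, h2, mul_one]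
  rw [h4]
  change (A : Matrix (Fin 3) (Fin 3) F) * g.1 * ((A⁻¹ : GL (Fin 3) F) : Matrix (Fin 3) (Fin 3) F) =
    (c⁻¹ • (A : Matrix (Fin 3) (Fin 3) F)) * g.1 * (c • ((A⁻¹ : GL (Fin 3) F) : Matrix (Fin 3) (Fin 3) F))
  rw [Matrix.smul_mul, Matrix.smul_mul, Matrix.mul_smul, smul_smul, inv_mul_cancel₀ hc0, one_smul]

/-- the image of `SO₃` in `PSL₃` -/
def PSO (F : Type*) [Field F] : Subgroup (ProjectiveSpecialLinearGroup (Fin 3) F) := (SO F).map (pr 2 F)

theorem map_lift (β : MulAut (SpecialLinearGroup (Fin 3) F)) (H : Subgroup (SpecialLinearGroup (Fin 3) F)) :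
    (H.map (pr 2 F)).map (lift β).toMonoidHom = (H.map β.toMonoidHom).map (pr 2 F) := by
  rw [Subgroup.map_map, Subgroup.map_map]
  rfl

theorem stab_PSO (h3 : ¬ 3 ∣ Fintype.card F - 1)
    (A0 : Subgroup (MulAut (ProjectiveSpecialLinearGroup (Fin 3) F))) : Stab A0 (PSO F) := by
  obtain ⟨p, hp⟩ := CharP.exists F
  have : Fact p.Prime := ⟨CharP.char_is_prime F p⟩
  have key : ∀ (A : GL (Fin 3) F) (β : MulAut (SpecialLinearGroup (Fin 3) F)),
      (SO F).map β.toMonoidHom = SO F → ∃ s : ProjectiveSpecialLinearGroup (Fin 3) F,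
        (PSO F).map (lift (cj A * β)).toMonoidHom = (PSO F).map (MulAut.conj s).toMonoidHom := by
    intro A β hβ
    obtain ⟨s, hs⟩ := cj_inner h3 A
    refine ⟨pr 2 F s, ?_⟩
    unfold PSO
    rw [map_lift]
    have e1 : (cj A * β : MulAut (SpecialLinearGroup (Fin 3) F)).toMonoidHom =
        (MulAut.conj s).toMonoidHom.comp β.toMonoidHom := by
      rw [hs]; rfl
    rw [e1, ← Subgroup.map_map, hβ, Subgroup.map_map, Subgroup.map_map]
    rfl
  intro a _
  rcases Cfsg.Agent.ClassicalGeometry.AutPSL.Main.surj_three p (n := 3) le_rfl a with ⟨A, σ, rfl⟩ | ⟨A, σ, rfl⟩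
  · exact key A _ (fld_SO σ)
  · rw [mul_assoc]
    refine key A _ ?_
    have e1 : (fld σ * itr : MulAut (SpecialLinearGroup (Fin 3) F)).toMonoidHom =
        (fld σ).toMonoidHom.comp (itr : MulAut (SpecialLinearGroup (Fin 3) F)).toMonoidHom := rfl
    rw [e1, ← Subgroup.map_map, itr_SO, fld_SO]

/-- **`PSL₃(q)`, `q` odd, `3 ∤ q - 1`.** -/
theorem noHall_three_odd (h2 : Odd (Fintype.card F)) (h3 : ¬ 3 ∣ Fintype.card F - 1) :
    NoHall (ProjectiveSpecialLinearGroup (Fin (2 + 1)) F) := by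
  obtain ⟨p, hp⟩ := CharP.exists F
  have hpp : Fact p.Prime := ⟨CharP.char_is_prime F p⟩
  have hF2 : (2 : F) ≠ 0 := by
    intro h
    have h4 := (CharP.cast_eq_zero_iff F p 2).mp (by exact_mod_cast h)
    have h5 : p = 2 := (Nat.prime_dvd_prime_iff_eq hpp.out Nat.prime_two).mp h4
    obtain ⟨e, he, hc⟩ := FiniteField.card F p
    rw [hc, h5] at h2
    have h6 : Even (2 ^ (e : ℕ)) := (Nat.even_pow.mpr ⟨even_two, e.ne_zero⟩)
    exact (Nat.not_even_iff_odd.mpr h2) h6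
  have R := rgdP (n := 2) (F := F) p
  intro A0 m hA
  -- the element of order `p`
  have hu1 : pr 2 F (uu F 1) ≠ 1 := by
    intro h
    have h4 : uu F 1 ∈ (pr 2 F).ker := h
    rw [ker_pr] at h4
    obtain ⟨r, -, hr⟩ := Matrix.SpecialLinearGroup.mem_center_iff.mp h4
    have h5 := congrFun (congrFun hr 0) 1
    rw [Matrix.scalar_apply, Matrix.diagonal_apply_ne _ (by decide)] at h5
    exact zero_ne_one h5
  have hup : orderOf (pr 2 F (uu F 1)) = p := by
    apply orderOf_eq_prime _ hu1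
    rw [← map_pow, uu_pow hF2, CharP.cast_eq_zero, uu_zero, map_one]
  have hmem : pr 2 F (uu F 1) ∈ PSO F := Subgroup.mem_map_of_mem _ (uu_mem hF2 1)
  have hX1 : PSO F ≠ ⊥ := by
    intro h
    rw [h, Subgroup.mem_bot] at hmem
    exact hu1 hmem
  have hX2 : PSO F ≠ ⊤ := by
    intro h
    let x : SpecialLinearGroup (Fin 3) F := ⟨!![1, 1, 0; 0, 1, 0; 0, 0, 1], by simp [Matrix.det_fin_three]⟩
    have h4 : pr 2 F x ∈ PSO F := h ▸ Subgroup.mem_top _
    obtain ⟨s, hs, e⟩ := h4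
    have h5 : s⁻¹ * x ∈ (pr 2 F).ker := by
      rw [MonoidHom.mem_ker, map_mul, map_inv, e, inv_mul_cancel]
    rw [ker_pr] at h5
    obtain ⟨r, -, hr⟩ := Matrix.SpecialLinearGroup.mem_center_iff.mp h5
    have h6 : x.1 = r • s.1 := by
      have h7 : x.1 = s.1 * (s⁻¹ * x).1 := by
        rw [← Matrix.SpecialLinearGroup.coe_mul, mul_inv_cancel_left]
      rw [h7, ← hr]
      change s.1 * Matrix.scalar (Fin 3) r = r • s.1
      rw [Matrix.scalar_apply, ← Matrix.smul_one_eq_diagonal, Matrix.mul_smul, mul_one]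
    have h7 : x.1ᵀ * J F * x.1 = (r * r) • J F := by
      rw [h6, Matrix.transpose_smul, Matrix.smul_mul, Matrix.smul_mul, Matrix.mul_smul, smul_smul,
        mem_SO.mp hs]
    have h8 := congrFun (congrFun h7 1) 2
    simp [x, J, Matrix.mul_apply, Fin.sum_univ_three] at h8
  obtain ⟨P, hP1, hP2, -, hP4, -⟩ := hA.hall _ hX1 hX2 (stab_PSO h3 A0)
  have hpP : p ∣ Nat.card P := by
    have h4 := orderOf_dvd_natCard (⟨_, hP1 hmem⟩ : P)
    rw [Subgroup.orderOf_mk, hup] at h4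
    exact h4
  have hPi : ¬ p ∣ P.index := by
    intro h1
    have := Nat.dvd_gcd hpP h1
    rw [hP4] at this
    exact hpp.out.one_lt.ne' (Nat.dvd_one.mp this)
  obtain ⟨g, i, hgi⟩ := exists_conj_le R GG_P Sup_P hPi hP2
  obtain ⟨Y, hY1, hY2, hY3⟩ := exists_submodule (p := p) (ca 2) hgi
  exact hY2 (eq_top_of_inv hF2 hY1 (fun v hv => hY3 _ (hP1 hmem) v hv)
    (fun v hv => hY3 _ (hP1 (Subgroup.mem_map_of_mem _ ww_mem)) v hv))

end Cfsg.Agent.H554.LieSO3
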