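import Mathlib
import Cfsg.Agent.H554.LieSO3
import Cfsg.Agent.S0799
import Cfsg.Agent.S0265

/-!
# No Hall systems: `PSL_d(q)` (helper554)

* `noHall_PSL` : `d ≥ 3`, `(d, q) ≠ (3, 2), (5, 2)`;
* `noHall_PSL2` : `d = 2`, `q ≥ 4`, `q ≠ 7, 11`.
-/

set_option autoImplicit false
set_option linter.unusedSectionVars false

namespace Cfsg.Agent.H554.LiePSL

open Matrix Pointwise Module
open CoxeterSystem Cfsg.Agent.ChevalleyStructure.CoxeterGeom Cfsg.Agent.Tits.Roots Cfsg.Agent.Tits.Core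
  Cfsg.Agent.Tits.Exchange Cfsg.Agent.Nodes.Reps Cfsg.Agent.Nodes.BNOf Cfsg.Agent.Nodes.StabComb
  Cfsg.Agent.Nodes.Bruhat Cfsg.Agent.Nodes.OppDec Cfsg.Agent.Nodes.LeviDec Cfsg.Agent.Nodes.NormalForm
  Cfsg.Agent.KFacts.RgdOpp Cfsg.Agent.KFacts.RgdAut Cfsg.Agent.H554.RG Cfsg.Agent.H554.SLSub Cfsg.Agent.H554.PSLNum
open Cfsg.Agent.LieRecognition.BNCox (cA cA_apply)
open Cfsg.Agent.Nodes.RootsA
open Cfsg.Agent.Nodes.RGDTypeA (tv_val T X XX mem_XX pr ns mono_ns Mono X_rtA ker_pr)

theorem noHall_PSL {n : ℕ} {F : Type*} [Field F] [Fintype F] (hn : 2 ≤ n) (h3 : ¬ (n = 2 ∧ Fintype.card F = 2))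
    (h5 : ¬ (n = 4 ∧ Fintype.card F = 2)) : NoHall (ProjectiveSpecialLinearGroup (Fin (n + 1)) F) := by
  have hq := q_two (F := F)
  rcases Nat.even_or_odd n with hev | hodd
  · by_cases h6 : 6 ≤ n
    · exact noHall_big h6 hev
    obtain ⟨k, hk⟩ := hev
    have hn' : n = 2 ∨ n = 4 := by omega
    rcases Nat.even_or_odd (Fintype.card F) with hqe | hqo
    · exact noHall_char_two hn (by omega) (even_iff_two_dvd.mp hqe)
    · rcases hn' with rfl | rfl
      · by_cases h7 : 3 ∣ Fintype.card F - 1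
        · exact noHall_three_one h7
        · exact LieSO3.noHall_three_odd hqo h7
      · exact noHall_five_odd hqo
  · exact noHall_even_dim (by obtain ⟨k, hk⟩ := hodd; omega) hodd

/-! ### Rank one -/

section RankOne

variable {F : Type*} [Field F] [Fintype F]

theorem simple_two (h4 : 4 ≤ Fintype.card F) : IsSimpleGroup (ProjectiveSpecialLinearGroup (Fin (1 + 1)) F) :=
  Matrix.ProjectiveSpecialLinearGroup.rank_two_simple (by rwa [Nat.card_eq_fintype_card])

theorem not_comm_two (h4 : 4 ≤ Fintype.card F) :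
    ¬ IsMulCommutative (ProjectiveSpecialLinearGroup (Fin (1 + 1)) F) := by
  intro hc
  have hsimple := simple_two h4
  obtain ⟨p, hp⟩ := CharP.exists F
  have : Fact p.Prime := ⟨CharP.char_is_prime F p⟩
  have R := rgdP (n := 1) (F := F) p
  have h1 : (RGD.B (ca 1) (isCartan 1) (TP 1 F) (XP 1 F)).Normal := by
    refine ⟨fun a ha g => ?_⟩
    have : g * a * g⁻¹ = a := by
      rw [isMulCommutative_iff] at hc
      rw [hc g a, mul_inv_cancel_right]
    rwa [this]
  rcases h1.eq_bot_or_eq_top with h2 | h2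
  · exact B_ne_bot R h2
  · have h3 : PJ (ca 1) (isCartan 1) (TP 1 F) (XP 1 F) (∅ : Set (Fin 1)) = ⊤ := top_le_iff.mp (h2 ▸ B_le_PJ)
    rw [PJ_eq_top_iff R GG_P] at h3
    exact Set.notMem_empty (0 : Fin 1) (h3 ▸ Set.mem_univ _)

/-- the Borel subgroup -/
theorem PP_eq_B : PP (F := F) (ca 1) 0 = RGD.B (ca 1) (isCartan 1) (TP 1 F) (XP 1 F) := by
  obtain ⟨p, hp⟩ := CharP.exists F
  have : Fact p.Prime := ⟨CharP.char_is_prime F p⟩
  have R := rgdP (n := 1) (F := F) p
  apply le_antisymm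
  · have h6 := eq_PJ R GG_P (le_refl (RGD.B (ca 1) (isCartan 1) (TP 1 F) (XP 1 F)))
    rw [h6]
    refine PJ_mono R ?_
    intro i hi
    exact absurd (Subsingleton.elim i 0) hi
  · exact B_le_PJ

theorem index_B : (RGD.B (ca 1) (isCartan 1) (TP 1 F) (XP 1 F)).index = Fintype.card F + 1 := by
  obtain ⟨p, hp⟩ := CharP.exists F
  have : Fact p.Prime := ⟨CharP.char_is_prime F p⟩
  have hq := q_two (F := F)
  rw [← PP_eq_B]
  have h1 := index_one (F := F) (p := p) (ca 1) one_pos
  rw [sq_sub_one] at h1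
  exact Nat.eq_of_mul_eq_mul_right (by omega) h1

theorem card_B : Nat.gcd 2 (Fintype.card F - 1) * Nat.card (RGD.B (ca 1) (isCartan 1) (TP 1 F) (XP 1 F)) =
    Fintype.card F * (Fintype.card F - 1) := by
  obtain ⟨p, hp⟩ := CharP.exists F
  have : Fact p.Prime := ⟨CharP.char_is_prime F p⟩
  have hq := q_two (F := F)
  rw [← PP_eq_B]
  have h1 := card_PP (F := F) (p := p) (ca 1) 0
  simp only [Fin.val_zero, zero_add, Finset.prod_range_one, pow_one, pow_zero, Nat.Ico_succ_singleton,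
    Finset.prod_singleton] at h1
  have h2 : Fintype.card F ^ (1 + 1) - Fintype.card F = Fintype.card F * (Fintype.card F - 1) := by
    rw [Nat.mul_sub, mul_one, pow_succ, pow_one]
  rw [h2] at h1
  apply Nat.eq_of_mul_eq_mul_left (show 0 < Fintype.card F - 1 by omega)
  rw [← h1]
  ring

/-- a number prime to `p` dividing `|B|` divides the order of the torus -/
theorem dvd_T {p : ℕ} [Fact p.Prime] [CharP F p] {t : ℕ} (ht : t.Coprime p)
    (hd : t ∣ Nat.card (RGD.B (ca 1) (isCartan 1) (TP 1 F) (XP 1 F))) : t ∣ Nat.card (TP 1 F) := by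
  have R := rgdP (n := 1) (F := F) p
  rw [← card_mul_relIndex' (RGD.T_le_B : TP 1 F ≤ _)] at hd
  refine Nat.Coprime.dvd_of_dvd_mul_right ?_ hd
  have h1 := relIndex_T_B_dvd R
  obtain ⟨e, he⟩ := IsPGroup.iff_card.mp R.isPGroup_Upos
  rw [he] at h1
  exact Nat.Coprime.coprime_dvd_right h1 (ht.pow_right e)

theorem noHall_two_even (h4 : 4 ≤ Fintype.card F) (h2 : 2 ∣ Fintype.card F) :
    NoHall (ProjectiveSpecialLinearGroup (Fin (1 + 1)) F) := by
  obtain ⟨p, hp⟩ := CharP.exists F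
  have hpp : Fact p.Prime := ⟨CharP.char_is_prime F p⟩
  have hp2 : p = 2 := by
    obtain ⟨e, -, he⟩ := FiniteField.card F p
    rw [he] at h2
    exact ((Nat.prime_dvd_prime_iff_eq Nat.prime_two hpp.out).mp (Nat.prime_two.dvd_of_dvd_pow h2)).symm
  have R := rgdP (n := 1) (F := F) p
  have hsimple := simple_two h4
  obtain ⟨r, hr1, hr2⟩ := Nat.exists_prime_and_dvd (show Fintype.card F - 1 ≠ 1 by omega)
  have hr3 : r ≠ 2 := by
    rintro rfl
    have : 2 ∣ Fintype.card F - (Fintype.card F - 1) := Nat.dvd_sub h2 hr2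
    rw [show Fintype.card F - (Fintype.card F - 1) = 1 by omega] at this
    norm_num at this
  refine noHall_of_torus R (not_comm_two h4) GG_P Sup_P hp2 hr1 (dvd_T (p := p) ?_ ?_) ?_
  · rw [hp2]
    exact (Nat.coprime_primes hr1 Nat.prime_two).mpr hr3
  · have h5 := card_B (F := F)
    have h6 : Nat.gcd 2 (Fintype.card F - 1) = 1 := by
      rw [← Nat.coprime_iff_gcd_eq_one, Nat.coprime_two_left]
      exact Nat.Even.sub_odd (by omega) (even_iff_two_dvd.mpr h2) odd_one
    rw [h6, one_mul] at h5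
    rw [h5]
    exact hr2.mul_left _
  · rw [index_B]
    intro h5
    have h6 := Nat.dvd_sub h5 hr2
    rw [show Fintype.card F + 1 - (Fintype.card F - 1) = 2 by omega] at h6
    exact hr3 ((Nat.prime_dvd_prime_iff_eq hr1 Nat.prime_two).mp h6)

/-- the Borel subgroup is a Hall subgroup -/
theorem hall_B {A0 : Subgroup (MulAut (ProjectiveSpecialLinearGroup (Fin (1 + 1)) F))} {m : ℕ}
    (hA : HallSys (ProjectiveSpecialLinearGroup (Fin (1 + 1)) F) A0 m) :
    (Nat.card (RGD.B (ca 1) (isCartan 1) (TP 1 F) (XP 1 F))).Coprime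
      (RGD.B (ca 1) (isCartan 1) (TP 1 F) (XP 1 F)).index := by
  obtain ⟨p, hp⟩ := CharP.exists F
  have : Fact p.Prime := ⟨CharP.char_is_prime F p⟩
  have R := rgdP (n := 1) (F := F) p
  have h1 := (hall_parabolic R GG_P hA (0 : Fin 1)).1
  have h2 : ({i | ∀ σ ∈ DD (ca 1) (isCartan 1) (TP 1 F) (XP 1 F) A0, σ 0 ≠ i} : Set (Fin 1)) = {0}ᶜ := by
    ext i
    have hi : i = 0 := Subsingleton.elim _ _
    subst hi
    simp only [Set.mem_ofPred_eq, Set.mem_compl_iff, Set.mem_singleton_iff, not_true_eq_false, iff_false, not_forall]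
    exact ⟨1, Subgroup.one_mem _, by simp⟩
  rw [h2] at h1
  rw [← PP_eq_B]
  exact h1

theorem noHall_two_one (h4 : 4 ≤ Fintype.card F) (h1 : Fintype.card F % 4 = 1) :
    NoHall (ProjectiveSpecialLinearGroup (Fin (1 + 1)) F) := by
  intro A0 m hA
  have h2 := hall_B hA
  rw [index_B] at h2
  have h3 := card_B (F := F)
  have h5 : Nat.gcd 2 (Fintype.card F - 1) = 2 := Nat.gcd_eq_left (by omega)
  rw [h5] at h3
  have h6 : 2 ∣ Nat.card (RGD.B (ca 1) (isCartan 1) (TP 1 F) (XP 1 F)) := by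
    apply Nat.dvd_of_mul_dvd_mul_left (show 0 < 2 by norm_num)
    rw [h3]
    exact Dvd.dvd.mul_left (by omega) _
  have h7 := Nat.dvd_gcd h6 (show 2 ∣ Fintype.card F + 1 by omega)
  rw [h2] at h7
  norm_num at h7

/-- `q ≡ 3` modulo `4`, `q ≠ 7, 11`. -/
theorem noHall_two_three (h4 : 4 ≤ Fintype.card F) (h1 : Fintype.card F % 4 = 3) (h7 : Fintype.card F ≠ 7)
    (h11 : Fintype.card F ≠ 11) : NoHall (ProjectiveSpecialLinearGroup (Fin (1 + 1)) F) := by
  obtain ⟨p, hp⟩ := CharP.exists F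
  have hpp : Fact p.Prime := ⟨CharP.char_is_prime F p⟩
  have R := rgdP (n := 1) (F := F) p
  have hsimple := simple_two h4
  have hpF : p ∣ Fintype.card F := by
    obtain ⟨e, -, he⟩ := FiniteField.card F p
    rw [he]
    exact dvd_pow_self p e.ne_zero
  have hp2 : p ≠ 2 := by
    rintro rfl
    omega
  set q := Fintype.card F with hq
  obtain ⟨t, ht⟩ : ∃ t, q = 2 * t + 1 := ⟨q / 2, by omega⟩
  have ht1 : t % 2 = 1 := by omega
  have ht3 : 3 ≤ t := by omega
  have hg2 : Nat.gcd 2 (q - 1) = 2 := Nat.gcd_eq_left (by omega)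
  have hB := card_B (F := F)
  rw [← hq, hg2] at hB
  have hB' : Nat.card (RGD.B (ca 1) (isCartan 1) (TP 1 F) (XP 1 F)) = q * t := by
    apply Nat.eq_of_mul_eq_mul_left (show 0 < 2 by norm_num)
    rw [hB]
    have : q - 1 = 2 * t := by omega
    rw [this]
    ring
  have hS : Nat.card (ProjectiveSpecialLinearGroup (Fin (1 + 1)) F) = q * t * (q + 1) := by
    rw [← (RGD.B (ca 1) (isCartan 1) (TP 1 F) (XP 1 F)).card_mul_index, hB', index_B]
  have htp : t.Coprime p := by
    rw [Nat.coprime_comm, hpp.out.coprime_iff_not_dvd]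
    intro h
    have h2 : p ∣ 2 * t + 1 := ht ▸ hpF
    exact hpp.out.one_lt.ne' (Nat.dvd_one.mp ((Nat.dvd_add_right (h.mul_left 2)).mp h2))
  have htT : t ∣ Nat.card (TP 1 F) := dvd_T (p := p) htp (hB' ▸ dvd_mul_left _ _)
  intro A0 m hA
  -- the normaliser of the torus
  have hT1 : TP 1 F ≠ ⊥ := by
    intro h
    rw [h, Subgroup.card_bot] at htT
    have := Nat.dvd_one.mp htT
    omega
  have hT2 : TP 1 F ≠ ⊤ := by
    intro h
    have h2 : RGD.B (ca 1) (isCartan 1) (TP 1 F) (XP 1 F) = ⊤ := top_le_iff.mp (h ▸ RGD.T_le_B)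
    have h3 := index_B (F := F)
    rw [h2, Subgroup.index_top] at h3
    omega
  have hN1 : Subgroup.normalizer (TP 1 F : Set (ProjectiveSpecialLinearGroup (Fin (1 + 1)) F)) ≠ ⊥ := by
    intro hb
    exact hT1 (le_bot_iff.mp (hb ▸ (Subgroup.le_normalizer : TP 1 F ≤ _)))
  obtain ⟨P, hP1, hP2, -, hP4, -⟩ := hA.hall _ hN1 (normalizer_ne_top (not_comm_two h4) hT1 hT2)
    (stab_T R GG_P).normalizer
  have htP : t ∣ Nat.card P := htT.trans (Subgroup.card_dvd_of_le (Subgroup.le_normalizer.trans hP1))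
  have heven : 2 ∣ Nat.card P :=
    even_of_n_mem R (i := 0) (TP 1 F).one_mem (hP1 (by rw [one_mul]; exact R.nsys.norm 0))
  -- a power of two dividing `|S|` divides `|P|`
  have h2pow : ∀ k : ℕ, 2 ^ k ∣ q + 1 → 2 ^ k ∣ Nat.card P := by
    intro k hk
    have h2 : 2 ^ k ∣ Nat.card P * P.index := by
      rw [P.card_mul_index, hS]
      exact hk.mul_left _
    refine Nat.Coprime.dvd_of_dvd_mul_right (Nat.Coprime.pow_left k ?_) h2
    rw [Nat.prime_two.coprime_iff_not_dvd]
    intro h3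
    have := Nat.dvd_gcd heven h3
    rw [hP4] at this
    norm_num at this
  have h4P : 4 ∣ Nat.card P := h2pow 2 (by omega)
  have h4t : 4 * t ∣ Nat.card P := by
    refine Nat.Coprime.mul_dvd_of_dvd_of_dvd ?_ h4P htP
    have : Nat.Coprime 2 t := by
      rw [Nat.prime_two.coprime_iff_not_dvd]
      omega
    exact Nat.Coprime.pow_left 2 this
  -- `P` is a `p'`-group
  have hpP : ¬ p ∣ Nat.card P := by
    intro h2
    have hPi : ¬ p ∣ P.index := by
      intro h3
      have := Nat.dvd_gcd h2 h3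
      rw [hP4] at this
      exact hpp.out.one_lt.ne' (Nat.dvd_one.mp this)
    obtain ⟨g, i, hgi⟩ := exists_conj_le R GG_P Sup_P hPi hP2
    have hi : i = 0 := Subsingleton.elim _ _
    subst hi
    have h3 := Subgroup.card_dvd_of_le hgi
    have h5 : Nat.card (P.map (MulAut.conj g).toMonoidHom) = Nat.card P :=
      Nat.card_congr (P.equivMapOfInjective _ (MulAut.conj g).injective).symm.toEquiv
    have h6 : Nat.card (PP (F := F) (ca 1) 0) = q * t := by rw [PP_eq_B, hB']
    rw [h5] at h3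
    change Nat.card P ∣ Nat.card (PP (F := F) (ca 1) 0) at h3
    rw [h6] at h3
    have h8 : 2 ∣ q * t := heven.trans h3
    rcases Nat.prime_two.dvd_mul.mp h8 with h9 | h9 <;> omega
  have hPpos : 0 < Nat.card P := Nat.card_pos
  rcases Cfsg.Agent.S0799.result hq.symm p P with h | h | h | h | h | h
  · obtain ⟨k, hk, hk'⟩ := h
    have hk2 : Nat.card P ∣ 2 * k := by
      rcases hk' with ⟨-, h2⟩ | ⟨⟨e⟩⟩
      · rw [h2]; exact dvd_mul_left _ _
      · rw [Nat.card_congr e.toEquiv, DihedralGroup.nat_card]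
    rw [hg2] at hk
    rcases hk with hk | hk
    · have h2 : t ∣ q + 1 := by
        have h3 : 2 * k ∣ q + 1 := by
          obtain ⟨c, hc⟩ := hk
          exact ⟨c, by rw [mul_assoc, ← hc]; omega⟩
        exact (htP.trans hk2).trans h3
      have h3 : t ∣ 2 * t + 2 := by
        have : q + 1 = 2 * t + 2 := by omega
        rwa [this] at h2
      have h5 := (Nat.dvd_add_right (dvd_mul_left t 2)).mp h3
      have := Nat.le_of_dvd (by norm_num) h5
      omega
    · have h2 : 4 * t ∣ 2 * t := by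
        have h3 : 2 * k ∣ 2 * t := by
          apply Nat.mul_dvd_mul_left
          have : (q - 1) / 2 = t := by omega
          rwa [this] at hk
        exact (h4t.trans hk2).trans h3
      have := Nat.le_of_dvd (by omega) h2
      omega
  · obtain ⟨Q, K, hK, ⟨e⟩⟩ := h
    -- `|N(Q)| = |B|`
    obtain ⟨Q₀, hQ₀⟩ := exists_sylow R GG_P
    have h2 : Nat.card (Subgroup.normalizer ((Q : Subgroup (ProjectiveSpecialLinearGroup (Fin (1 + 1)) F)) :
        Set (ProjectiveSpecialLinearGroup (Fin (1 + 1)) F))) = q * t := by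
      obtain ⟨g, hg⟩ := MulAction.exists_smul_eq (ProjectiveSpecialLinearGroup (Fin (1 + 1)) F) Q Q₀
      have h3 : (Q₀ : Subgroup (ProjectiveSpecialLinearGroup (Fin (1 + 1)) F)) =
          (Q : Subgroup (ProjectiveSpecialLinearGroup (Fin (1 + 1)) F)).map (MulAut.conj g).toMonoidHom := by
        rw [← hg]; rfl
      have h5 := normalizer_map_equiv (MulAut.conj g)
        (Q : Subgroup (ProjectiveSpecialLinearGroup (Fin (1 + 1)) F))
      have h6 : Nat.card (Subgroup.normalizer ((Q₀ : Subgroup (ProjectiveSpecialLinearGroup (Fin (1 + 1)) F)) :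
          Set (ProjectiveSpecialLinearGroup (Fin (1 + 1)) F))) = q * t := by
        rw [hQ₀, normalizer_U' R GG_P, hB']
      rw [← h6, h3]
      refine Eq.trans ?_ (congrArg (fun Z : Subgroup (ProjectiveSpecialLinearGroup (Fin (1 + 1)) F) => Nat.card Z)
        h5.symm)
      exact Nat.card_congr (Subgroup.equivMapOfInjective _ _ (MulAut.conj g).injective).toEquiv
    have h3 : Nat.card P ∣ q * t := by
      rw [← h2, Nat.card_congr e.toEquiv]
      exact Subgroup.card_dvd_of_le hK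
    rcases Nat.prime_two.dvd_mul.mp (heven.trans h3) with h9 | h9 <;> omega
  · obtain ⟨e⟩ := h
    have h2 : Nat.card P = 12 := by
      rw [Nat.card_congr e.toEquiv, nat_card_alternatingGroup, Nat.card_eq_fintype_card, Fintype.card_fin]
      rfl
    rw [h2] at h4t
    obtain ⟨c, hc⟩ := h4t
    have : t = 3 := by
      have h3 : t ∣ 3 := ⟨c, by linarith⟩
      have := Nat.le_of_dvd (by norm_num) h3
      omega
    omega
  · obtain ⟨e⟩ := h
    have h2 : Nat.card P = 24 := by
      rw [Nat.card_congr e.toEquiv, Nat.card_perm, Nat.card_eq_fintype_card, Fintype.card_fin]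
      rfl
    rw [h2] at h4t
    obtain ⟨c, hc⟩ := h4t
    have h3 : t ∣ 6 := ⟨c, by linarith⟩
    have h5 := Nat.le_of_dvd (by norm_num) h3
    interval_cases t <;> omega
  · obtain ⟨e⟩ := h
    have h2 : Nat.card P = 60 := by
      rw [Nat.card_congr e.toEquiv, nat_card_alternatingGroup, Nat.card_eq_fintype_card, Fintype.card_fin]
      rfl
    rw [h2] at h4t
    obtain ⟨c, hc⟩ := h4t
    have h3 : t ∣ 15 := ⟨c, by linarith⟩
    have h5 := Nat.le_of_dvd (by norm_num) h3
    have h6 : t = 3 ∨ t = 5 ∨ t = 15 := by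
      interval_cases t <;> omega
    rcases h6 with rfl | rfl | rfl
    · omega
    · omega
    · have h8 := h2pow 3 (by rw [ht]; norm_num)
      rw [h2] at h8
      norm_num at h8
  · obtain ⟨K, _, _, m', hm', he⟩ := h
    apply hpP
    -- `p ∣ |K|`
    have hKp : p ∣ Fintype.card K := hpp.out.dvd_of_dvd_pow (hm' ▸ hpF)
    have hK2 : 2 ≤ Fintype.card K := Fintype.one_lt_card
    have hcard : p ∣ Nat.card (ProjectiveSpecialLinearGroup (Fin 2) K) := by
      have h2 := Cfsg.Agent.S0243.result (F := K) rfl 2 le_rfl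
      rw [Fin.prod_univ_two] at h2
      have h3 : p ∣ Nat.gcd 2 (Fintype.card K - 1) *
          ((Fintype.card K - 1) * Nat.card (ProjectiveSpecialLinearGroup (Fin 2) K)) := by
        rw [h2]
        refine Dvd.dvd.mul_left ?_ _
        have h5 : Fintype.card K ^ 2 - Fintype.card K ^ ((1 : Fin 2) : ℕ) = Fintype.card K * (Fintype.card K - 1) := by
          rw [Nat.mul_sub, mul_one]
          simp [pow_two]
        rw [h5]
        exact hKp.mul_right _
      have h6 : ¬ p ∣ Fintype.card K - 1 := by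
        intro h7
        have h8 := Nat.dvd_sub hKp h7
        rw [show Fintype.card K - (Fintype.card K - 1) = 1 by omega] at h8
        exact hpp.out.one_lt.ne' (Nat.dvd_one.mp h8)
      rcases hpp.out.dvd_mul.mp h3 with h7 | h7
      · exact absurd (h7.trans (Nat.gcd_dvd_right _ _)) h6
      · rcases hpp.out.dvd_mul.mp h7 with h8 | h8
        · exact absurd h8 h6
        · exact h8
    rcases he with ⟨⟨e⟩⟩ | ⟨⟨e⟩⟩
    · rw [Nat.card_congr e.toEquiv]
      exact hcard
    · rw [Nat.card_congr e.toEquiv, Cfsg.Agent.S0265.result (F := K) 2]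
      refine hcard.trans ?_
      exact Subgroup.card_quotient_dvd_card _

/-- **`PSL₂(q)`.** -/
theorem noHall_PSL2 (h4 : 4 ≤ Fintype.card F) (h7 : Fintype.card F ≠ 7)
    (h11 : Fintype.card F ≠ 11) : NoHall (ProjectiveSpecialLinearGroup (Fin 2) F) := by
  have h : Fintype.card F % 4 < 4 := Nat.mod_lt _ (by norm_num)
  by_cases h2 : 2 ∣ Fintype.card F
  · exact noHall_two_even h4 h2
  · by_cases h1 : Fintype.card F % 4 = 1
    · exact noHall_two_one h4 h1
    · exact noHall_two_three h4 (by omega) h7 h11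

end RankOne

end Cfsg.Agent.H554.LiePSL
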