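import Mathlib
import Cfsg.Agent.H554.RGTits
import Cfsg.Agent.H554.LieE
import Cfsg.Agent.S1035
import Cfsg.Agent.S1055
import Cfsg.Agent.S1056
import Cfsg.Agent.S1059
import Cfsg.Agent.S1060

/-!
# No Hall systems: `G₂(q)` and `PSp₄(q)`, `q ≥ 3` (helper554)
-/

set_option autoImplicit false
set_option linter.unusedSectionVars false

namespace Cfsg.Agent.H554.LieR2

open CoxeterSystem Cfsg.Lie Cfsg.Agent.ChevalleyStructure Cfsg.Agent.ChevalleyStructure.CoxeterGeom
  Cfsg.Agent.ChevalleyStructure.CoxeterGeomTypes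
  Cfsg.Agent.Tits.Roots Cfsg.Agent.Tits.Core Cfsg.Agent.Nodes.Reps Cfsg.Agent.Nodes.BNOf
  Cfsg.Agent.Nodes.RGDChev Cfsg.Agent.Nodes.RGDLib Cfsg.Agent.Nodes.StabComb Cfsg.Agent.Nodes.Bruhat Cfsg.Agent.H554.RG
  Cfsg.Agent.Nodes.OppDec Cfsg.Agent.Nodes.LeviDec Cfsg.Agent.Nodes.NormalForm Cfsg.Agent.KFacts.RgdOpp
open Cfsg.Agent.KFacts.SLRow.Chev (card_XV)

universe u

variable {D : ChevalleyDatum} {M : CoxeterMatrix (Fin 2)}

theorem perm_two_sq (σ : Equiv.Perm (Fin 2)) : σ ^ 2 = 1 := by
  revert σ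
  decide

/-- The criterion for the tabulated data of rank two. -/
theorem noHall_group (hp : IsType D 2 M) (r : ℕ) (hr : r < D.nroots) (hd : 0 ≤ D.cartan 0 r) (hk : D.cartan 1 r = 0)
    (K : Type u) [Field K] [Finite K] [IsSimpleGroup ↥(D.group K)] (hna : ¬ IsMulCommutative ↥(D.group K))
    (hT : Nat.card (D.diagonalSubgroup K) ∣ (Nat.card K - 1) ^ 2)
    (hs : 2 ∣ Nat.card K → ∃ s : ℕ, s.Prime ∧ s ∣ Nat.card ↥(D.group K) ∧ ¬ s ∣ Nat.card K ∧ ¬ s ∣ Nat.card K - 1 ∧
      ¬ s ∣ Nat.card K + 1) : NoHall ↥(D.group K) := by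
  obtain ⟨p, hp'⟩ := CharP.exists K
  have hpp : Fact p.Prime := ⟨CharP.char_is_prime K p⟩
  let cs := M.toCoxeterSystem
  have hW : Finite M.Group := finite_W hp cs
  have R := rgd (K := K) hp cs p
  have hfin : Finite ↥(D.group K) := inferInstance
  have h1 := LieC.cast_neg_one (Nat.card K)
  have hX := fun x hx => card_XV hp K cs (x := x) hx
  have hG := LieE.GG_eq_top hp K cs
  intro A0 m hA
  by_cases hsw : ∀ σ ∈ DD cs hp.isCartan ((D.diagonalSubgroup K).subgroupOf (D.group K))
      (fun x => (XV D 2 K x).subgroupOf (D.group K)) A0, σ 0 ≠ 1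
  · refine false_of_root R hG hA (isRoot_vec hp cs hr) ?_ 0 1 ?_ hsw (l := Nat.card K + 1) ?_ ?_ ?_ ?_
    · intro i
      rw [pairing_vec hp i hr]
      fin_cases i
      · exact hd
      · exact hk.ge
    · intro i hi
      rw [mem_orth, pairing_vec hp i hr]
      fin_cases i
      · exact absurd rfl (hi 1 (Subgroup.one_mem _))
      · exact hk
    · have := Finite.one_lt_card (α := K)
      omega
    · intro x hx
      rw [hX x hx, h1]
      ring
    · rw [hX _ (isRoot_vec hp cs hr), h1]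
    · rw [hX _ (isRoot_sr cs _ _), h1]
  · push Not at hsw
    obtain ⟨σ, hσ, hσ0⟩ := hsw
    obtain ⟨h2, h3⟩ := hall_parabolic R hG hA 0
    -- `2 ∣ m`
    have h4 : 2 ∣ m := by
      by_contra hodd
      obtain ⟨k, hk'⟩ := Nat.odd_iff.mpr (Nat.two_dvd_ne_zero.mp hodd)
      have h5 := DD_pow_m R hG hA hσ
      rw [hk', pow_add, pow_mul, perm_two_sq, one_pow, one_mul, pow_one] at h5
      rw [h5, Equiv.Perm.one_apply] at hσ0
      exact absurd hσ0 (by decide)
    -- `q + 1` is odd
    have h6 : Nat.card K + 1 ∣ (PJ cs hp.isCartan ((D.diagonalSubgroup K).subgroupOf (D.group K))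
        (fun x => (XV D 2 K x).subgroupOf (D.group K))
        {i | ∀ σ ∈ DD cs hp.isCartan ((D.diagonalSubgroup K).subgroupOf (D.group K))
          (fun x => (XV D 2 K x).subgroupOf (D.group K)) A0, σ 0 ≠ i}).index := by
      have h7 : ({i | ∀ σ ∈ DD cs hp.isCartan ((D.diagonalSubgroup K).subgroupOf (D.group K))
          (fun x => (XV D 2 K x).subgroupOf (D.group K)) A0, σ 0 ≠ i} : Set (Fin 2)) = ∅ := by
        ext i
        simp only [Set.mem_ofPred_eq, Set.mem_empty_iff_false, iff_false]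
        intro hi
        fin_cases i
        · exact hi 1 (Subgroup.one_mem _) rfl
        · exact hi σ hσ hσ0
      rw [h7]
      have h8 : PJ cs hp.isCartan ((D.diagonalSubgroup K).subgroupOf (D.group K))
        (fun x => (XV D 2 K x).subgroupOf (D.group K)) ∅ ≤ PJ cs hp.isCartan
        ((D.diagonalSubgroup K).subgroupOf (D.group K)) (fun x => (XV D 2 K x).subgroupOf (D.group K)) {0} :=
        PJ_mono R (Set.empty_subset _)
      have h9 := relIndex_B_PJ_singleton R (0 : Fin 2)
      rw [hX _ (isRoot_sr cs _ _)] at h9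
      have h10 : RGD.B cs hp.isCartan ((D.diagonalSubgroup K).subgroupOf (D.group K))
        (fun x => (XV D 2 K x).subgroupOf (D.group K)) = PJ cs hp.isCartan
        ((D.diagonalSubgroup K).subgroupOf (D.group K)) (fun x => (XV D 2 K x).subgroupOf (D.group K)) ∅ := by
        have h11 := eq_PJ R hG (le_refl (RGD.B cs hp.isCartan ((D.diagonalSubgroup K).subgroupOf (D.group K))
          (fun x => (XV D 2 K x).subgroupOf (D.group K))))
        refine h11.trans ?_
        congr 1
        ext i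
        simp only [Set.mem_ofPred_eq, Set.mem_empty_iff_false, iff_false]
        intro hi
        have h12 := (n_mem_PJ_iff R (J := ∅) (i := i)).mp (B_le_PJ hi)
        exact h12
      rw [← h10, ← h9]
      exact Subgroup.relIndex_dvd_index_of_le B_le_PJ
    have hq2 : 2 ∣ Nat.card K := by
      by_contra hodd
      have h7 : 2 ∣ Nat.card K + 1 := by omega
      have h8 := Nat.dvd_gcd (h7.trans h6) h4
      rw [h3] at h8
      norm_num at h8
    -- the characteristic is two
    have hp2 : p = 2 := by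
      have hF : Fintype K := Fintype.ofFinite K
      obtain ⟨e, -, he⟩ := FiniteField.card K p
      rw [Nat.card_eq_fintype_card, he] at hq2
      exact ((Nat.prime_dvd_prime_iff_eq Nat.prime_two hpp.out).mp (Nat.prime_two.dvd_of_dvd_pow hq2)).symm
    obtain ⟨s, hs1, hs2, hs3, hs4, hs5⟩ := hs hq2
    refine false_of_p_dvd R hna hG ?_ hA (hp2 ▸ h4) hs1 hs2 ?_
    · exact (G1_eq_top hp cs)
    · intro i hdv
      have h7 : ∃ j : Fin 2, ({i}ᶜ : Set (Fin 2)) = {j} := by
        fin_cases i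
        · exact ⟨1, by ext x; fin_cases x <;> simp⟩
        · exact ⟨0, by ext x; fin_cases x <;> simp⟩
      obtain ⟨j, hj⟩ := h7
      rw [hj, ← card_mul_relIndex' (B_le_PJ (J := {j})), relIndex_B_PJ_singleton R j,
        hX _ (isRoot_sr cs _ _)] at hdv
      rcases hs1.dvd_mul.mp hdv with h8 | h8
      · have hTB : ((D.diagonalSubgroup K).subgroupOf (D.group K)) ≤
          RGD.B cs hp.isCartan ((D.diagonalSubgroup K).subgroupOf (D.group K))
          (fun x => (XV D 2 K x).subgroupOf (D.group K)) := RGD.T_le_B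
        rw [← card_mul_relIndex' hTB] at h8
        rcases hs1.dvd_mul.mp h8 with h9 | h9
        · have h10 : Nat.card ((D.diagonalSubgroup K).subgroupOf (D.group K)) ∣ Nat.card (D.diagonalSubgroup K) :=
            Subgroup.card_comap_dvd_of_injective _ _ (Subgroup.subtype_injective _)
          exact hs4 (hs1.dvd_of_dvd_pow ((h9.trans h10).trans hT))
        · have h10 := h9.trans (relIndex_T_B_dvd R)
          obtain ⟨e, he⟩ := IsPGroup.iff_card.mp R.isPGroup_Upos
          rw [he] at h10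
          have h11 : s = p := (Nat.prime_dvd_prime_iff_eq hs1 hpp.out).mp (hs1.dvd_of_dvd_pow h10)
          rw [h11, hp2] at hs3
          exact hs3 hq2
      · exact hs5 h8

theorem ex_ne {K : Type u} [Field K] [Finite K] (hq : 3 ≤ Nat.card K) : ∃ a : K, a ≠ 0 ∧ a ≠ 1 := by
  classical
  have : Fintype K := Fintype.ofFinite K
  by_contra hcon
  push Not at hcon
  have h1 : (Finset.univ : Finset K) ⊆ {0, 1} := by
    intro a _
    rw [Finset.mem_insert, Finset.mem_singleton]
    by_cases h : a = 0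
    · exact Or.inl h
    · exact Or.inr (hcon a h)
  have h2 := Finset.card_le_card h1
  rw [Finset.card_univ, ← Nat.card_eq_fintype_card] at h2
  have h3 : ({0, 1} : Finset K).card ≤ 2 := Finset.card_le_two
  omega

theorem noHall_G2 (K : Type u) [Field K] [Finite K] (hq : 3 ≤ Nat.card K) : NoHall ↥(chevG2.group K) := by
  have hF : Fintype K := Fintype.ofFinite K
  obtain ⟨h1, h2⟩ := Cfsg.Agent.S1055.result (ex_ne hq)
  refine noHall_group (M := CoxeterMatrix.G₂) (by simp [IsType, typeList]) 9 (by decide +kernel) (by decide +kernel)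
    (by decide +kernel) K h2 ?_ ?_
  · have h3 := Cfsg.Agent.S1035.result (F := K) (q := Nat.card K) Nat.card_eq_fintype_card.symm (chevG2, 1) (by simp)
    have h4 : chevG2.rank = 2 := by decide +kernel
    simp only [one_mul, h4] at h3
    exact dvd_of_eq h3
  · intro h2q
    have hc : Nat.card ↥(chevG2.group K) = Nat.card K ^ 6 * (Nat.card K ^ 2 - 1) * (Nat.card K ^ 6 - 1) :=
      Cfsg.Agent.S1059.result Nat.card_eq_fintype_card.symm
    set q := Nat.card K with hqd
    obtain ⟨k, hk⟩ : ∃ k, q = k + 1 := ⟨q - 1, by omega⟩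
    -- a prime divisor of `q² - q + 1` other than `3`
    have h3 : ∃ s : ℕ, s.Prime ∧ s ∣ k ^ 2 + k + 1 ∧ s ≠ 3 := by
      by_contra hcon
      push Not at hcon
      have h4 : k ^ 2 + k + 1 = 3 ^ (k ^ 2 + k + 1).primeFactorsList.length :=
        Nat.eq_prime_pow_of_unique_prime_dvd (by positivity) fun hd1 hd2 => hcon _ hd1 hd2
      have h5 : ¬ 9 ∣ k ^ 2 + k + 1 := by
        intro h6
        have h7 : (k ^ 2 + k + 1) % 9 = 0 := Nat.mod_eq_zero_of_dvd h6
        have h8 : k % 9 < 9 := Nat.mod_lt _ (by norm_num)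
        rw [Nat.add_mod, Nat.add_mod (k ^ 2), Nat.pow_mod] at h7
        interval_cases h9 : k % 9 <;> simp at h7
      have h6 : (k ^ 2 + k + 1).primeFactorsList.length < 2 := by
        by_contra h7
        push Not at h7
        apply h5
        rw [h4]
        exact (pow_dvd_pow 3 h7 : 3 ^ 2 ∣ _)
      have h7 : k ^ 2 + k + 1 ≤ 3 := by
        rw [h4]
        calc 3 ^ (k ^ 2 + k + 1).primeFactorsList.length ≤ 3 ^ 1 := Nat.pow_le_pow_right (by norm_num) (by omega)
          _ = 3 := by norm_num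
      have : 2 ≤ k := by omega
      nlinarith
    obtain ⟨s, hs1, hs2, hs3⟩ := h3
    refine ⟨s, hs1, ?_, ?_, ?_, ?_⟩
    · rw [hc]
      refine Dvd.dvd.mul_left ?_ _
      have h4 : q ^ 6 - 1 = (k ^ 2 + k + 1) * (k * (k + 2) * (k ^ 2 + 3 * k + 3)) := by
        rw [hk]
        have h5 : (k + 1) ^ 6 = (k ^ 2 + k + 1) * (k * (k + 2) * (k ^ 2 + 3 * k + 3)) + 1 := by ring
        rw [h5, Nat.add_sub_cancel]
      rw [h4]
      exact hs2.mul_right _
    · intro hd
      rw [hk] at hd
      have h4 : s ∣ (k + 1) * k + 1 := by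
        have : (k + 1) * k + 1 = k ^ 2 + k + 1 := by ring
        rw [this]; exact hs2
      have h5 := (Nat.dvd_add_right (hd.mul_right k)).mp h4
      exact hs1.one_lt.ne' (Nat.dvd_one.mp h5)
    · intro hd
      rw [hk, Nat.add_sub_cancel] at hd
      have h4 : s ∣ k * (k + 1) + 1 := by
        have : k * (k + 1) + 1 = k ^ 2 + k + 1 := by ring
        rw [this]; exact hs2
      have h5 := (Nat.dvd_add_right (hd.mul_right (k + 1))).mp h4
      exact hs1.one_lt.ne' (Nat.dvd_one.mp h5)
    · intro hd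
      rw [hk] at hd
      have h4 : s ∣ 3 := by
        have h5 : (k + 1 + 1) * (k + 1 + 1) = (k ^ 2 + k + 1) + 3 * (k + 1 + 1) - 3 := by
          have : (k ^ 2 + k + 1) + 3 * (k + 1 + 1) = (k + 1 + 1) * (k + 1 + 1) + 3 := by ring
          rw [this, Nat.add_sub_cancel]
        have h6 : (k ^ 2 + k + 1) + 3 * (k + 1 + 1) = (k + 1 + 1) * (k + 1 + 1) + 3 := by ring
        have h7 : s ∣ (k + 1 + 1) * (k + 1 + 1) + 3 := by
          rw [← h6]
          exact (Nat.dvd_add hs2 (hd.mul_left 3))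
        exact (Nat.dvd_add_right (hd.mul_right (k + 1 + 1))).mp h7
      exact hs3 ((Nat.prime_dvd_prime_iff_eq hs1 Nat.prime_three).mp h4)

theorem noHall_B2 (K : Type u) [Field K] [Finite K] (hq : 3 ≤ Nat.card K) : NoHall ↥(chevB2.group K) := by
  have hF : Fintype K := Fintype.ofFinite K
  obtain ⟨h1, h2⟩ := Cfsg.Agent.S1056.result (ex_ne hq)
  refine noHall_group (M := CoxeterMatrix.B 2) (by simp [IsType, typeList]) 7 (by decide +kernel) (by decide +kernel)
    (by decide +kernel) K h2 ?_ ?_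
  · have h3 := Cfsg.Agent.S1035.result (F := K) (q := Nat.card K) Nat.card_eq_fintype_card.symm
      (chevB2, Nat.gcd 2 (Nat.card K - 1)) (by simp)
    have h4 : chevB2.rank = 2 := by decide +kernel
    simp only [h4] at h3
    exact Dvd.intro_left _ h3
  · intro h2q
    have hc : Nat.gcd 2 (Nat.card K - 1) * Nat.card ↥(chevB2.group K) =
      Nat.card K ^ 4 * (Nat.card K ^ 2 - 1) * (Nat.card K ^ 4 - 1) :=
      Cfsg.Agent.S1060.result Nat.card_eq_fintype_card.symm
    set q := Nat.card K with hqd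
    have hg : Nat.gcd 2 (q - 1) = 1 := by
      rw [← Nat.coprime_iff_gcd_eq_one, Nat.coprime_two_left]
      exact Nat.Even.sub_odd (by omega) (even_iff_two_dvd.mpr h2q) odd_one
    rw [hg, one_mul] at hc
    obtain ⟨s, hs1, hs2⟩ := Nat.exists_prime_and_dvd (show q ^ 2 + 1 ≠ 1 by
      have : 0 < q ^ 2 := by positivity
      omega)
    have hs2' : s ≠ 2 := by
      rintro rfl
      have h3 : 2 ∣ q ^ 2 := h2q.trans (dvd_pow_self q (by norm_num))
      have := (Nat.dvd_add_right h3).mp hs2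
      norm_num at this
    have key : ¬ s ∣ q ^ 2 - 1 := by
      intro hd
      have h3 : 1 ≤ q ^ 2 := Nat.one_le_pow _ _ (by omega)
      have h4 := Nat.dvd_sub hs2 hd
      have h5 : q ^ 2 + 1 - (q ^ 2 - 1) = 2 := by omega
      rw [h5] at h4
      exact hs2' ((Nat.prime_dvd_prime_iff_eq hs1 Nat.prime_two).mp h4)
    have hfac : q ^ 2 - 1 = (q - 1) * (q + 1) := by
      have h5 := Nat.sq_sub_sq q 1
      rw [one_pow] at h5
      rw [h5, mul_comm]
    refine ⟨s, hs1, ?_, ?_, ?_, ?_⟩
    · rw [hc]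
      refine Dvd.dvd.mul_left ?_ _
      have h4 : q ^ 4 - 1 = (q ^ 2 + 1) * (q ^ 2 - 1) := by
        have h5 := Nat.sq_sub_sq (q ^ 2) 1
        rw [← pow_mul, one_pow] at h5
        exact h5
      rw [h4]
      exact hs2.mul_right _
    · intro hd
      have h3 : s ∣ q ^ 2 := hd.trans (dvd_pow_self q (by norm_num))
      exact hs1.one_lt.ne' (Nat.dvd_one.mp ((Nat.dvd_add_right h3).mp hs2))
    · intro hd
      exact key (hfac ▸ hd.mul_right _)
    · intro hd
      exact key (hfac ▸ hd.mul_left _)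

theorem noHall_PSp4 (K : Type u) [Field K] [Finite K] (hq : 3 ≤ Nat.card K) : NoHall (Cfsg.PSp 2 K) := by
  obtain ⟨e⟩ := Cfsg.Agent.ChevalleyStructure.B2Sp4.chevB2_equiv_PSp K
  exact (noHall_B2 K hq).congr e

end Cfsg.Agent.H554.LieR2
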