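import Mathlib
import Cfsg.Agent.H554.LieSz
import Cfsg.Agent.H554.Num
import Cfsg.Agent.TitsK.CentOdd
import Cfsg.Agent.TitsK.Model
import Cfsg.Agent.S1074

/-!
# No Hall systems: the Tits group (helper554)

* `thirteen_z`, `thirteen_d` : the centralisers of the involutions of `²F₄(2)` have no elements of order 13;
* `noHall_Tits`.
-/

set_option autoImplicit false
set_option Elab.async false

namespace Cfsg.Agent.H554.LieTits

open Cfsg.Agent.TitsK Cfsg.Agent.TitsK.CentOdd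
open Cfsg.Lie Cfsg.Agent.ChevalleyStructure.TwF4.Tables
open Cfsg.Agent.FourTwo.Base hiding bar bar_lt
open Cfsg.Agent.FourTwo.BN Cfsg.Agent.FourTwo.Comm Cfsg.Agent.FourTwo.Classes

theorem eq_pow_of {G : Type*} [Group G] {g : G} (h13 : g ^ 13 = 1) : g = (g ^ 5)⁻¹ ^ 5 := by
  have h9 : g ^ 26 = 1 := by
    rw [show 26 = 13 * 2 by norm_num, pow_mul, h13, one_pow]
  have h10 : g ^ 25 * g = 1 := by rw [← pow_succ]; exact h9
  rw [inv_pow, ← pow_mul]
  exact (inv_eq_of_mul_eq_one_right h10).symm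

/-- **`C_H(z)` has no elements of order 13.** -/
theorem thirteen_z {g : LL} (hg : g ∈ HT) (h13 : g ^ 13 = 1) (hz : g * z * g⁻¹ = z) : g = 1 := by
  have hP : g ∈ Pz := mem_Pz.2 ⟨hg, hz⟩
  obtain ⟨f, h1, -, h2⟩ := exists_lam
  have hE : g ∈ E8 := by
    rw [← h2 g hP]
    have h4 : f 1 = 0 := (h2 1 Pz.one_mem).2 E8.one_mem
    have h5 : ∀ n : ℕ, f (g ^ n) = n * f g := by
      intro n
      induction n with
      | zero => rw [pow_zero, h4]; simp
      | succ n ih =>
        rw [pow_succ, h1 _ (Pz.pow_mem hP n) _ hP, ih]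
        push_cast
        ring
    have h6 := h5 13
    rw [h13, h4] at h6
    have h7 : ((13 : ℕ) : ZMod 4) = 1 := by decide
    rw [h7, one_mul] at h6
    exact h6.symm
  have hQ : g ∈ Q8 := by
    have h6 : g ^ 5 ∈ Q8 := by
      obtain ⟨i, q, hq, he⟩ := mem_E8.1 hE
      have h5 : ∀ q ∈ Q8, (xf ^ i)⁻¹ * q * xf ^ i ∈ Q8 := fun q hq => by
        have h6 := (Subgroup.mem_normalizer_iff.1 (norm_Q8 (Pz.inv_mem (Pz.zpow_mem xf_mem_Pz i))) q).1 hq
        rwa [inv_inv] at h6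
      obtain ⟨q', hq', h6⟩ := pow_mul_mem h5 hq 5
      have h7 : (xf ^ i) ^ 5 = 1 := by
        rw [← zpow_natCast, ← zpow_mul, mul_comm, zpow_mul, zpow_natCast]
        rw [show ((5 : ℕ)) = 5 from rfl, xf_pow5, one_zpow]
      rw [h7, one_mul, ← he] at h6
      rw [h6]
      exact hq'
    have h8 : g = (g ^ 5)⁻¹ ^ 5 := eq_pow_of h13
    rw [h8]
    exact Q8.pow_mem (Q8.inv_mem h6) 5
  exact eq_one_of_UT (Q8_le hQ) (n := 13) (by decide) h13

/-- an element of order 13 normalising a group of order at most 4 centralises it -/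
theorem thirteen_of_card {G : Type*} [Group G] {V : Subgroup G} [Finite V] (hV : Nat.card V ≤ 4) {g : G}
    (hg : g ∈ Subgroup.normalizer (V : Set G)) (h13 : g ^ 13 = 1) {v : G} (hv : v ∈ V) : g * v * g⁻¹ = v := by
  let f : ↥(Subgroup.normalizer (V : Set G)) →* Equiv.Perm V :=
    (MulAut.toPerm (M := V)).comp V.normalizerMonoidHom
  have h1 : f ⟨g, hg⟩ ^ 13 = 1 := by
    rw [← map_pow]
    have h2 : (⟨g, hg⟩ : ↥(Subgroup.normalizer (V : Set G))) ^ 13 = 1 := Subtype.ext h13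
    rw [h2, map_one]
  have h2 : f ⟨g, hg⟩ ^ 24 = 1 := by
    have h3 : f ⟨g, hg⟩ ^ Nat.card (Equiv.Perm V) = 1 := pow_card_eq_one'
    have h4 : Nat.card (Equiv.Perm V) ∣ 24 := by
      rw [Nat.card_perm]
      have h5 : (Nat.card V).factorial ∣ (4).factorial := Nat.factorial_dvd_factorial hV
      exact h5
    obtain ⟨k, hk⟩ := h4
    rw [hk, pow_mul, h3, one_pow]
  have h3 : f ⟨g, hg⟩ = 1 := by
    have h4 : orderOf (f ⟨g, hg⟩) = 1 := Nat.eq_one_of_dvd_coprimes (by norm_num : Nat.Coprime 13 24)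
      (orderOf_dvd_of_pow_eq_one h1) (orderOf_dvd_of_pow_eq_one h2)
    exact orderOf_eq_one_iff.mp h4
  have h4 := DFunLike.congr_fun h3 ⟨v, hv⟩
  exact congrArg Subtype.val h4

/-- **`C_H(d)` has no elements of order 13.** -/
theorem thirteen_d {g : LL} (hg : g ∈ HT) (h13 : g ^ 13 = 1) (hd : g * d * g⁻¹ = d) : g = 1 := by
  obtain ⟨hfin, hcard⟩ := card_four (V := V4) fun _ => mem_V4_iff
  have hN : g ∈ Subgroup.normalizer (V4 : Set LL) := by
    rw [Subgroup.mem_normalizer_iff]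
    intro v
    constructor
    · intro hv
      exact cent_d_V4 hg hd hv
    · intro hv
      have h1 : g⁻¹ * d * g⁻¹⁻¹ = d := by
        rw [inv_inv]
        calc g⁻¹ * d * g = g⁻¹ * (g * d * g⁻¹) * g := by rw [hd]
          _ = d := by group
      have h2 := cent_d_V4 (HT.inv_mem hg) h1 hv
      have e : g⁻¹ * (g * v * g⁻¹) * g⁻¹⁻¹ = v := by group
      rwa [e] at h2
  have h1 := thirteen_of_card hcard hN h13 z_mem_V4
  have h2 := thirteen_of_card hcard hN h13 z1_mem_V4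
  exact eq_one_of_UT (cent_V_le hg h1 h2) (n := 13) (by decide) h13

/-- an element of order 13 of the Tits group commutes with no involution -/
theorem thirteen_abs {G : Type*} [Group G] [Finite G] (D : TData G)
    (hDz : ∀ k : G, k ∈ D.H → k ^ 13 = 1 → k * D.z * k⁻¹ = D.z → k = 1)
    (hDd : ∀ k : G, k ∈ D.H → k ^ 13 = 1 → k * D.d * k⁻¹ = D.d → k = 1)
    {t g : ↥D.T} (ht : t * t = 1) (ht1 : t ≠ 1) (hg : g ^ 13 = 1) (hc : g * t = t * g) : g = 1 := by
  have hp2 : Fact (Nat.Prime 2) := ⟨Nat.prime_two⟩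
  -- the Sylow subgroup
  have hS1 : ¬ 2 ∣ ((D.U ⊓ D.T).subgroupOf D.T).index := D.odd_S
  have hS2 : IsPGroup 2 ↥((D.U ⊓ D.T).subgroupOf D.T) := by
    have h1 : IsPGroup 2 ↥(D.U ⊓ D.T) := D.isPGroup_U.to_le inf_le_left
    exact h1.comap_subtype
  have hz : IsPGroup 2 ↥(Subgroup.zpowers t) := by
    refine IsPGroup.of_card (n := 1) ?_
    rw [Nat.card_zpowers, pow_one]
    exact orderOf_eq_prime (by rw [pow_two]; exact ht) ht1
  obtain ⟨P, hP⟩ := hz.exists_le_sylow
  obtain ⟨a, ha⟩ := MulAction.exists_smul_eq ↥D.T P (hS2.toSylow hS1)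
  have h1 : a * t * a⁻¹ ∈ (D.U ⊓ D.T).subgroupOf D.T := by
    have h2 : a * t * a⁻¹ ∈ ((a • P : Sylow 2 ↥D.T) : Subgroup ↥D.T) := by
      rw [Sylow.coe_subgroup_smul]
      exact Subgroup.mem_map_of_mem (MulAut.conj a).toMonoidHom (hP (Subgroup.mem_zpowers t))
    rw [ha] at h2
    exact h2
  rw [Subgroup.mem_subgroupOf] at h1
  have h2 : ((a * t * a⁻¹ : ↥D.T) : G) * ((a * t * a⁻¹ : ↥D.T) : G) = 1 := by
    have h3 : (a * t * a⁻¹) * (a * t * a⁻¹) = 1 := by
      calc (a * t * a⁻¹) * (a * t * a⁻¹) = a * (t * t) * a⁻¹ := by group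
        _ = 1 := by rw [ht]; group
    exact congrArg Subtype.val h3
  have h3 : ((a * t * a⁻¹ : ↥D.T) : G) ≠ 1 := by
    intro h4
    apply ht1
    have h5 : a * t * a⁻¹ = 1 := Subtype.ext h4
    calc t = a⁻¹ * (a * t * a⁻¹) * a := by group
      _ = 1 := by rw [h5]; group
  have key : ∀ w : G, (∀ k : G, k ∈ D.H → k ^ 13 = 1 → k * w * k⁻¹ = w → k = 1) →
      (∃ b ∈ D.T, b * ((a * t * a⁻¹ : ↥D.T) : G) * b⁻¹ = w) → g = 1 := by
    rintro w hw ⟨b, hb, hbw⟩
    set c : ↥D.T := ⟨b, hb⟩ * a with hcdef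
    have h4 : ((c * t * c⁻¹ : ↥D.T) : G) = w := by
      rw [← hbw, hcdef]
      simp [mul_assoc]
    have h5 : ((c * g * c⁻¹ : ↥D.T) : G) = 1 := by
      refine hw _ (D.T_le (c * g * c⁻¹).2) ?_ ?_
      · have h6 : (c * g * c⁻¹) ^ 13 = 1 := by
          rw [conj_pow, hg]; group
        exact congrArg Subtype.val h6
      · rw [← h4]
        have h6 : (c * g * c⁻¹) * (c * t * c⁻¹) * (c * g * c⁻¹)⁻¹ = c * t * c⁻¹ := by
          calc (c * g * c⁻¹) * (c * t * c⁻¹) * (c * g * c⁻¹)⁻¹ = c * (g * t * g⁻¹) * c⁻¹ := by group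
            _ = c * t * c⁻¹ := by rw [hc]; group
        exact congrArg Subtype.val h6
    have h6 : c * g * c⁻¹ = 1 := Subtype.ext h5
    calc g = c⁻¹ * (c * g * c⁻¹) * c := by group
      _ = 1 := by rw [h6]; group
  rcases D.invol _ h1 h2 h3 with h4 | h4
  · exact key D.z hDz h4
  · exact key D.d hDd h4

theorem thirteen_tdata {t g : ↥tdata.T} (ht : t * t = 1) (ht1 : t ≠ 1) (hg : g ^ 13 = 1) (hc : g * t = t * g) : g = 1 :=
  thirteen_abs tdata (fun _ hk h13 hkz => thirteen_z hk h13 hkz) (fun _ hk h13 hkz => thirteen_d hk h13 hkz) ht ht1 hg hc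

/-- an element of order 13 of the Tits group commutes with no involution -/
theorem thirteen_tits {t g : Cfsg.Lie.TitsGroup} (ht : t * t = 1) (ht1 : t ≠ 1) (hg : g ^ 13 = 1) (hc : g * t = t * g) :
    g = 1 := by
  obtain ⟨e⟩ : Nonempty (Cfsg.Lie.TitsGroup ≃* ↥tdata.T) := exists_equiv
  have h := thirteen_tdata (t := e t) (g := e g) (by rw [← map_mul, ht, map_one])
    (fun h => ht1 (e.injective (h.trans (map_one e).symm))) (by rw [← map_pow, hg, map_one])
    (by rw [← map_mul, hc, map_mul])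
  exact e.injective (h.trans (map_one e).symm)

theorem num {n k : ℕ} (h : n * k = 2 ^ 11 * 3 ^ 3 * 5 ^ 2) (hk : k % 13 = 1) (h3 : ¬ 3 ∣ n) (h8 : ¬ 8 ∣ n) : False := by
  have h1 : n ∣ 2 ^ 11 * 3 ^ 3 * 5 ^ 2 := ⟨k, h.symm⟩
  have h2 : n ∣ 100 := by
    have hc3 : Nat.Coprime n (3 ^ 3) :=
      ((Nat.Prime.coprime_iff_not_dvd Nat.prime_three).mpr h3).symm.pow_right 3
    have h4 : n ∣ 2 ^ 11 * 5 ^ 2 := by
      refine hc3.dvd_of_dvd_mul_right ?_
      rw [show 2 ^ 11 * 5 ^ 2 * 3 ^ 3 = 2 ^ 11 * 3 ^ 3 * 5 ^ 2 by norm_num]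
      exact h1
    obtain ⟨a, b, ha, hb, rfl⟩ := (Nat.dvd_mul).mp h4 |> fun ⟨a, b, ha, hb, e⟩ => (⟨a, b, ha, hb, e.symm⟩ : ∃ a b, a ∣ 2 ^ 11 ∧ b ∣ 5 ^ 2 ∧ n = a * b)
    obtain ⟨i, hi, rfl⟩ := (Nat.dvd_prime_pow Nat.prime_two).mp ha
    have hi2 : i ≤ 2 := by
      by_contra hi3
      apply h8
      refine Dvd.dvd.mul_right ?_ _
      exact pow_dvd_pow 2 (by omega : 3 ≤ i)
    have h5 : 2 ^ i ∣ 4 := pow_dvd_pow 2 hi2
    exact Nat.mul_dvd_mul h5 hb
  have h5 : n ≤ 100 := Nat.le_of_dvd (by norm_num) h2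
  have h6 : k = 2 ^ 11 * 3 ^ 3 * 5 ^ 2 / n := by
    rw [← h]
    refine (Nat.mul_div_cancel_left k ?_).symm
    exact Nat.pos_of_dvd_of_pos h2 (by norm_num)
  rw [h6] at hk
  have hmem : n ∈ Nat.divisors 100 := Nat.mem_divisors.mpr ⟨h2, by norm_num⟩
  have hd : ∀ n ∈ Nat.divisors 100, 2 ^ 11 * 3 ^ 3 * 5 ^ 2 / n % 13 ≠ 1 := by decide +kernel
  exact hd n hmem hk

/-- the abstract argument -/
theorem noHall_of_thirteen {S : Type*} [Group S] [Finite S] [IsSimpleGroup S] (hna : ¬ IsMulCommutative S)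
    (hcard : Nat.card S = 2 ^ 11 * 3 ^ 3 * 5 ^ 2 * 13)
    (h : ∀ t g : S, t * t = 1 → t ≠ 1 → g ^ 13 = 1 → g * t = t * g → g = 1) : NoHall S := by
  have h13 : Fact (Nat.Prime 13) := ⟨by norm_num⟩
  have hp2 : Fact (Nat.Prime 2) := ⟨Nat.prime_two⟩
  intro A0 m hA
  obtain ⟨P⟩ : Nonempty (Sylow 13 S) := inferInstance
  have hd : 13 ∣ Nat.card S := by rw [hcard]; exact dvd_mul_left _ _
  have hPc : Nat.card P = 13 := by
    rw [P.card_eq_multiplicity]
    have h1 : (Nat.card S).factorization 13 = 1 := by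
      have h2 : 1 ≤ (Nat.card S).factorization 13 :=
        (h13.out.dvd_iff_one_le_factorization Nat.card_pos.ne').mp hd
      have h3 : ¬ 2 ≤ (Nat.card S).factorization 13 := fun h =>
        absurd ((h13.out.pow_dvd_iff_le_factorization Nat.card_pos.ne').mpr h) (by rw [hcard]; norm_num)
      omega
    rw [h1, pow_one]
  set N := Subgroup.normalizer ((P : Subgroup S) : Set S) with hN
  have hPN : (P : Subgroup S) ≤ N := Subgroup.le_normalizer
  -- the centraliser
  have hC : ¬ 2 ∣ Nat.card (Subgroup.centralizer ((P : Subgroup S) : Set S)) := by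
    intro h2
    obtain ⟨t, ht⟩ := exists_prime_orderOf_dvd_card' 2 h2
    obtain ⟨g, hg⟩ := exists_prime_orderOf_dvd_card' (G := P) 13 (by rw [hPc])
    have h3 : (g : S) = 1 := by
      refine h (t : S) (g : S) ?_ ?_ ?_ ?_
      · have := pow_orderOf_eq_one t
        rw [ht, pow_two] at this
        exact congrArg Subtype.val this
      · intro h4
        have h5 : t = 1 := Subtype.ext h4
        rw [h5, orderOf_one] at ht
        norm_num at ht
      · have := pow_orderOf_eq_one g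
        rw [hg] at this
        exact congrArg Subtype.val this
      · exact Subgroup.mem_centralizer_iff.mp t.2 g g.2
    have h5 : g = 1 := Subtype.ext h3
    rw [h5, orderOf_one] at hg
    norm_num at hg
  obtain ⟨M, hM1, hM2, -, hM4, -, hM6⟩ := hA.sylow hna hd P
  -- the order of `N`
  have hNc := N.card_mul_index
  have hNi : N.index ≡ 1 [MOD 13] := by
    have h1 : Nat.card (Sylow 13 S) ≡ 1 [MOD 13] := card_sylow_modEq_one 13 S
    rwa [P.card_eq_index_normalizer] at h1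
  obtain ⟨n', hn'⟩ : 13 ∣ Nat.card N := hPc ▸ Subgroup.card_dvd_of_le hPN
  have h3N : 3 ∣ n' := by
    by_contra h3
    refine num (n := n') (k := N.index) ?_ hNi h3 ?_
    · have h4 : 13 * (n' * N.index) = 13 * (2 ^ 11 * 3 ^ 3 * 5 ^ 2) := by
        rw [← mul_assoc, ← hn', hNc, hcard]
        ring
      exact Nat.eq_of_mul_eq_mul_left (by norm_num) h4
    · intro h8
      have h9 : 8 ∣ Nat.card N := hn' ▸ h8.mul_left _
      -- `N / C` is in `Aut P`
      let f := (P : Subgroup S).normalizerMonoidHom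
      have hk : f.ker = (Subgroup.centralizer ((P : Subgroup S) : Set S)).subgroupOf N := by
        exact Subgroup.normalizerMonoidHom_ker _
      have h10 : Nat.card f.range ∣ 12 := by
        have h11 := Subgroup.card_subgroup_dvd_card f.range
        have h12 : Nat.card (MulAut (P : Subgroup S)) = 12 := by
          have hcyc : IsCyclic (P : Subgroup S) := isCyclic_of_prime_card hPc
          rw [IsCyclic.card_mulAut, hPc]
          decide +kernel
        rwa [h12] at h11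
      have h11 : Nat.card f.ker * Nat.card f.range = Nat.card N := by
        rw [← Subgroup.index_ker]
        exact f.ker.card_mul_index
      have h12 : Nat.Coprime 8 (Nat.card f.ker) := by
        have h13 : Nat.card f.ker ∣ Nat.card (Subgroup.centralizer ((P : Subgroup S) : Set S)) := by
          rw [hk]
          exact Subgroup.card_comap_dvd_of_injective _ N.subtype N.subtype_injective
        have h14 : ¬ 2 ∣ Nat.card f.ker := fun h15 => hC (h15.trans h13)
        exact Nat.Coprime.pow_left 3 ((Nat.Prime.coprime_iff_not_dvd Nat.prime_two).mpr h14)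
      rw [← h11] at h9
      have h15 := (h12.dvd_of_dvd_mul_left h9).trans h10
      norm_num at h15
  have h3M : 3 ∣ Nat.card M := by
    refine (h3N.trans ?_).trans (Subgroup.card_dvd_of_le hM1)
    rw [hn']
    exact dvd_mul_left _ _
  have h13M : 13 ∣ Nat.card M := by
    refine Dvd.dvd.trans ?_ (Subgroup.card_dvd_of_le hM1)
    rw [hn']
    exact dvd_mul_right _ _
  have hMc := M.card_mul_index
  rw [hcard] at hMc
  have hl : validl [(2, 11), (3, 3), (5, 2), (13, 1)] = true := by decide +kernel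
  refine false_of_excl (l := [(2, 11), (3, 3), (5, 2), (13, 1)]) (prime_of_valid hl) ?_ [13] [3, 13] ?_ hM2 hM4 ?_ ?_
  · rw [hcard]; rfl
  · decide +kernel
  · intro r hr
    rw [List.mem_singleton] at hr
    subst hr
    exact ⟨h13.out, hM6⟩
  · intro q hq
    simp only [List.mem_cons, List.not_mem_nil, or_false] at hq
    rcases hq with rfl | rfl
    · exact ⟨Nat.prime_three, h3M⟩
    · exact ⟨h13.out, h13M⟩

/-- **The Tits group.** -/
theorem noHall_Tits : NoHall Cfsg.Lie.TitsGroup := by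
  obtain ⟨-, hs, hna, hcard⟩ := Cfsg.Agent.S1074.result
  have hfin : Finite Cfsg.Lie.TitsGroup := Nat.finite_of_card_ne_zero (by rw [hcard]; norm_num)
  exact noHall_of_thirteen hna hcard fun t g => thirteen_tits

theorem of_sub {G0 : Type*} [Group G0] (K : Subgroup G0) (h : NoHall ↥K) {S : Type*} [Group S] (e : S ≃* ↥K) :
    NoHall S := h.congr e.symm

theorem noHall_of_isoTits {S : Type*} [Group S] (h : Cfsg.Lie.IsoTits S) : NoHall S := by
  obtain ⟨e⟩ := h
  exact of_sub (commutator ↥(Cfsg.Lie.twistedF4 (ZMod 2) 1)) noHall_Tits e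

end Cfsg.Agent.H554.LieTits
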