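import Mathlib
import Cfsg.Agent.H554.LieC
import Cfsg.Agent.H554.RGTits
import Cfsg.Agent.S0280

/-!
# No Hall systems: `PSU₃(q)`, `q ≥ 3` (helper554)
-/

set_option autoImplicit false
set_option linter.unusedSectionVars false

namespace Cfsg.Agent.H554.LieU3

open CoxeterSystem Cfsg.Agent.ChevalleyStructure.CoxeterGeom Cfsg.Agent.Tits.Roots Cfsg.Agent.Nodes.TypeC
open Cfsg.Agent.Nodes Cfsg.Agent.Nodes.Comb Cfsg.Agent.Nodes.Reps Cfsg.Agent.Nodes.WittRoot Cfsg.Agent.Nodes.BNOf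
open Cfsg.Agent.Nodes.WittRGD Cfsg.Agent.Nodes.RGDLib Cfsg.Agent.Nodes.WittAll
open Cfsg.Agent.TitsThree Cfsg.Agent.TitsThree.Siegel Cfsg.Agent.TitsThree.WittFrame
  Cfsg.Agent.TitsThree.WittWeyl Cfsg.Agent.TitsThree.FrameCN
open Cfsg.Agent.Nodes.StabComb Cfsg.Agent.Nodes.Bruhat Cfsg.Agent.H554.SizeC Cfsg.Agent.H554.RG Cfsg.Agent.H554.LieC
open Cfsg.Agent.Nodes.OppDec Cfsg.Agent.Nodes.LeviDec Cfsg.Agent.Nodes.NormalForm Cfsg.Agent.KFacts.RgdOpp
open Cfsg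

/-- a group with a root group datum of rank one -/
theorem noHall_rank_one {W S : Type*} [Group W] [Finite W] [Group S] [Finite S] {M : CoxeterMatrix (Fin 1)}
    {cs : CoxeterSystem M W} {A : Fin 1 → Fin 1 → ℤ} {h : IsCartan M A} {p : ℕ} [Fact p.Prime] {T : Subgroup S}
    {n : Fin 1 → S} {X : (Fin 1 → ℤ) → Subgroup S} (R : RGD cs h p T n X) (hG : GG cs h T X = ⊤) {c b : ℕ}
    (hc : c ≠ 1) (hb : Nat.card S = b * (Nat.card (X (sr 0)) + 1)) (h1 : c ∣ Nat.card (X (sr 0)) + 1) (h2 : c ∣ b) :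
    NoHall S := by
  intro A0 m hA
  have h3 := (hall_parabolic R hG hA (0 : Fin 1)).1
  set J : Set (Fin 1) := {i | ∀ σ ∈ DD cs h T X A0, σ 0 ≠ i} with hJ
  have hJ0 : J = ∅ := by
    ext i
    have hi : i = 0 := Subsingleton.elim _ _
    subst hi
    simp only [hJ, Set.mem_ofPred_eq, Set.mem_empty_iff_false, iff_false, not_forall]
    exact ⟨1, Subgroup.one_mem _, by simp⟩
  have hB : PJ cs h T X J = RGD.B cs h T X := by
    apply le_antisymm
    · have h6 := eq_PJ R hG (le_refl (RGD.B cs h T X))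
      rw [h6, hJ0]
      exact PJ_mono R (Set.empty_subset _)
    · exact B_le_PJ
  rw [hB] at h3
  have h4 : PJ cs h T X {0} = ⊤ := by
    rw [PJ_eq_top_iff R hG]
    ext i
    simp [Subsingleton.elim i 0]
  have h5 := relIndex_B_PJ_singleton R (0 : Fin 1)
  rw [h4, Subgroup.relIndex_top_right] at h5
  have h6 := (RGD.B cs h T X).card_mul_index
  rw [h5, hb] at h6
  have h7 : Nat.card (RGD.B cs h T X) = b := Nat.eq_of_mul_eq_mul_right (Nat.succ_pos _) h6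
  rw [h5, h7] at h3
  exact hc (Nat.eq_one_of_dvd_coprimes h3 h2 h1)

theorem noHall_PSU3 {F : Type*} [Field F] [Fintype F] {q : ℕ} (hF : Fintype.card F = q ^ 2) (hq3 : 3 ≤ q) :
    NoHall (PSU 3 F q) := by
  obtain ⟨p, hp⟩ := CharP.exists F
  have : Fact p.Prime := ⟨CharP.char_is_prime F p⟩
  have hm : (3 : ℕ) = 2 * 1 ∨ (3 : ℕ) = 2 * 1 + 1 := Or.inr rfl
  obtain ⟨W, -⟩ := WittU.exists_wframe hF hm
  obtain ⟨p0, hp0, -⟩ := WittU.exists_adm hF W
  have h3 := card_adm_U_odd hF W rfl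
  let Mo := KInstU.model hF (by omega) W
  have hA := AmbT.of_amb (WittU.amb_U hF W) p
  let cs := (CoxeterMatrix.B 1).toCoxeterSystem
  have : Finite (CoxeterMatrix.B 1).Group := finite_W cs
  have R := rgdC_model Mo hA hp0 cs
  have hX : Nat.card (WittModel.X Mo (sr (0 : Fin 1))) = q ^ 3 := by
    rw [card_long Mo hA hp0 (bt_long (by simp)), h3]
  -- the order
  have h4 := Cfsg.Agent.S0280.result hF 3 (by norm_num)
  simp only [Finset.prod_range_succ, Finset.prod_range_zero, one_mul] at h4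
  norm_num at h4
  obtain ⟨k, hk⟩ : ∃ k, q = k + 1 := ⟨q - 1, by omega⟩
  have h5 : q ^ 2 - 1 = (q + 1) * (q - 1) := by
    have := Nat.sq_sub_sq q 1
    rwa [one_pow] at this
  obtain ⟨c, hc⟩ : Nat.gcd 3 (q + 1) ∣ q + 1 := Nat.gcd_dvd_right _ _
  have hgpos : 0 < Nat.gcd 3 (q + 1) := Nat.gcd_pos_of_pos_left _ (by norm_num)
  have hg3 : Nat.gcd 3 (q + 1) ≤ 3 := Nat.le_of_dvd (by norm_num) (Nat.gcd_dvd_left _ _)
  have h6 : Nat.card (PSU 3 F q) = q ^ 3 * (q - 1) * c * (q ^ 3 + 1) := by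
    apply Nat.eq_of_mul_eq_mul_left (Nat.mul_pos hgpos (show 0 < q + 1 by omega))
    calc Nat.gcd 3 (q + 1) * (q + 1) * Nat.card (PSU 3 F q)
        = Nat.gcd 3 (q + 1) * ((q + 1) * Nat.card (PSU 3 F q)) := by ring
      _ = q ^ 3 * ((q + 1) * (q ^ 2 - 1) * (q ^ 3 + 1)) := h4
      _ = q ^ 3 * (q - 1) * (q + 1) * (q + 1) * (q ^ 3 + 1) := by rw [h5]; ring
      _ = q ^ 3 * (q - 1) * (Nat.gcd 3 (q + 1) * c) * (q + 1) * (q ^ 3 + 1) := by rw [← hc]
      _ = _ := by ring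
  refine noHall_rank_one R (GG_eq_top Mo one_pos cs) (c := c) (b := q ^ 3 * (q - 1) * c) ?_ ?_ ?_ ?_
  · rintro rfl
    rw [mul_one] at hc
    omega
  · rw [hX, h6]
  · rw [hX]
    have h7 : q + 1 ∣ q ^ 3 + 1 := by
      have := Odd.nat_add_dvd_pow_add_pow q 1 (n := 3) (by decide)
      rwa [one_pow] at this
    exact (Dvd.intro_left _ hc.symm).trans h7
  · exact dvd_mul_left _ _

end Cfsg.Agent.H554.LieU3
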