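import Mathlib
import Cfsg.Agent.H554.LieD
import Cfsg.Agent.H554.LieE
import Cfsg.Agent.H554.LieTw
import Cfsg.Agent.H554.LieR2
import Cfsg.Agent.H554.LiePSL3
import Cfsg.Agent.H554.LieU3
import Cfsg.Agent.H554.LieSz
import Cfsg.Agent.H554.LieTwF4
import Cfsg.Agent.H554.LieTits
import Cfsg.Agent.H554.Alt
import Cfsg.Agent.OddHalf.Known
import Cfsg.Agent.S0255

/-!
# Hall systems of the known simple groups (helper554)

* `Exc S` : `S` is `PSL(2,7)`, `PSL(2,11)` or `PSL(5,2)`;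
* `exc_of_lie` : a group of Lie type with a Hall system;
* `exc_of_known` : a known simple group with a Hall system (the sporadic groups as a hypothesis).
-/

set_option autoImplicit false

namespace Cfsg.Agent.H554

open Cfsg Cfsg.Agent.OddHalf.Known

universe u

/-- the groups with a Hall system -/
def Exc (S : Type*) [Group S] : Prop :=
  ∃ (F : Type) (_ : Field F) (_ : Fintype F),
    (Fintype.card F = 7 ∧ Nonempty (S ≃* Matrix.ProjectiveSpecialLinearGroup (Fin 2) F)) ∨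
    (Fintype.card F = 11 ∧ Nonempty (S ≃* Matrix.ProjectiveSpecialLinearGroup (Fin 2) F)) ∨
    (Fintype.card F = 2 ∧ Nonempty (S ≃* Matrix.ProjectiveSpecialLinearGroup (Fin 5) F))

theorem false_of_noHall {S S' : Type*} [Group S] [Group S'] (e : S ≃* S') (h : NoHall S') {A : Subgroup (MulAut S)}
    {m : ℕ} (hA : HallSys S A m) : False :=
  h.congr e.symm A m hA

theorem exc_of_lie {S : Type u} [Group S] {p : ℕ} (h : IsLieTypeChar p S) {A : Subgroup (MulAut S)} {m : ℕ}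
    (hA : HallSys S A m) : Exc S := by
  rcases h with h | h | h | h | h | h | h | h | ⟨-, h⟩ | ⟨-, h⟩ | ⟨-, h⟩
  · obtain ⟨F, _, _, _, n, h1, h2, ⟨e⟩⟩ := h
    obtain ⟨k, rfl⟩ : ∃ k, n = k + 1 := ⟨n - 1, by omega⟩
    by_cases hk : k = 1
    · subst hk
      by_cases h7 : Fintype.card F = 7
      · exact ⟨F, _, _, Or.inl ⟨h7, ⟨e⟩⟩⟩
      by_cases h11 : Fintype.card F = 11
      · exact ⟨F, _, _, Or.inr (Or.inl ⟨h11, ⟨e⟩⟩)⟩
      exact (false_of_noHall e (LiePSL.noHall_PSL2 (h2 rfl) h7 h11) hA).elim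
    · by_cases h32 : k = 2 ∧ Fintype.card F = 2
      · obtain ⟨rfl, hF⟩ := h32
        obtain ⟨f⟩ := Cfsg.Agent.S0255.result (F := ZMod 7) (K := F) (ZMod.card 7) hF
        exact ⟨ZMod 7, inferInstance, inferInstance, Or.inl ⟨ZMod.card 7, ⟨e.trans f.symm⟩⟩⟩
      · by_cases h52 : k = 4 ∧ Fintype.card F = 2
        · obtain ⟨rfl, hF⟩ := h52
          exact ⟨F, _, _, Or.inr (Or.inr ⟨hF, ⟨e⟩⟩)⟩
        · exact (false_of_noHall e (LiePSL.noHall_PSL (by omega) h32 h52) hA).elim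
  · obtain ⟨F, _, _, _, k, h1, h2, ⟨e⟩⟩ := h
    exfalso
    by_cases hk : k = 2
    · subst hk
      exact false_of_noHall e (LieR2.noHall_PSp4 F (by rw [Nat.card_eq_fintype_card]; exact h2 rfl)) hA
    · exact false_of_noHall e (LieC.noHall_PSp (by omega)) hA
  · obtain ⟨F, _, _, _, n, q, h1, h2, h3, ⟨e⟩⟩ := h
    exfalso
    by_cases hn : n = 3
    · subst hn
      refine false_of_noHall e (LieU3.noHall_PSU3 h1 ?_) hA
      have h4 : 1 < Fintype.card F := Fintype.one_lt_card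
      rw [h1] at h4
      have h5 : q ≠ 2 := fun h => h3 ⟨rfl, h⟩
      by_contra h6
      have h7 : q = 0 ∨ q = 1 := by omega
      rcases h7 with rfl | rfl <;> norm_num at h4
    · exact false_of_noHall e (LieC.noHall_PSU h1 (by omega)) hA
  · obtain ⟨F, _, _, _, k, h1, h2, ⟨e⟩⟩ := h
    exfalso
    refine false_of_noHall e (LieC.noHall_PO_odd ?_ h1) hA
    intro h3
    have h4 : (Fintype.card F : F) = 0 := by
      exact FiniteField.cast_card_eq_zero F
    obtain ⟨l, hl⟩ := h2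
    rw [hl] at h4
    push_cast at h4
    rw [h3, zero_mul, zero_add] at h4
    exact one_ne_zero h4
  · obtain ⟨F, _, _, _, k, h1, ⟨e⟩⟩ := h
    exact (false_of_noHall e (LieD.noHall_PO_plus h1) hA).elim
  · obtain ⟨F, _, _, _, k, a, b, h1, h2, ⟨e⟩⟩ := h
    exact (false_of_noHall e (LieC.noHall_PO_minus a b h2 (by omega)) hA).elim
  · obtain ⟨F, _, _, _, h⟩ := h
    exfalso
    rcases h with ⟨h1, ⟨e⟩⟩ | ⟨⟨e⟩⟩ | ⟨⟨e⟩⟩ | ⟨⟨e⟩⟩ | ⟨⟨e⟩⟩
    · exact false_of_noHall e (LieR2.noHall_G2 F (by rw [Nat.card_eq_fintype_card]; exact h1)) hA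
    · exact false_of_noHall e (LieE.noHall_F4 F) hA
    · exact false_of_noHall e (LieE.noHall_E6 F) hA
    · exact false_of_noHall e (LieE.noHall_E7 F) hA
    · exact false_of_noHall e (LieE.noHall_E8 F) hA
  · obtain ⟨F, _, _, _, q, hq, h⟩ := h
    exfalso
    rcases h with ⟨h1, ⟨e⟩⟩ | ⟨h1, ⟨e⟩⟩
    · exact false_of_noHall e (LieTw.E6.noHall hq h1) hA
    · exact false_of_noHall e (LieTw.D4.noHall hq h1) hA
  · obtain ⟨F, _, _, k, h1, h2, ⟨e⟩⟩ := h
    exact (false_of_noHall e (LieSz.noHall_Sz h1 h2) hA).elim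
  · obtain ⟨F, _, _, k, h1, h2, ⟨e⟩⟩ := h
    exact (false_of_noHall e (LieTwF4.noHall h1 h2) hA).elim
  · obtain ⟨F, _, _, k, h1, h2, ⟨e⟩⟩ := h
    exact (false_of_noHall e (LieSz.noHall_Ree h1 h2) hA).elim

/-- **The known simple groups with a Hall system.** -/
theorem exc_of_known {S : Type u} [Group S] (hna : ¬ IsMulCommutative S) (hK : IsKnownSimple' S)
    (hsp : IsSporadicGroup S → NoHall S) {A : Subgroup (MulAut S)} {m : ℕ} (hA : HallSys S A m) : Exc S := by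
  rcases classify' hna hK with h | ⟨p, -, h⟩ | h | h
  · obtain ⟨n, hn, ⟨e⟩⟩ := h
    exact (false_of_noHall e (Alt.noHall_alt hn) hA).elim
  · exact exc_of_lie h hA
  · exact (LieTits.noHall_of_isoTits h A m hA).elim
  · exact (hsp h A m hA).elim

end Cfsg.Agent.H554
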