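import Mathlib
import Cfsg.Agent.H554.Base
import Cfsg.Agent.SignalizersComponents.Components
import Cfsg.Agent.SignalizersComponents.ComponentExists

/-!
# Groups with all maximal subgroups Hall: reduction to simple groups (helper554)

* `HMax G` : every maximal subgroup is a Hall subgroup; `HMax.quotient`;
* `hallSys_of_component` : a simple component `L` of such a group has the system
  `HallSys L L.normalizerMonoidHom.range (normalClosure L).index`;
* `exists_hallSys` : every nonabelian composition factor has a Hall system.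
-/

set_option autoImplicit false

namespace Cfsg.Agent.H554

open Subgroup SignalizersComponents.Components

variable {G : Type*} [Group G]

/-- Every maximal subgroup is a Hall subgroup. -/
def HMax (G : Type*) [Group G] : Prop := ∀ M : Subgroup G, IsCoatom M → (Nat.card M).Coprime M.index

theorem HMax.quotient (h : HMax G) (N : Subgroup G) [N.Normal] : HMax (G ⧸ N) := by
  intro M hM
  have hs : Function.Surjective (QuotientGroup.mk' N) := QuotientGroup.mk'_surjective N
  have hM' := Subgroup.isCoatom_comap_of_surjective hs hM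
  have hc := h _ hM'
  rw [Subgroup.index_comap_of_surjective _ hs] at hc
  refine hc.coprime_dvd_left ?_
  have := Subgroup.card_map_dvd (H := M.comap (QuotientGroup.mk' N)) (QuotientGroup.mk' N)
  rwa [Subgroup.map_comap_eq_self_of_surjective hs] at this

theorem relIndex_sup_of_normal_right [Finite G] (H K : Subgroup G) [K.Normal] :
    H.relIndex (H ⊔ K) = H.relIndex K := by
  have h1 : (H ⊓ K).relIndex H * H.relIndex (H ⊔ K) = (H ⊓ K).relIndex (H ⊔ K) :=
    relIndex_mul_relIndex _ _ _ inf_le_left le_sup_left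
  have h2 : (H ⊓ K).relIndex K * K.relIndex (H ⊔ K) = (H ⊓ K).relIndex (H ⊔ K) :=
    relIndex_mul_relIndex _ _ _ inf_le_right le_sup_right
  rw [relIndex_sup_right] at h2
  have h3 : (H ⊓ K).relIndex H = K.relIndex H := by rw [inf_comm, inf_relIndex_right]
  have h4 : (H ⊓ K).relIndex K = H.relIndex K := by rw [inf_relIndex_right]
  rw [h3] at h1
  rw [h4] at h2
  have h5 : K.relIndex H * H.relIndex (H ⊔ K) = K.relIndex H * H.relIndex K := by
    rw [h1, ← h2, mul_comm]
  have h6 : K.relIndex H ≠ 0 := by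
    intro h0
    have := (relIndex_dvd_card K H)
    rw [h0, zero_dvd_iff] at this
    exact Nat.card_pos.ne' this
  exact Nat.eq_of_mul_eq_mul_left (Nat.pos_of_ne_zero h6) h5

theorem relIndex_dvd_index_of_right_normal [Finite G] (H K : Subgroup G) [K.Normal] :
    H.relIndex K ∣ H.index := by
  rw [← relIndex_sup_of_normal_right H K]
  exact relIndex_dvd_index_of_le le_sup_left

/-- The elements acting on `L` like an element of `Y`. -/
def inner (L Y : Subgroup G) (hY : Y ≤ L) : Subgroup G where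
  carrier := {g | ∃ s ∈ Y, ∀ x ∈ L, g * x * g⁻¹ = s * x * s⁻¹}
  one_mem' := ⟨1, Y.one_mem, fun x _ => by simp⟩
  mul_mem' := by
    rintro a b ⟨s, hs, h1⟩ ⟨t, ht, h2⟩
    refine ⟨s * t, Y.mul_mem hs ht, fun x hx => ?_⟩
    have h3 := h1 (t * x * t⁻¹) (L.mul_mem (L.mul_mem (hY ht) hx) (L.inv_mem (hY ht)))
    calc a * b * x * (a * b)⁻¹ = a * (b * x * b⁻¹) * a⁻¹ := by group
      _ = s * (t * x * t⁻¹) * s⁻¹ := by rw [h2 x hx, h3]
      _ = s * t * x * (s * t)⁻¹ := by group
  inv_mem' := by
    rintro a ⟨s, hs, h1⟩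
    refine ⟨s⁻¹, Y.inv_mem hs, fun x hx => ?_⟩
    have h3 := h1 (s⁻¹ * x * s) (L.mul_mem (L.mul_mem (L.inv_mem (hY hs)) hx) (hY hs))
    calc a⁻¹ * x * a⁻¹⁻¹ = a⁻¹ * (s * (s⁻¹ * x * s) * s⁻¹) * a := by group
      _ = a⁻¹ * (a * (s⁻¹ * x * s) * a⁻¹) * a := by rw [h3]
      _ = s⁻¹ * x * s⁻¹⁻¹ := by group

theorem mem_inner {L Y : Subgroup G} {hY : Y ≤ L} {g : G} :
    g ∈ inner L Y hY ↔ ∃ s ∈ Y, ∀ x ∈ L, g * x * g⁻¹ = s * x * s⁻¹ := Iff.rfl

theorem le_inner {L Y : Subgroup G} (hY : Y ≤ L) : Y ≤ inner L Y hY :=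
  fun g hg => ⟨g, hg, fun _ _ => rfl⟩

theorem centralizer_le_inner {L Y : Subgroup G} (hY : Y ≤ L) : centralizer (L : Set G) ≤ inner L Y hY := by
  intro g hg
  refine ⟨1, Y.one_mem, fun x hx => ?_⟩
  rw [← mem_centralizer_iff.mp hg x hx]
  group

theorem inner_inf_le {L Y : Subgroup G} (hY : Y ≤ L) (hZ : center L = ⊥) : inner L Y hY ⊓ L ≤ Y := by
  rintro g ⟨⟨s, hs, h⟩, hg⟩
  have h1 : (⟨s⁻¹ * g, L.mul_mem (L.inv_mem (hY hs)) hg⟩ : L) ∈ center L := by
    rw [mem_center_iff]
    rintro ⟨x, hx⟩
    apply Subtype.ext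
    change x * (s⁻¹ * g) = s⁻¹ * g * x
    have := h x hx
    calc x * (s⁻¹ * g) = s⁻¹ * (s * x * s⁻¹) * g := by group
      _ = s⁻¹ * (g * x * g⁻¹) * g := by rw [this]
      _ = s⁻¹ * g * x := by group
  rw [hZ, mem_bot] at h1
  have h2 : s⁻¹ * g = 1 := congrArg Subtype.val h1
  have h3 : g = s := by rw [inv_mul_eq_one] at h2; exact h2.symm
  exact h3 ▸ hs

/-- Commuting subgroups: an element acting on finitely many of them in a prescribed way. -/
theorem exists_prod {ι : Type*} [DecidableEq ι] (K : ι → Subgroup G) (T : Subgroup G) (hT : ∀ i, K i ≤ T)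
    (hc : ∀ i j, i ≠ j → ∀ x ∈ K i, ∀ y ∈ K j, x * y = y * x) (u : ι → G) (hu : ∀ i, u i ∈ K i)
    (F : Finset ι) : ∃ t ∈ T, (∀ i ∈ F, ∀ y ∈ K i, t * y * t⁻¹ = u i * y * (u i)⁻¹) ∧
      ∀ i ∉ F, ∀ y ∈ K i, t * y * t⁻¹ = y := by
  induction F using Finset.induction_on with
  | empty => exact ⟨1, T.one_mem, by simp, by simp⟩
  | insert a F ha ih =>
    obtain ⟨t, ht, h1, h2⟩ := ih
    refine ⟨u a * t, T.mul_mem (hT a (hu a)) ht, ?_, ?_⟩
    · intro i hi y hy
      have e : u a * t * y * (u a * t)⁻¹ = u a * (t * y * t⁻¹) * (u a)⁻¹ := by group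
      rw [e]
      by_cases hia : i = a
      · subst hia
        rw [h2 i ha y hy]
      · have hiF : i ∈ F := (Finset.mem_insert.mp hi).resolve_left hia
        rw [h1 i hiF y hy]
        have h3 : u i * y * (u i)⁻¹ ∈ K i := (K i).mul_mem ((K i).mul_mem (hu i) hy) ((K i).inv_mem (hu i))
        rw [hc a i (fun h => hia h.symm) _ (hu a) _ h3]
        group
    · intro i hi y hy
      rw [Finset.mem_insert, not_or] at hi
      have e : u a * t * y * (u a * t)⁻¹ = u a * (t * y * t⁻¹) * (u a)⁻¹ := by group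
      rw [e, h2 i hi.2 y hy, hc a i (fun h => hi.1 h.symm) _ (hu a) _ hy]
      group

section Component

variable (L : Subgroup G)

/-- The conjugates of `L`. -/
def Conjs : Set (Subgroup G) := Set.range fun g : G => L.map (MulAut.conj g).toMonoidHom

theorem self_mem_conjs : L ∈ Conjs L := ⟨1, map_conj_one L⟩

theorem conj_mem_conjs {L : Subgroup G} {K : Subgroup G} (h : K ∈ Conjs L) (g : G) :
    K.map (MulAut.conj g).toMonoidHom ∈ Conjs L := by
  obtain ⟨a, rfl⟩ := h
  exact ⟨g * a, (map_conj_map_conj g a L).symm⟩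

theorem conjs_le_normalClosure {L : Subgroup G} {K : Subgroup G} (h : K ∈ Conjs L) :
    K ≤ normalClosure (L : Set G) := by
  obtain ⟨a, rfl⟩ := h
  rintro _ ⟨x, hx, rfl⟩
  exact normalClosure_normal.conj_mem _ (subset_normalClosure hx) a

/-- Distinct conjugates commute. -/
def CommConj : Prop := ∀ K ∈ Conjs L, ∀ K' ∈ Conjs L, K ≠ K' → ∀ x ∈ K, ∀ y ∈ K', x * y = y * x

variable {L}

theorem commConj_of_component (hL : IsComponent L) : CommConj L := by
  rintro K ⟨a, rfl⟩ K' ⟨b, rfl⟩ hne x hx y hy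
  have := component_le_centralizer_of_ne (isComponent_conj a hL) (isComponent_conj b hL) hne hx
  exact (mem_centralizer_iff.mp this y hy).symm

theorem normalClosure_le_of_conjs {T : Subgroup G} (h : ∀ K ∈ Conjs L, K ≤ T) :
    normalClosure (L : Set G) ≤ T := by
  rw [normalClosure, closure_le]
  intro x hx
  obtain ⟨y, hy, hxy⟩ := Group.mem_conjugatesOfSet_iff.mp hx
  obtain ⟨g, hg⟩ := isConj_iff.mp hxy
  exact h _ ⟨g, rfl⟩ ⟨y, hy, hg⟩

theorem normalClosure_le_inner (hc : CommConj L) : normalClosure (L : Set G) ≤ inner L L le_rfl := by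
  apply normalClosure_le_of_conjs
  intro K hK
  by_cases h : K = L
  · rw [h]; exact le_inner le_rfl
  · refine le_trans ?_ (centralizer_le_inner le_rfl)
    intro x hx
    rw [mem_centralizer_iff]
    intro y hy
    exact (hc K hK L (self_mem_conjs L) h x hx y hy).symm

/-- An element of the normal closure acting on the conjugates as prescribed. -/
theorem exists_act [Finite G] (hc : CommConj L) (u : Conjs L → G) (hu : ∀ K : Conjs L, u K ∈ (K : Subgroup G)) :
    ∃ t ∈ normalClosure (L : Set G), ∀ K : Conjs L, ∀ y ∈ (K : Subgroup G),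
      t * y * t⁻¹ = u K * y * (u K)⁻¹ := by
  classical
  have : Fintype (Conjs L) := Fintype.ofFinite _
  obtain ⟨t, h1, h2, -⟩ := exists_prod (fun K : Conjs L => (K : Subgroup G)) (normalClosure (L : Set G))
    (fun K => conjs_le_normalClosure K.2)
    (fun K K' hne x hx y hy => hc K K.2 K' K'.2 (fun h => hne (Subtype.ext h)) x hx y hy) u hu Finset.univ
  exact ⟨t, h1, fun K => h2 K (Finset.mem_univ K)⟩

/-- Representatives of the conjugates, trivial on `L`. -/
theorem exists_rep (L : Subgroup G) : ∃ c : Conjs L → G, (∀ K, L.map (MulAut.conj (c K)).toMonoidHom = K) ∧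
    c ⟨L, self_mem_conjs L⟩ = 1 := by
  classical
  refine ⟨fun K => if K = ⟨L, self_mem_conjs L⟩ then 1 else K.2.choose, ?_, ?_⟩
  · intro K
    by_cases h : K = ⟨L, self_mem_conjs L⟩
    · simp only [h, if_true]
      exact map_conj_one L
    · simp only [h, if_false]
      exact K.2.choose_spec
  · simp

variable {c : Conjs L → G}

/-- The product of the copies of `X`. -/
def hat (c : Conjs L → G) (X : Subgroup G) : Subgroup G := ⨆ K : Conjs L, X.map (MulAut.conj (c K)).toMonoidHom

theorem le_hat (K : Conjs L) (X : Subgroup G) : X.map (MulAut.conj (c K)).toMonoidHom ≤ hat c X :=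
  le_iSup (fun K : Conjs L => X.map (MulAut.conj (c K)).toMonoidHom) K

theorem self_le_hat (hc1 : c ⟨L, self_mem_conjs L⟩ = 1) (X : Subgroup G) : X ≤ hat c X := by
  have := le_hat (c := c) ⟨L, self_mem_conjs L⟩ X
  rwa [hc1, map_conj_one] at this

theorem hat_le_normalClosure (hcr : ∀ K, L.map (MulAut.conj (c K)).toMonoidHom = K) {X : Subgroup G} (hX : X ≤ L) :
    hat c X ≤ normalClosure (L : Set G) := by
  refine iSup_le fun K => ?_
  exact (map_mono hX).trans ((hcr K).le.trans (conjs_le_normalClosure K.2))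

theorem hat_inf_le (hc : CommConj L) (hZ : center L = ⊥) (hcr : ∀ K, L.map (MulAut.conj (c K)).toMonoidHom = K)
    (hc1 : c ⟨L, self_mem_conjs L⟩ = 1) {X : Subgroup G} (hX : X ≤ L) : hat c X ⊓ L ≤ X := by
  refine le_trans (inf_le_inf_right _ ?_) (inner_inf_le hX hZ)
  refine iSup_le fun K => ?_
  by_cases h : K = ⟨L, self_mem_conjs L⟩
  · rw [h, hc1, map_conj_one]
    exact le_inner hX
  · refine le_trans ?_ (centralizer_le_inner hX)
    intro x hx
    have hx' : x ∈ (K : Subgroup G) := (hcr K) ▸ (map_mono hX hx)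
    rw [mem_centralizer_iff]
    intro y hy
    exact (hc K K.2 L (self_mem_conjs L) (fun e => h (Subtype.ext e)) x hx' y hy).symm

/-- `X ≤ L` such that the normaliser of `L` moves `X` to `L`-conjugates: `G = T N(X̂)`. -/
theorem exists_mul_normalizer_hat [Finite G] (hc : CommConj L)
    (hcr : ∀ K, L.map (MulAut.conj (c K)).toMonoidHom = K) {X : Subgroup G} (hX : X ≤ L)
    (hst : ∀ h ∈ normalizer (L : Set G), ∃ s ∈ L, X.map (MulAut.conj h).toMonoidHom = X.map (MulAut.conj s).toMonoidHom)
    (g : G) : ∃ t ∈ normalClosure (L : Set G), t⁻¹ * g ∈ normalizer (hat c X : Set G) := by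
  -- the action of `g` on the conjugates
  have key : ∀ K : Conjs L, ∃ u ∈ (K : Subgroup G), ∃ K' : Conjs L,
      (K' : Subgroup G).map (MulAut.conj g).toMonoidHom = K ∧
      (X.map (MulAut.conj (c K')).toMonoidHom).map (MulAut.conj g).toMonoidHom =
      (X.map (MulAut.conj (c K)).toMonoidHom).map (MulAut.conj u).toMonoidHom := by
    intro K
    set K' : Conjs L := ⟨(K : Subgroup G).map (MulAut.conj g⁻¹).toMonoidHom, conj_mem_conjs K.2 g⁻¹⟩ with hK'
    have hKK : (K' : Subgroup G).map (MulAut.conj g).toMonoidHom = K := by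
      rw [hK']
      simp only
      rw [map_conj_map_conj, mul_inv_cancel, map_conj_one]
    have hn : (c K)⁻¹ * g * c K' ∈ normalizer (L : Set G) := by
      rw [mem_normalizer_iff_map]
      have e1 : L.map (MulAut.conj ((c K)⁻¹ * g * c K')).toMonoidHom =
          ((L.map (MulAut.conj (c K')).toMonoidHom).map (MulAut.conj g).toMonoidHom).map
            (MulAut.conj (c K)⁻¹).toMonoidHom := by
        rw [map_conj_map_conj, map_conj_map_conj]
      rw [e1, hcr, hKK, ← hcr K, map_conj_map_conj, inv_mul_cancel, map_conj_one]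
    obtain ⟨s, hs, hs2⟩ := hst _ hn
    refine ⟨c K * s * (c K)⁻¹, ?_, K', hKK, ?_⟩
    · rw [← hcr K]
      exact ⟨s, hs, by simp⟩
    · have e1 := congrArg (fun Y : Subgroup G => Y.map (MulAut.conj (c K)).toMonoidHom) hs2
      simp only [map_conj_map_conj] at e1 ⊢
      have e2 : c K * ((c K)⁻¹ * g * c K') = g * c K' := by group
      have e3 : c K * s * (c K)⁻¹ * c K = c K * s := by group
      rw [e2] at e1
      rw [e1, e3]
  choose u hu K' hK1 hK2 using key
  obtain ⟨t, ht, ht2⟩ := exists_act hc u hu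
  refine ⟨t, ht, ?_⟩
  rw [mem_normalizer_iff_map, ← map_conj_map_conj]
  have h1 : (hat c X).map (MulAut.conj g).toMonoidHom = (hat c X).map (MulAut.conj t).toMonoidHom := by
    have e1 : (hat c X).map (MulAut.conj g).toMonoidHom =
        ⨆ K : Conjs L, (X.map (MulAut.conj (c K)).toMonoidHom).map (MulAut.conj g).toMonoidHom := map_iSup _ _
    have e2 : (hat c X).map (MulAut.conj t).toMonoidHom =
        ⨆ K : Conjs L, (X.map (MulAut.conj (c K)).toMonoidHom).map (MulAut.conj t).toMonoidHom := map_iSup _ _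
    have e3 : ∀ K : Conjs L, (X.map (MulAut.conj (c K)).toMonoidHom).map (MulAut.conj t).toMonoidHom =
        (X.map (MulAut.conj (c (K' K))).toMonoidHom).map (MulAut.conj g).toMonoidHom := by
      intro K
      rw [hK2]
      ext y
      constructor
      · rintro ⟨x, hx, rfl⟩
        refine ⟨x, hx, ?_⟩
        exact (ht2 K x ((hcr K) ▸ map_mono hX hx)).symm
      · rintro ⟨x, hx, rfl⟩
        refine ⟨x, hx, ?_⟩
        exact ht2 K x ((hcr K) ▸ map_mono hX hx)
    rw [e1, e2]
    have hinj : Function.Injective K' := by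
      intro K1 K2 h
      apply Subtype.ext
      rw [← hK1 K1, ← hK1 K2, h]
    have hsurj : Function.Surjective K' := Finite.surjective_of_injective hinj
    simp only [e3]
    exact (hsurj.iSup_comp (g := fun K : Conjs L =>
      (X.map (MulAut.conj (c K)).toMonoidHom).map (MulAut.conj g).toMonoidHom)).symm
  rw [h1, map_conj_map_conj, inv_mul_cancel, map_conj_one]

/-- **The Hall system of a simple component.** -/
theorem hallSys_of_component [Finite G] (h : HMax G) (hc : CommConj L) [IsSimpleGroup L]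
    (hZ : center L = ⊥) : HallSys L L.normalizerMonoidHom.range (normalClosure (L : Set G)).index := by
  set T : Subgroup G := normalClosure (L : Set G) with hT
  have hTn : T.Normal := normalClosure_normal
  have hLT : L ≤ T := subset_normalClosure
  have hTin : T ≤ inner L L le_rfl := normalClosure_le_inner hc
  have hTN : T ≤ normalizer (L : Set G) := by
    intro t ht
    obtain ⟨s, hs, hs2⟩ := hTin ht
    rw [mem_normalizer_iff_map]
    ext y
    constructor
    · rintro ⟨x, hx, rfl⟩
      have := hs2 x hx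
      change t * x * t⁻¹ ∈ L
      rw [this]
      exact L.mul_mem (L.mul_mem hs hx) (L.inv_mem hs)
    · intro hy
      refine ⟨s⁻¹ * y * s, L.mul_mem (L.mul_mem (L.inv_mem hs) hy) hs, ?_⟩
      change t * (s⁻¹ * y * s) * t⁻¹ = y
      rw [hs2 _ (L.mul_mem (L.mul_mem (L.inv_mem hs) hy) hs)]
      group
  have hφ : ∀ (g : normalizer (L : Set G)) (x : L), ((L.normalizerMonoidHom g x : L) : G) = g * x * (g : G)⁻¹ := by
    intro g x
    rfl
  refine ⟨?_, ?_, ?_⟩
  · intro s
    refine ⟨⟨s, le_normalizer s.2⟩, ?_⟩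
    ext x
    rw [hφ]
    rfl
  · -- the index of the inner automorphisms
    have e1 : (T.subgroupOf (normalizer (L : Set G))).map L.normalizerMonoidHom =
        (MulAut.conj : L →* MulAut L).range := by
      ext a
      constructor
      · rintro ⟨g, hg, rfl⟩
        obtain ⟨s, hs, hs2⟩ := hTin (mem_subgroupOf.mp hg)
        refine ⟨⟨s, hs⟩, ?_⟩
        ext x
        rw [hφ, hs2 x x.2]
        rfl
      · rintro ⟨s, rfl⟩
        refine ⟨⟨s, le_normalizer s.2⟩, mem_subgroupOf.mpr (hLT s.2), ?_⟩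
        ext x
        rw [hφ]
        rfl
    have e2 : L.normalizerMonoidHom.range = (⊤ : Subgroup (normalizer (L : Set G))).map L.normalizerMonoidHom :=
      (MonoidHom.range_eq_map _)
    rw [← e1, e2, relIndex_map_map]
    have e3 : (T.subgroupOf (normalizer (L : Set G))).index ∣ T.index := relIndex_dvd_index_of_normal T _
    refine dvd_trans ?_ e3
    rw [top_sup_eq, relIndex_top_right]
    exact index_dvd_of_le le_sup_left
  · intro X hX1 hX2 hX3
    set X₀ : Subgroup G := X.map L.subtype with hX₀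
    have hX₀L : X₀ ≤ L := map_subtype_le X
    have hst : ∀ g ∈ normalizer (L : Set G), ∃ s ∈ L,
        X₀.map (MulAut.conj g).toMonoidHom = X₀.map (MulAut.conj s).toMonoidHom := by
      intro g hg
      obtain ⟨s, hs⟩ := hX3 (L.normalizerMonoidHom ⟨g, hg⟩) ⟨_, rfl⟩
      refine ⟨s, s.2, ?_⟩
      have := congrArg (fun Y : Subgroup L => Y.map L.subtype) hs
      simp only [map_map] at this
      rw [hX₀, map_map, map_map]
      exact this
    obtain ⟨c, hcr, hc1⟩ := exists_rep L
    have hmul := exists_mul_normalizer_hat hc hcr hX₀L hst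
    -- the normaliser is proper
    have hprop : normalizer (hat c X₀ : Set G) ≠ ⊤ := by
      intro htop
      have hn : (hat c X₀).Normal := normalizer_eq_top_iff.mp htop
      have hinf : hat c X₀ ⊓ L = X₀ :=
        le_antisymm (hat_inf_le hc hZ hcr hc1 hX₀L) (le_inf (self_le_hat hc1 X₀) hX₀L)
      have hXn : X.Normal := by
        have h1 : X = (hat c X₀).subgroupOf L := by
          ext x
          rw [mem_subgroupOf]
          constructor
          · intro hx
            exact self_le_hat hc1 X₀ ⟨x, hx, rfl⟩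
          · intro hx
            have : (x : G) ∈ X₀ := hinf ▸ ⟨hx, x.2⟩
            obtain ⟨y, hy, hyx⟩ := this
            exact (Subtype.ext hyx : y = x) ▸ hy
        rw [h1]
        infer_instance
      rcases hXn.eq_bot_or_eq_top with h1 | h1
      · exact hX1 h1
      · exact hX2 h1
    obtain ⟨M, hM, hNM⟩ := (eq_top_or_exists_le_coatom _).resolve_left hprop
    have hTM : T ⊔ M = ⊤ := by
      rw [eq_top_iff]
      intro g _
      obtain ⟨t, ht, ht2⟩ := hmul g
      have : g = t * (t⁻¹ * g) := by group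
      rw [this]
      exact mul_mem (mem_sup_left ht) (mem_sup_right (hNM ht2))
    have hLM : ¬ L ≤ M := by
      intro hLM
      apply hM.1
      rw [← hTM, eq_comm, sup_eq_right]
      apply normalClosure_le_of_conjs
      rintro _ ⟨g, rfl⟩
      obtain ⟨t, ht, ht2⟩ := hmul g⁻¹
      have e1 : L.map (MulAut.conj t⁻¹).toMonoidHom = L := mem_normalizer_iff_map.mp (hTN (T.inv_mem ht))
      have e2 : g = (t⁻¹ * g⁻¹)⁻¹ * t⁻¹ := by group
      have e3 : L.map (MulAut.conj g).toMonoidHom = L.map (MulAut.conj (t⁻¹ * g⁻¹)⁻¹).toMonoidHom := by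
        conv_lhs => rw [e2, ← map_conj_map_conj, e1]
      simp only
      rw [e3]
      rintro _ ⟨x, hx, rfl⟩
      have hm := M.inv_mem (hNM ht2)
      exact M.mul_mem (M.mul_mem hm (hLM hx)) (M.inv_mem hm)
    have hcop := h M hM
    have hidx : (M.subgroupOf L).index ∣ M.index := by
      have h1 : (M.subgroupOf T).relIndex (L.subgroupOf T) = M.relIndex L := relIndex_subgroupOf hLT
      have hLTn : (L.subgroupOf T).Normal := normal_subgroupOf_of_le_normalizer hTN
      have h2 : (M.subgroupOf T).relIndex (L.subgroupOf T) ∣ (M.subgroupOf T).index :=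
        relIndex_dvd_index_of_right_normal _ _
      have h3 : M.relIndex T ∣ M.index := relIndex_dvd_index_of_right_normal M T
      rw [h1] at h2
      exact h2.trans h3
    have hcard : Nat.card (M.subgroupOf L) ∣ Nat.card M := by
      have : (M.subgroupOf L).map L.subtype = M ⊓ L := subgroupOf_map_subtype M L
      have h2 : Nat.card ((M.subgroupOf L).map L.subtype) = Nat.card (M.subgroupOf L) :=
        Nat.card_congr ((M.subgroupOf L).equivMapOfInjective _ L.subtype_injective).symm.toEquiv
      rw [← h2, this]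
      exact card_dvd_of_le inf_le_left
    have hTidx : T.index ∣ Nat.card M := by
      have : T.relIndex M = T.index := by
        rw [← relIndex_sup_left (H := M) (K := T), hTM, relIndex_top_right]
      rw [← this]
      exact relIndex_dvd_card _ _
    refine ⟨M.subgroupOf L, ?_, ?_, ?_, ?_, ?_⟩
    · intro x hx
      rw [mem_subgroupOf]
      exact hNM (le_normalizer (self_le_hat hc1 X₀ ⟨x, hx, rfl⟩))
    · intro htop
      exact hLM (subgroupOf_eq_top.mp htop)
    · rintro _ ⟨⟨g, hg⟩, rfl⟩
      obtain ⟨t, ht, ht2⟩ := hmul g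
      obtain ⟨s, hs, hs2⟩ := hTin ht
      have hmL : t⁻¹ * g ∈ normalizer (L : Set G) := mul_mem (inv_mem (hTN ht)) hg
      refine ⟨⟨s, hs⟩, ?_⟩
      ext y
      constructor
      · rintro ⟨x, hx, rfl⟩
        have hx' : (x : G) ∈ M := mem_subgroupOf.mp hx
        have h1 : (t⁻¹ * g) * x * (t⁻¹ * g)⁻¹ ∈ L := (mem_normalizer_iff.mp hmL x).mp x.2
        refine ⟨⟨_, h1⟩, mem_subgroupOf.mpr ?_, ?_⟩
        · exact M.mul_mem (M.mul_mem (hNM ht2) hx') (M.inv_mem (hNM ht2))
        · apply Subtype.ext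
          change s * ((t⁻¹ * g) * x * (t⁻¹ * g)⁻¹) * s⁻¹ = g * x * g⁻¹
          rw [← hs2 _ h1]
          group
      · rintro ⟨x, hx, rfl⟩
        have hx' : (x : G) ∈ M := mem_subgroupOf.mp hx
        have h1 : (t⁻¹ * g)⁻¹ * x * (t⁻¹ * g) ∈ L := by
          have := (mem_normalizer_iff.mp (inv_mem hmL) x).mp x.2
          simpa using this
        refine ⟨⟨_, h1⟩, mem_subgroupOf.mpr ?_, ?_⟩
        · exact M.mul_mem (M.mul_mem (M.inv_mem (hNM ht2)) hx') (hNM ht2)
        · apply Subtype.ext
          change g * ((t⁻¹ * g)⁻¹ * x * (t⁻¹ * g)) * g⁻¹ = s * x * s⁻¹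
          rw [← hs2 _ x.2]
          group
    · exact (hcop.coprime_dvd_left hcard).coprime_dvd_right hidx
    · exact (hcop.symm.coprime_dvd_left hidx).coprime_dvd_right hTidx

end Component

end Cfsg.Agent.H554
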