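import Mathlib
import Cfsg.Agent.H554.Reduce

/-!
# Groups with all maximal subgroups Hall: diagonal subgroups (helper554)

* `diag c` : the diagonal subgroup of the product of the conjugates of `L`;
* `conjs_eq` : if `N_G(L)` induces inner automorphisms on the simple component `L` of a group all of whose maximal
  subgroups are Hall subgroups, then `L` is normal.
-/

set_option autoImplicit false

namespace Cfsg.Agent.H554

open Subgroup SignalizersComponents.Components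

variable {G : Type*} [Group G] {L : Subgroup G}

theorem act_mul {t₁ t₂ u₁ u₂ : G} {K : Subgroup G} (hu : u₂ ∈ K)
    (h1 : ∀ y ∈ K, t₁ * y * t₁⁻¹ = u₁ * y * u₁⁻¹) (h2 : ∀ y ∈ K, t₂ * y * t₂⁻¹ = u₂ * y * u₂⁻¹) :
    ∀ y ∈ K, t₁ * t₂ * y * (t₁ * t₂)⁻¹ = u₁ * u₂ * y * (u₁ * u₂)⁻¹ := by
  intro y hy
  have h3 : u₂ * y * u₂⁻¹ ∈ K := K.mul_mem (K.mul_mem hu hy) (K.inv_mem hu)
  calc t₁ * t₂ * y * (t₁ * t₂)⁻¹ = t₁ * (t₂ * y * t₂⁻¹) * t₁⁻¹ := by group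
    _ = u₁ * (u₂ * y * u₂⁻¹) * u₁⁻¹ := by rw [h2 y hy, h1 _ h3]
    _ = u₁ * u₂ * y * (u₁ * u₂)⁻¹ := by group

theorem act_inv {t u : G} {K : Subgroup G} (hu : u ∈ K) (h : ∀ y ∈ K, t * y * t⁻¹ = u * y * u⁻¹) :
    ∀ y ∈ K, t⁻¹ * y * t⁻¹⁻¹ = u⁻¹ * y * u⁻¹⁻¹ := by
  intro y hy
  have h3 : u⁻¹ * y * u ∈ K := K.mul_mem (K.mul_mem (K.inv_mem hu) hy) hu
  have h4 := h _ h3
  have h5 : u * (u⁻¹ * y * u) * u⁻¹ = y := by group
  rw [h5] at h4
  calc t⁻¹ * y * t⁻¹⁻¹ = t⁻¹ * (t * (u⁻¹ * y * u) * t⁻¹) * t⁻¹⁻¹ := by rw [h4]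
    _ = u⁻¹ * y * u⁻¹⁻¹ := by group

theorem act_pow {t u : G} {K : Subgroup G} (hu : u ∈ K) (h : ∀ y ∈ K, t * y * t⁻¹ = u * y * u⁻¹) (n : ℕ) :
    ∀ y ∈ K, t ^ n * y * (t ^ n)⁻¹ = u ^ n * y * (u ^ n)⁻¹ := by
  induction n with
  | zero => intro y _; simp
  | succ n ih =>
    intro y hy
    rw [pow_succ, pow_succ]
    exact act_mul hu ih h y hy

theorem eq_one_of_act {u : G} (hZ : center L = ⊥) (hu : u ∈ L) (h : ∀ y ∈ L, u * y * u⁻¹ = y) : u = 1 := by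
  have h1 : (⟨u, hu⟩ : L) ∈ center L := by
    rw [mem_center_iff]
    rintro ⟨y, hy⟩
    apply Subtype.ext
    change y * u = u * y
    have := h y hy
    rw [mul_inv_eq_iff_eq_mul] at this
    exact this.symm
  rw [hZ, mem_bot] at h1
  exact congrArg Subtype.val h1

theorem rep_mem {c : Conjs L → G} (hcr : ∀ K, L.map (MulAut.conj (c K)).toMonoidHom = K) (K : Conjs L) {x : G}
    (hx : x ∈ L) : c K * x * (c K)⁻¹ ∈ (K : Subgroup G) := by
  rw [← hcr K]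
  exact ⟨x, hx, rfl⟩

/-- **The diagonal.** -/
def diag (c : Conjs L → G) (hcr : ∀ K, L.map (MulAut.conj (c K)).toMonoidHom = K) : Subgroup G where
  carrier := {t | t ∈ normalClosure (L : Set G) ∧ ∃ x ∈ L, ∀ K : Conjs L, ∀ y ∈ (K : Subgroup G),
    t * y * t⁻¹ = (c K * x * (c K)⁻¹) * y * (c K * x * (c K)⁻¹)⁻¹}
  one_mem' := ⟨one_mem _, 1, L.one_mem, fun K y _ => by simp⟩
  mul_mem' := by
    rintro t₁ t₂ ⟨h1, x₁, hx₁, h3⟩ ⟨h2, x₂, hx₂, h4⟩
    refine ⟨mul_mem h1 h2, x₁ * x₂, L.mul_mem hx₁ hx₂, fun K y hy => ?_⟩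
    have h5 := act_mul (rep_mem hcr K hx₂) (h3 K) (h4 K) y hy
    rw [h5]
    have h6 : c K * x₁ * (c K)⁻¹ * (c K * x₂ * (c K)⁻¹) = c K * (x₁ * x₂) * (c K)⁻¹ := by group
    rw [h6]
  inv_mem' := by
    rintro t ⟨h1, x, hx, h3⟩
    refine ⟨inv_mem h1, x⁻¹, L.inv_mem hx, fun K y hy => ?_⟩
    have h5 := act_inv (rep_mem hcr K hx) (h3 K) y hy
    rw [h5]
    have h6 : (c K * x * (c K)⁻¹)⁻¹ = c K * x⁻¹ * (c K)⁻¹ := by group
    rw [h6]

theorem mem_diag {c : Conjs L → G} {hcr : ∀ K, L.map (MulAut.conj (c K)).toMonoidHom = K} {t : G} :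
    t ∈ diag c hcr ↔ t ∈ normalClosure (L : Set G) ∧ ∃ x ∈ L, ∀ K : Conjs L, ∀ y ∈ (K : Subgroup G),
      t * y * t⁻¹ = (c K * x * (c K)⁻¹) * y * (c K * x * (c K)⁻¹)⁻¹ := Iff.rfl

theorem exists_diag [Finite G] (hc : CommConj L) {c : Conjs L → G}
    (hcr : ∀ K, L.map (MulAut.conj (c K)).toMonoidHom = K) {x : G} (hx : x ∈ L) :
    ∃ t ∈ normalClosure (L : Set G), ∀ K : Conjs L, ∀ y ∈ (K : Subgroup G),
      t * y * t⁻¹ = (c K * x * (c K)⁻¹) * y * (c K * x * (c K)⁻¹)⁻¹ :=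
  exists_act hc (fun K => c K * x * (c K)⁻¹) fun K => rep_mem hcr K hx

/-- `G = T N(D)`. -/
theorem exists_mul_normalizer_diag [Finite G] (hc : CommConj L) {c : Conjs L → G}
    (hcr : ∀ K, L.map (MulAut.conj (c K)).toMonoidHom = K)
    (hin : ∀ g ∈ normalizer (L : Set G), ∃ s ∈ L, ∀ x ∈ L, g * x * g⁻¹ = s * x * s⁻¹)
    (g : G) : ∃ t ∈ normalClosure (L : Set G), t⁻¹ * g ∈ normalizer (diag c hcr : Set G) := by
  -- the action of `g` on the conjugates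
  have key : ∀ K : Conjs L, ∃ v ∈ (K : Subgroup G), ∃ K' : Conjs L,
      (K' : Subgroup G).map (MulAut.conj g).toMonoidHom = K ∧
      ∀ x ∈ L, g * (c K' * x * (c K')⁻¹) * g⁻¹ = v * (c K * x * (c K)⁻¹) * v⁻¹ := by
    intro K
    set K' : Conjs L := ⟨(K : Subgroup G).map (MulAut.conj g⁻¹).toMonoidHom, conj_mem_conjs K.2 g⁻¹⟩ with hK'
    have hKK : (K' : Subgroup G).map (MulAut.conj g).toMonoidHom = K := by
      rw [hK']
      simp only
      rw [map_conj_map_conj, mul_inv_cancel, map_conj_one]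
    have hn : (c K)⁻¹ * g * c K' ∈ normalizer (L : Set G) := by
      rw [mem_normalizer_iff_map]
      have e1 : L.map (MulAut.conj ((c K)⁻¹ * g * c K')).toMonoidHom =
          ((L.map (MulAut.conj (c K')).toMonoidHom).map (MulAut.conj g).toMonoidHom).map
            (MulAut.conj (c K)⁻¹).toMonoidHom := by
        rw [map_conj_map_conj, map_conj_map_conj]
      rw [e1, hcr, hKK, ← hcr K, map_conj_map_conj, inv_mul_cancel, map_conj_one]
    obtain ⟨s, hs, hs2⟩ := hin _ hn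
    refine ⟨c K * s * (c K)⁻¹, rep_mem hcr K hs, K', hKK, fun x hx => ?_⟩
    have h1 := hs2 x hx
    calc g * (c K' * x * (c K')⁻¹) * g⁻¹ =
        c K * (((c K)⁻¹ * g * c K') * x * ((c K)⁻¹ * g * c K')⁻¹) * (c K)⁻¹ := by group
      _ = c K * (s * x * s⁻¹) * (c K)⁻¹ := by rw [h1]
      _ = _ := by group
  choose v hv K' hK1 hK2 using key
  obtain ⟨t, ht, ht2⟩ := exists_act hc v hv
  refine ⟨t, ht, ?_⟩
  set h : G := t⁻¹ * g with hh
  have hTn : (normalClosure (L : Set G)).Normal := normalClosure_normal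
  -- the action of `h`
  have hK3 : ∀ K : Conjs L, ∀ x ∈ L, h * (c (K' K) * x * (c (K' K))⁻¹) * h⁻¹ = c K * x * (c K)⁻¹ := by
    intro K x hx
    have h1 := ht2 K _ (rep_mem hcr K hx)
    calc h * (c (K' K) * x * (c (K' K))⁻¹) * h⁻¹ = t⁻¹ * (g * (c (K' K) * x * (c (K' K))⁻¹) * g⁻¹) * t := by
          rw [hh]; group
      _ = t⁻¹ * (t * (c K * x * (c K)⁻¹) * t⁻¹) * t := by rw [hK2 K x hx, h1]
      _ = _ := by group
  have hconj : ∀ d ∈ diag c hcr, h * d * h⁻¹ ∈ diag c hcr := by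
    rintro d ⟨hd, x, hx, hd2⟩
    refine ⟨hTn.conj_mem _ hd _, x, hx, fun K y hy => ?_⟩
    obtain ⟨l, hl, rfl⟩ : ∃ l ∈ L, c K * l * (c K)⁻¹ = y := by
      rw [← hcr K] at hy
      exact hy
    have h1 := hd2 (K' K) _ (rep_mem hcr (K' K) hl)
    rw [← hK3 K l hl, ← hK3 K x hx]
    calc h * d * h⁻¹ * (h * (c (K' K) * l * (c (K' K))⁻¹) * h⁻¹) * (h * d * h⁻¹)⁻¹ =
        h * (d * (c (K' K) * l * (c (K' K))⁻¹) * d⁻¹) * h⁻¹ := by group
      _ = h * (c (K' K) * x * (c (K' K))⁻¹ * (c (K' K) * l * (c (K' K))⁻¹) * (c (K' K) * x * (c (K' K))⁻¹)⁻¹) * h⁻¹ := by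
          rw [h1]
      _ = _ := by group
  rw [mem_normalizer_iff_map]
  apply Subgroup.eq_of_le_of_card_ge
  · rintro _ ⟨d, hd, rfl⟩
    exact hconj d hd
  · exact (Nat.card_congr ((diag c hcr).equivMapOfInjective _ (MulAut.conj h).injective).toEquiv).le

/-- **The simple component is normal.** -/
theorem conjs_eq [Finite G] (hmax : HMax G) (hc : CommConj L) [hs : IsSimpleGroup L] (hZ : center L = ⊥)
    (hZT : ∀ t ∈ normalClosure (L : Set G), (∀ K ∈ Conjs L, ∀ y ∈ K, t * y * t⁻¹ = y) → t = 1)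
    (hin : ∀ g ∈ normalizer (L : Set G), ∃ s ∈ L, ∀ x ∈ L, g * x * g⁻¹ = s * x * s⁻¹) :
    ∀ K ∈ Conjs L, K = L := by
  by_contra hcon
  push Not at hcon
  obtain ⟨K0, hK0, hKL⟩ := hcon
  set T : Subgroup G := normalClosure (L : Set G) with hT
  have hTn : T.Normal := normalClosure_normal
  have hLT : L ≤ T := subset_normalClosure
  obtain ⟨c, hcr, hc1⟩ := exists_rep L
  have hmul := exists_mul_normalizer_diag hc hcr hin
  set D := diag c hcr with hD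
  -- the action on `L`
  have hDL : ∀ {t x : G}, (∀ K : Conjs L, ∀ y ∈ (K : Subgroup G),
      t * y * t⁻¹ = (c K * x * (c K)⁻¹) * y * (c K * x * (c K)⁻¹)⁻¹) → ∀ y ∈ L, t * y * t⁻¹ = x * y * x⁻¹ := by
    intro t x h y hy
    have h1 := h ⟨L, self_mem_conjs L⟩ y hy
    rw [hc1, one_mul, inv_one, mul_one] at h1
    exact h1
  have hprop : normalizer (D : Set G) ≠ ⊤ := by
    intro htop
    have hn : D.Normal := normalizer_eq_top_iff.mp htop
    have hDinf : ∀ d ∈ D, d ∈ L → d = 1 := by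
      rintro d ⟨-, x, hx, hd⟩ hdL
      have h1 : x = 1 := by
        refine eq_one_of_act hZ hx fun l hl => ?_
        have h2 := hd ⟨K0, hK0⟩ _ (rep_mem hcr ⟨K0, hK0⟩ hl)
        have h3 : d * (c ⟨K0, hK0⟩ * l * (c ⟨K0, hK0⟩)⁻¹) * d⁻¹ = c ⟨K0, hK0⟩ * l * (c ⟨K0, hK0⟩)⁻¹ := by
          rw [hc L (self_mem_conjs L) K0 hK0 (Ne.symm hKL) d hdL _ (rep_mem hcr ⟨K0, hK0⟩ hl)]
          group
        rw [h3] at h2
        calc x * l * x⁻¹ = (c ⟨K0, hK0⟩)⁻¹ * (c ⟨K0, hK0⟩ * x * (c ⟨K0, hK0⟩)⁻¹ *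
              (c ⟨K0, hK0⟩ * l * (c ⟨K0, hK0⟩)⁻¹) * (c ⟨K0, hK0⟩ * x * (c ⟨K0, hK0⟩)⁻¹)⁻¹) * c ⟨K0, hK0⟩ := by group
          _ = (c ⟨K0, hK0⟩)⁻¹ * (c ⟨K0, hK0⟩ * l * (c ⟨K0, hK0⟩)⁻¹) * c ⟨K0, hK0⟩ := by rw [← h2]
          _ = l := by group
      refine eq_one_of_act hZ hdL fun l hl => ?_
      rw [hDL hd l hl, h1]
      group
    obtain ⟨⟨x, hx⟩, hx1⟩ := exists_ne (1 : L)
    obtain ⟨t, ht, ht2⟩ := exists_diag hc hcr hx
    have htD : t ∈ D := ⟨ht, x, hx, ht2⟩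
    apply hx1
    apply Subtype.ext
    change x = 1
    refine eq_one_of_act hZ hx fun l hl => ?_
    have h1 : t * l * t⁻¹ * l⁻¹ ∈ L := by
      rw [hDL ht2 l hl]
      exact L.mul_mem (L.mul_mem (L.mul_mem hx hl) (L.inv_mem hx)) (L.inv_mem hl)
    have h2 : t * l * t⁻¹ * l⁻¹ ∈ D := by
      have : t * l * t⁻¹ * l⁻¹ = t * (l * t⁻¹ * l⁻¹) := by group
      rw [this]
      exact D.mul_mem htD (hn.conj_mem _ (D.inv_mem htD) _)
    have h3 := hDinf _ h2 h1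
    rw [mul_inv_eq_one] at h3
    rw [← hDL ht2 l hl]
    exact h3
  obtain ⟨M, hM, hNM⟩ := (eq_top_or_exists_le_coatom _).resolve_left hprop
  have hTM : T ⊔ M = ⊤ := by
    rw [eq_top_iff]
    intro g _
    obtain ⟨t, ht, ht2⟩ := hmul g
    have : g = t * (t⁻¹ * g) := by group
    rw [this]
    exact mul_mem (mem_sup_left ht) (mem_sup_right (hNM ht2))
  have hcop := hmax M hM
  have hne1 : M.index ≠ 1 := fun h => hM.1 (index_eq_one.mp h)
  obtain ⟨p, hp, hpd⟩ := Nat.exists_prime_and_dvd hne1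
  have : Fact p.Prime := ⟨hp⟩
  have hidx : M.index = M.relIndex T := by
    rw [← relIndex_sup_of_normal_right M T, sup_comm, hTM, relIndex_top_right]
  have hpT : p ∣ Nat.card T := by
    rw [hidx] at hpd
    exact hpd.trans (relIndex_dvd_card _ _)
  obtain ⟨⟨t, ht⟩, hto⟩ := exists_prime_orderOf_dvd_card' (G := T) p hpT
  have hto' : orderOf t = p := by rw [← hto, Subgroup.orderOf_mk]
  have ht1 : t ≠ 1 := by
    rintro rfl
    rw [orderOf_one] at hto'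
    exact hp.one_lt.ne hto'
  -- an element of `L` of order `p`
  have hex : ∃ s ∈ L, orderOf s = p := by
    by_contra hcon
    apply ht1
    refine hZT t ht ?_
    rintro K ⟨g, rfl⟩
    -- conjugate
    have h1 : g⁻¹ * t * g ∈ T := by
      have := hTn.conj_mem t ht g⁻¹
      rwa [inv_inv] at this
    obtain ⟨s, hs, hs2⟩ := normalClosure_le_inner hc h1
    have h2 : s ^ p = 1 := by
      refine eq_one_of_act hZ (L.pow_mem hs p) fun y hy => ?_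
      rw [← act_pow hs hs2 p y hy]
      have h3 : (g⁻¹ * t * g) ^ p = 1 := by
        have h4 : g⁻¹ * t * g = g⁻¹ * t * g⁻¹⁻¹ := by rw [inv_inv]
        rw [h4, conj_pow, ← hto', pow_orderOf_eq_one]
        group
      rw [h3]
      group
    have h3 : s = 1 := by
      by_contra h4
      exact hcon ⟨s, hs, orderOf_eq_prime h2 h4⟩
    rintro _ ⟨y, hy, rfl⟩
    change t * (g * y * g⁻¹) * t⁻¹ = g * y * g⁻¹
    have h4 := hs2 y hy
    rw [h3] at h4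
    calc t * (g * y * g⁻¹) * t⁻¹ = g * ((g⁻¹ * t * g) * y * (g⁻¹ * t * g)⁻¹) * g⁻¹ := by group
      _ = g * y * g⁻¹ := by rw [h4]; group
  obtain ⟨s, hsL, hso⟩ := hex
  obtain ⟨t0, ht0, ht2⟩ := exists_diag hc hcr hsL
  have ht0D : t0 ∈ D := ⟨ht0, s, hsL, ht2⟩
  have hpt0 : p ∣ orderOf t0 := by
    rw [← hso]
    apply orderOf_dvd_of_pow_eq_one
    refine eq_one_of_act hZ (L.pow_mem hsL _) fun y hy => ?_
    rw [← act_pow hsL (hDL ht2) (orderOf t0) y hy, pow_orderOf_eq_one]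
    group
  have hpM : p ∣ Nat.card M := by
    have h1 : orderOf t0 ∣ Nat.card M := by
      have := orderOf_dvd_natCard (⟨t0, hNM (le_normalizer ht0D)⟩ : M)
      rwa [Subgroup.orderOf_mk] at this
    exact hpt0.trans h1
  have := Nat.dvd_gcd hpM hpd
  rw [hcop] at this
  exact hp.one_lt.ne' (Nat.dvd_one.mp this)

end Cfsg.Agent.H554
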