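import Mathlib
import Cfsg.Agent.H554.Reduce

/-!
# Groups with all maximal subgroups Hall: composition factors (helper554)

`exists_component` : a nonabelian composition factor of `G` is isomorphic to a simple component of a quotient of `G`;
`exists_hallSys` : hence it has a Hall system if every maximal subgroup of `G` is a Hall subgroup.
-/

set_option autoImplicit false

namespace Cfsg.Agent.H554

open Subgroup SignalizersComponents.Components

universe u

section

variable {G : Type u} [Group G]

theorem exists_component_aux [Finite G] (hsol : ∀ K : Subgroup G, K.Normal → Group.IsSolvable K → K = ⊥)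
    (H : Subgroup G) (hH : H.IsSubnormal) (N : Subgroup H) [N.Normal] (hS : IsSimpleGroup (H ⧸ N))
    (hna : ¬ IsMulCommutative (H ⧸ N))
    (hmin : ∀ K : Subgroup G, K.Normal → K.subgroupOf H ≤ N → K = ⊥) :
    ∃ L : Subgroup G, IsComponent L ∧ center L = ⊥ ∧ IsSimpleGroup L ∧ Nonempty (L ≃* H ⧸ N) := by
  have hsolsub : ∀ K : Subgroup G, K.IsSubnormal → Group.IsSolvable K → K = ⊥ := by
    intro K hK hs
    obtain ⟨M, h1, h2, h3⟩ := SignalizersComponents.ComponentExists.exists_normal_isSolvable_of_isSubnormal hK hs
    exact le_bot_iff.mp (h3.trans (hsol M h1 h2).le)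
  have hfit : Cfsg.fittingSubgroup G = ⊥ := by
    rw [Cfsg.fittingSubgroup, sSup_eq_bot]
    rintro K ⟨h1, h2⟩
    exact hsol K h1 inferInstance
  have hcent : ∀ K : Subgroup G, K.IsSubnormal → center K = ⊥ := by
    intro K hK
    have h1 : ((center K).map K.subtype).IsSubnormal :=
      (inferInstance : (center K).Normal).isSubnormal.trans' hK
    have h2 : Group.IsSolvable ((center K).map K.subtype) := by
      apply Group.isSolvable_of_comm
      rintro ⟨_, a, ha, rfl⟩ ⟨_, b, hb, rfl⟩
      apply Subtype.ext
      change ((a * b : K) : G) = ((b * a : K) : G)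
      rw [mem_center_iff.mp hb a]
    exact (Subgroup.map_eq_bot_iff_of_injective _ K.subtype_injective).mp (hsolsub _ h1 h2)
  -- `H` is not solvable
  have hHns : ¬ Group.IsSolvable H := by
    intro hs
    have h1 : Group.IsSolvable (H ⧸ N) := inferInstance
    exact hna ⟨⟨fun a b => (IsSimpleGroup.comm_iff_isSolvable.mpr h1) a b⟩⟩
  set N' : Subgroup G := N.map H.subtype with hN'
  have hN'H : N' ≤ H := map_subtype_le N
  have hN's : N'.IsSubnormal := (inferInstance : N.Normal).isSubnormal.trans' hH
  -- a component in `H` outside of `N`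
  have hex : ∃ L : Subgroup G, IsComponent L ∧ L ≤ H ∧ ¬ L ≤ N' := by
    by_contra hcon
    push Not at hcon
    have h1 : layer G ≤ inner H N' hN'H := by
      rw [layer_le_iff]
      intro K hK
      rcases component_le_or_commutator_eq_bot hK hH with h | h
      · exact (hcon K hK h).trans (le_inner hN'H)
      · exact (commutator_eq_bot_iff_le_centralizer.mp h).trans (centralizer_le_inner hN'H)
    have h2 : layer G ⊓ H ≤ N' := (inf_le_inf_right _ h1).trans (inner_inf_le hN'H (hcent H hH))
    have h3 : layer G = ⊥ := by
      apply hmin _ (layer_normal G)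
      intro x hx
      obtain ⟨y, hy, hyx⟩ := h2 ⟨mem_subgroupOf.mp hx, x.2⟩
      exact (Subtype.ext hyx : y = x) ▸ hy
    obtain ⟨K, hK1, hK2⟩ := SignalizersComponents.ComponentExists.exists_isComponent_le hH hHns (by
      rw [hfit]
      intro x _
      rw [mem_centralizer_iff]
      intro y hy
      rw [SetLike.mem_coe, mem_bot] at hy
      rw [hy, one_mul, mul_one])
    exact component_ne_bot hK1 (le_bot_iff.mp (h3 ▸ component_le_layer hK1))
  obtain ⟨L, hL, hLH, hLN⟩ := hex
  have hZ := hcent L hL.1
  have hLs : IsSimpleGroup L := by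
    have h1 := hL.2.2
    exact (MulEquiv.isSimpleGroup_congr ((QuotientGroup.quotientMulEquivOfEq hZ).trans
      (QuotientGroup.quotientBot (G := L)))).mp h1
  refine ⟨L, hL, hZ, hLs, ?_⟩
  -- the map
  set f : L →* H ⧸ N := (QuotientGroup.mk' N).comp (inclusion hLH) with hf
  have hker : f.ker = ⊥ := by
    rcases (inferInstance : f.ker.Normal).eq_bot_or_eq_top with h | h
    · exact h
    · exfalso
      apply hLN
      intro x hx
      have h1 : (⟨x, hx⟩ : L) ∈ f.ker := h ▸ mem_top _
      rw [MonoidHom.mem_ker] at h1
      have h2 : inclusion hLH ⟨x, hx⟩ ∈ N := (QuotientGroup.eq_one_iff _).mp h1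
      exact ⟨_, h2, rfl⟩
  have hrange : f.range = ⊤ := by
    have h1 : f.range = (L.subgroupOf H).map (QuotientGroup.mk' N) := by
      ext y
      constructor
      · rintro ⟨x, rfl⟩
        exact ⟨inclusion hLH x, mem_subgroupOf.mpr x.2, rfl⟩
      · rintro ⟨x, hx, rfl⟩
        exact ⟨⟨x, mem_subgroupOf.mp hx⟩, rfl⟩
    have h2 : f.range.IsSubnormal := by
      rw [h1]
      exact hL.1.subgroupOf.map (QuotientGroup.mk'_surjective N)
    rcases h2.eq_bot_or_top_of_isSimpleGroup hS with h | h
    · exfalso
      have h3 : f = 1 := MonoidHom.range_eq_bot_iff.mp h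
      have h4 : f.ker = ⊤ := by rw [h3]; exact MonoidHom.ker_one
      rw [hker] at h4
      exact bot_ne_top h4
    · exact h
  exact ⟨MulEquiv.ofBijective f ⟨(MonoidHom.ker_eq_bot_iff f).mp hker, MonoidHom.range_eq_top.mp hrange⟩⟩

/-- **Every nonabelian composition factor has a Hall system.** -/
theorem exists_hallSys_aux : ∀ (n : ℕ) {G : Type u} [Group G] [Finite G], Nat.card G = n → HMax G →
    ∀ (H : Subgroup G), H.IsSubnormal → ∀ (N : Subgroup H) [N.Normal], IsSimpleGroup (H ⧸ N) →
    ¬ IsMulCommutative (H ⧸ N) → ∃ (A : Subgroup (MulAut (H ⧸ N))) (m : ℕ), HallSys (H ⧸ N) A m := by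
  intro n
  induction n using Nat.strong_induction_on with
  | _ n ih =>
    intro G _ _ hn hmax H hH N _ hS hna
    by_cases hmin : ∀ K : Subgroup G, K.Normal → K.subgroupOf H ≤ N → K = ⊥
    · obtain ⟨L, hL, hZ, hLs, ⟨e⟩⟩ := exists_component_aux (G := G) (by
        intro K hK hs
        by_contra hne
        apply hne
        apply hmin K hK
        -- the image of a solvable normal subgroup
        have h1 : ((K.subgroupOf H).map (QuotientGroup.mk' N)).Normal :=
          (inferInstance : (K.subgroupOf H).Normal).map _ (QuotientGroup.mk'_surjective N)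
        rcases h1.eq_bot_or_eq_top with h2 | h2
        · rwa [Subgroup.map_eq_bot_iff, QuotientGroup.ker_mk'] at h2
        · exfalso
          have h3 : Group.IsSolvable (K.subgroupOf H) :=
            Group.isSolvable_of_isSolvable_injective (f := (H.subtype.subgroupComap K))
              (fun a b hab => Subtype.ext (Subtype.ext (congrArg (fun z : K => (z : G)) hab)))
          have h4 : Group.IsSolvable ((K.subgroupOf H).map (QuotientGroup.mk' N)) :=
            SignalizersComponents.ComponentExists.isSolvable_map h3 _
          rw [h2] at h4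
          have h5 : Group.IsSolvable (H ⧸ N) :=
            Group.isSolvable_of_surjective (f := (Subgroup.topEquiv (G := H ⧸ N)).toMonoidHom)
              (Subgroup.topEquiv (G := H ⧸ N)).surjective
          exact hna ⟨⟨fun a b => (IsSimpleGroup.comm_iff_isSolvable.mpr h5) a b⟩⟩) H hH N hS hna hmin
      exact ⟨_, _, (hallSys_of_component hmax (commConj_of_component hL) hZ).congr e⟩
    · push Not at hmin
      obtain ⟨K, hK, hKN, hKb⟩ := hmin
      have hs : Function.Surjective (QuotientGroup.mk' K) := QuotientGroup.mk'_surjective K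
      have hlt : Nat.card (G ⧸ K) < n := by
        rw [← hn, Subgroup.card_eq_card_quotient_mul_card_subgroup K]
        apply lt_mul_of_one_lt_right Nat.card_pos
        rw [Finite.one_lt_card_iff_nontrivial]
        exact (Subgroup.nontrivial_iff_ne_bot K).mpr hKb
      set f : H →* H.map (QuotientGroup.mk' K) := (QuotientGroup.mk' K).subgroupMap H with hf
      have hfs : Function.Surjective f := (QuotientGroup.mk' K).subgroupMap_surjective H
      have hker : f.ker ≤ N := by
        intro x hx
        rw [MonoidHom.mem_ker] at hx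
        have h1 : QuotientGroup.mk' K (x : G) = 1 := congrArg Subtype.val hx
        exact hKN (mem_subgroupOf.mpr ((QuotientGroup.eq_one_iff _).mp h1))
      have hNn : (N.map f).Normal := (inferInstance : N.Normal).map f hfs
      set g : H →* (H.map (QuotientGroup.mk' K)) ⧸ (N.map f) := (QuotientGroup.mk' (N.map f)).comp f with hg
      have hgs : Function.Surjective g := (QuotientGroup.mk'_surjective _).comp hfs
      have hgk : g.ker = N := by
        rw [hg, ← MonoidHom.comap_ker, QuotientGroup.ker_mk', comap_map_eq, sup_eq_left]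
        exact hker
      have e : H ⧸ N ≃* (H.map (QuotientGroup.mk' K)) ⧸ (N.map f) :=
        (QuotientGroup.quotientMulEquivOfEq hgk.symm).trans (QuotientGroup.quotientKerEquivOfSurjective g hgs)
      have hS' : IsSimpleGroup ((H.map (QuotientGroup.mk' K)) ⧸ (N.map f)) := (MulEquiv.isSimpleGroup_congr e).mp hS
      have hna' : ¬ IsMulCommutative ((H.map (QuotientGroup.mk' K)) ⧸ (N.map f)) := by
        intro hc
        apply hna
        constructor
        constructor
        intro a b
        apply e.injective
        rw [map_mul, map_mul]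
        exact hc.is_comm.comm _ _
      obtain ⟨A, m, hA⟩ := ih _ hlt (G := G ⧸ K) rfl (hmax.quotient K) (H.map (QuotientGroup.mk' K))
        (hH.map hs) (N.map f) hS' hna'
      exact ⟨_, _, hA.congr e.symm⟩

theorem exists_hallSys {G : Type u} [Group G] [Finite G] (hmax : HMax G) (H : Subgroup G) (hH : H.IsSubnormal)
    (N : Subgroup H) [N.Normal] (hS : IsSimpleGroup (H ⧸ N)) (hna : ¬ IsMulCommutative (H ⧸ N)) :
    ∃ (A : Subgroup (MulAut (H ⧸ N))) (m : ℕ), HallSys (H ⧸ N) A m :=
  exists_hallSys_aux _ rfl hmax H hH N hS hna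

end

end Cfsg.Agent.H554
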