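import Mathlib
import Cfsg.Agent.H554.Factor
import Cfsg.Agent.H554.Diag

/-!
# Groups with all maximal subgroups Hall: complements (helper554)

* `Good S` : if `S` has a Hall system with automorphisms `A`, then `A` consists of inner automorphisms, and if all
  maximal subgroups of `S` are Hall subgroups then they have complements;
* `exists_compl` : if all nonabelian simple groups are good, then the maximal subgroups of a finite group all of whose
  maximal subgroups are Hall subgroups have complements.
-/

set_option autoImplicit false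

namespace Cfsg.Agent.H554

open Subgroup SignalizersComponents.Components
open scoped commutatorElement

universe u

/-- the property of the simple groups -/
def Good (S : Type u) [Group S] : Prop := ∀ (A : Subgroup (MulAut S)) (n : ℕ), HallSys S A n →
  (∀ a ∈ A, ∃ s : S, a = MulAut.conj s) ∧
    (HMax S → ∀ M : Subgroup S, IsCoatom M → ∃ K : Subgroup S, Subgroup.IsComplement' M K)

section

variable {G : Type u} [Group G]

theorem eq_bot_of_core {M X Y : Subgroup G} (hM : IsCoatom M) (hcore : M.normalCore = ⊥) (hXM : X ≤ M)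
    (h1 : M ≤ normalizer (X : Set G)) (hY : Y.Normal) (hYb : Y ≠ ⊥) (h2 : Y ≤ normalizer (X : Set G)) : X = ⊥ := by
  have hYM : ¬ Y ≤ M := fun h => hYb (le_bot_iff.mp (hcore ▸ normal_le_normalCore.mpr h))
  have h3 : M ⊔ Y = ⊤ := hM.2 _ (lt_of_le_of_ne le_sup_left fun h => hYM (by rw [h]; exact le_sup_right))
  have h4 : normalizer (X : Set G) = ⊤ := top_le_iff.mp (h3 ▸ sup_le h1 h2)
  have h5 : X.Normal := normalizer_eq_top_iff.mp h4
  exact le_bot_iff.mp (hcore ▸ normal_le_normalCore.mpr hXM)

theorem exists_minimal_normal [Finite G] {K : Subgroup G} (hK : K.Normal) (hKb : K ≠ ⊥) :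
    ∃ E : Subgroup G, E.Normal ∧ E ≠ ⊥ ∧ E ≤ K ∧ ∀ F : Subgroup G, F.Normal → F ≤ E → F ≠ ⊥ → F = E := by
  have hfin : ({E : Subgroup G | E.Normal ∧ E ≠ ⊥ ∧ E ≤ K}).Finite := Set.toFinite _
  obtain ⟨E, hE⟩ := hfin.exists_minimal ⟨K, hK, hKb, le_rfl⟩
  obtain ⟨⟨h1, h2, h3⟩, h4⟩ := hE
  exact ⟨E, h1, h2, h3, fun F hF hFE hFb => le_antisymm hFE (h4 ⟨hF, hFb, hFE.trans h3⟩ hFE)⟩

/-- the core-free case -/
theorem exists_compl_of_core [Finite G] (hmax : HMax G)
    (hgood : ∀ (S : Type u) [Group S] [Finite S], IsSimpleGroup S → ¬ IsMulCommutative S → Good S)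
    {M : Subgroup G} (hM : IsCoatom M) (hcore : M.normalCore = ⊥) : ∃ K : Subgroup G, Subgroup.IsComplement' M K := by
  by_cases hA : ∃ E : Subgroup G, E.Normal ∧ E ≠ ⊥ ∧ E ⊓ M = ⊥
  · obtain ⟨E, hE, hEb, hEM⟩ := hA
    have hYM : ¬ E ≤ M := fun h => hEb (le_bot_iff.mp (hcore ▸ normal_le_normalCore.mpr h))
    have h3 : M ⊔ E = ⊤ := hM.2 _ (lt_of_le_of_ne le_sup_left fun h => hYM (by rw [h]; exact le_sup_right))
    refine ⟨E, isComplement'_of_disjoint_and_mul_eq_univ ?_ ?_⟩
    · rw [disjoint_iff, inf_comm]
      exact hEM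
    · rw [← Subgroup.mul_normal M E, h3]
      rfl
  push Not at hA
  -- no solvable normal subgroups
  have hsol : ∀ K : Subgroup G, K.Normal → Group.IsSolvable K → K = ⊥ := by
    intro K hK hs
    by_contra hKb
    obtain ⟨E, hE, hEb, hEK, hmin⟩ := exists_minimal_normal hK hKb
    have hEs : Group.IsSolvable E :=
      Group.isSolvable_of_isSolvable_injective (f := Subgroup.inclusion hEK) (Subgroup.inclusion_injective hEK)
    have hcomm : ⁅E, E⁆ = ⊥ := by
      by_contra hne
      have h1 : ⁅E, E⁆ = E := hmin _ inferInstance (commutator_le_left E E) hne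
      have h2 : commutator E = ⊤ := by
        have h3 : (commutator E).map E.subtype = ⁅E, E⁆ := by
          rw [map_subtype_commutator]
        rw [h1] at h3
        apply (Subgroup.map_injective E.subtype_injective)
        rw [h3, ← MonoidHom.range_eq_map, range_subtype]
      have hnt : Nontrivial E := (nontrivial_iff_ne_bot E).mpr hEb
      exact (Group.IsSolvable.commutator_lt_top_of_nontrivial (G := E)).ne h2
    have habel : ∀ x ∈ E, ∀ y ∈ E, x * y = y * x := by
      intro x hx y hy
      have h1 : ⁅x, y⁆ ∈ ⁅E, E⁆ := commutator_mem_commutator hx hy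
      rw [hcomm, mem_bot, commutatorElement_eq_one_iff_mul_comm] at h1
      exact h1
    refine hA E hE hEb (eq_bot_of_core hM hcore inf_le_right ?_ hE hEb ?_)
    · intro m hm
      have h1 : m ∈ normalizer (E : Set G) := by
        rw [normalizer_eq_top_iff.mpr hE]; trivial
      have h2 : m ∈ normalizer (M : Set G) := le_normalizer hm
      rw [mem_normalizer_iff] at h1 h2 ⊢
      intro x
      rw [mem_inf, mem_inf, h1 x, h2 x]
    · intro e he
      rw [mem_normalizer_iff]
      intro x
      constructor
      · rintro ⟨hx1, hx2⟩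
        have : e * x * e⁻¹ = x := by rw [habel e he x hx1]; group
        rw [this]
        exact ⟨hx1, hx2⟩
      · rintro ⟨hx1, hx2⟩
        have hxE : x ∈ E := by
          have := E.mul_mem (E.mul_mem (E.inv_mem he) hx1) he
          have e1 : e⁻¹ * (e * x * e⁻¹) * e = x := by group
          rwa [e1] at this
        have : e * x * e⁻¹ = x := by rw [habel e he x hxE]; group
        rw [this] at hx1 hx2
        exact ⟨hx1, hx2⟩
  have hsolsub : ∀ K : Subgroup G, K.IsSubnormal → Group.IsSolvable K → K = ⊥ := by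
    intro K hK hs
    obtain ⟨M, h1, h2, h3⟩ := SignalizersComponents.ComponentExists.exists_normal_isSolvable_of_isSubnormal hK hs
    exact le_bot_iff.mp (h3.trans (hsol M h1 h2).le)
  have hfit : Cfsg.fittingSubgroup G = ⊥ := by
    rw [Cfsg.fittingSubgroup, sSup_eq_bot]
    rintro K ⟨h1, h2⟩
    exact hsol K h1 inferInstance
  have hcent : ∀ K : Subgroup G, K.IsSubnormal → center K = ⊥ := by
    intro K hK
    have h1 : ((center K).map K.subtype).IsSubnormal :=
      (inferInstance : (center K).Normal).isSubnormal.trans' hK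
    have h2 : Group.IsSolvable ((center K).map K.subtype) := by
      apply Group.isSolvable_of_comm
      rintro ⟨_, a, ha, rfl⟩ ⟨_, b, hb, rfl⟩
      apply Subtype.ext
      change ((a * b : K) : G) = ((b * a : K) : G)
      rw [mem_center_iff.mp hb a]
    exact (Subgroup.map_eq_bot_iff_of_injective _ K.subtype_injective).mp (hsolsub _ h1 h2)
  have htb : (⊤ : Subgroup G) ≠ ⊥ := by
    intro h
    exact hM.1 (eq_top_iff.mpr (h ▸ bot_le))
  have hns : ¬ Group.IsSolvable (⊤ : Subgroup G) := fun h => htb (hsol ⊤ inferInstance h)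
  obtain ⟨L, hL, -⟩ := SignalizersComponents.ComponentExists.exists_isComponent_le
    (C := (⊤ : Subgroup G)) Subgroup.IsSubnormal.top hns (by
      rw [hfit]
      intro x _
      rw [mem_centralizer_iff]
      intro y hy
      rw [SetLike.mem_coe, mem_bot] at hy
      rw [hy, one_mul, mul_one])
  have hZ := hcent L hL.1
  have hLs : IsSimpleGroup L := by
    have h1 := hL.2.2
    exact (MulEquiv.isSimpleGroup_congr ((QuotientGroup.quotientMulEquivOfEq hZ).trans
      (QuotientGroup.quotientBot (G := L)))).mp h1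
  have hna : ¬ IsMulCommutative L := by
    intro hc
    have h1 : center L = ⊤ := by
      rw [eq_top_iff]
      intro x _
      rw [mem_center_iff]
      intro g
      exact hc.is_comm.comm g x
    rw [hZ] at h1
    obtain ⟨x, hx⟩ := exists_ne (1 : L)
    exact hx (mem_bot.mp (h1 ▸ mem_top x))
  have hcc := commConj_of_component hL
  have hsys := hallSys_of_component hmax hcc hZ
  obtain ⟨hinn, -⟩ := hgood L hLs hna _ _ hsys
  have hin : ∀ g ∈ normalizer (L : Set G), ∃ s ∈ L, ∀ x ∈ L, g * x * g⁻¹ = s * x * s⁻¹ := by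
    intro g hg
    obtain ⟨s, hs⟩ := hinn (L.normalizerMonoidHom ⟨g, hg⟩) ⟨_, rfl⟩
    refine ⟨s, s.2, fun x hx => ?_⟩
    have h1 := DFunLike.congr_fun hs (⟨x, hx⟩ : L)
    exact congrArg Subtype.val h1
  have hZT : ∀ t ∈ normalClosure (L : Set G), (∀ K ∈ Conjs L, ∀ y ∈ K, t * y * t⁻¹ = y) → t = 1 := by
    intro t ht hK
    have h1 : normalClosure (L : Set G) ≤ centralizer {t} := by
      apply normalClosure_le_of_conjs
      intro K hK' y hy
      rw [mem_centralizer_singleton_iff]
      have h2 := hK K hK' y hy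
      rw [mul_inv_eq_iff_eq_mul] at h2
      exact h2.symm
    have h2 : (⟨t, ht⟩ : normalClosure (L : Set G)) ∈ center (normalClosure (L : Set G)) := by
      rw [mem_center_iff]
      rintro ⟨y, hy⟩
      exact Subtype.ext (mem_centralizer_singleton_iff.mp (h1 hy))
    rw [hcent _ (normalClosure_normal (s := (L : Set G))).isSubnormal, mem_bot] at h2
    exact congrArg Subtype.val h2
  have heq := conjs_eq hmax hcc hZ hZT hin
  have hLn : L.Normal := by
    rw [← normalizer_eq_top_iff, eq_top_iff]
    intro g _
    rw [mem_normalizer_iff_map]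
    exact heq _ ⟨g, rfl⟩
  have hLb : L ≠ ⊥ := (nontrivial_iff_ne_bot L).mp inferInstance
  have hC : centralizer (L : Set G) = ⊥ := by
    by_contra hCb
    have hCn : (centralizer (L : Set G)).Normal := inferInstance
    refine hA L hLn hLb (eq_bot_of_core hM hcore inf_le_right ?_ hCn hCb ?_)
    · intro m hm
      have h1 : m ∈ normalizer (L : Set G) := by
        rw [normalizer_eq_top_iff.mpr hLn]; trivial
      have h2 : m ∈ normalizer (M : Set G) := le_normalizer hm
      rw [mem_normalizer_iff] at h1 h2 ⊢
      intro x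
      rw [mem_inf, mem_inf, h1 x, h2 x]
    · intro e he
      have hcomm := mem_centralizer_iff.mp he
      rw [mem_normalizer_iff]
      intro x
      constructor
      · rintro ⟨hx1, hx2⟩
        have : e * x * e⁻¹ = x := by rw [← hcomm x hx1]; group
        rw [this]
        exact ⟨hx1, hx2⟩
      · rintro ⟨hx1, hx2⟩
        have hxL : x ∈ L := by
          have := hLn.conj_mem _ hx1 e⁻¹
          have e1 : e⁻¹ * (e * x * e⁻¹) * e⁻¹⁻¹ = x := by group
          rwa [e1] at this
        have : e * x * e⁻¹ = x := by rw [← hcomm x hxL]; group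
        rw [this] at hx1 hx2
        exact ⟨hx1, hx2⟩
  have hLt : L = ⊤ := by
    rw [eq_top_iff]
    intro g _
    obtain ⟨s, hs, hs2⟩ := hin g (by rw [normalizer_eq_top_iff.mpr hLn]; trivial)
    have h1 : s⁻¹ * g ∈ centralizer (L : Set G) := by
      rw [mem_centralizer_iff]
      intro x hx
      have h2 := hs2 x hx
      rw [mul_inv_eq_iff_eq_mul] at h2
      have h3 : s⁻¹ * (g * x) = s⁻¹ * (s * x * s⁻¹ * g) := by rw [h2]
      calc x * (s⁻¹ * g) = s⁻¹ * (s * x * s⁻¹ * g) := by group
        _ = s⁻¹ * g * x := by rw [← h3]; group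
    rw [hC, mem_bot, inv_mul_eq_one] at h1
    rw [← h1]
    exact hs
  have e : L ≃* G := (MulEquiv.subgroupCongr hLt).trans Subgroup.topEquiv
  have hGs : IsSimpleGroup G := (MulEquiv.isSimpleGroup_congr e).mp hLs
  have hGna : ¬ IsMulCommutative G := by
    intro hc
    apply hna
    constructor
    constructor
    intro a b
    apply e.injective
    rw [map_mul, map_mul]
    exact hc.is_comm.comm _ _
  obtain ⟨-, h2⟩ := hgood G hGs hGna _ _ (hsys.congr e)
  exact h2 hmax M hM

/-- **Complements of the maximal subgroups.** -/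
theorem exists_compl_aux [Finite G] (hmax : HMax G)
    (hgood : ∀ (S : Type u) [Group S] [Finite S], IsSimpleGroup S → ¬ IsMulCommutative S → Good S)
    {M : Subgroup G} (hM : IsCoatom M) {N : Subgroup G} [N.Normal] (hNM : N ≤ M)
    (hNmax : ∀ X : Subgroup G, X.Normal → X ≤ M → X ≤ N) : ∃ K : Subgroup G, Subgroup.IsComplement' M K := by
  have hs : Function.Surjective (QuotientGroup.mk' N) := QuotientGroup.mk'_surjective N
  have hker : (QuotientGroup.mk' N).ker = N := QuotientGroup.ker_mk' N
  set M' : Subgroup (G ⧸ N) := M.map (QuotientGroup.mk' N) with hM'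
  have hcomap : M'.comap (QuotientGroup.mk' N) = M := by
    rw [hM', comap_map_eq, hker, sup_eq_left]
    exact hNM
  have hMc' : IsCoatom M' := by
    refine ⟨?_, ?_⟩
    · intro h
      apply hM.1
      rw [← hcomap, h, comap_top]
    · intro Y hY
      have h1 : M < Y.comap (QuotientGroup.mk' N) := by
        have := (comap_lt_comap_of_surjective hs).mpr hY
        rwa [hcomap] at this
      have h2 := hM.2 _ h1
      rw [← map_comap_eq_self_of_surjective hs Y, h2, map_top_of_surjective _ hs]
  have hcore' : M'.normalCore = ⊥ := by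
    have h1 : (M'.normalCore).comap (QuotientGroup.mk' N) ≤ N := by
      refine hNmax _ inferInstance ?_
      refine (comap_mono (normalCore_le _)).trans ?_
      rw [hcomap]
    rw [← map_comap_eq_self_of_surjective hs M'.normalCore, Subgroup.map_eq_bot_iff, hker]
    exact h1
  obtain ⟨K', hK'⟩ := exists_compl_of_core (hmax.quotient N) hgood hMc' hcore'
  -- lift
  set K₁ : Subgroup G := K'.comap (QuotientGroup.mk' N) with hK₁
  have hNK : N ≤ K₁ := hker.ge.trans (MonoidHom.ker_le_comap _ _)
  have hNn : (N.subgroupOf K₁).Normal := inferInstance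
  have hcop := hmax M hM
  have hK'c : Nat.card K' = M.index := by
    have h1 : M'.index = M.index := by
      rw [← hcomap, index_comap_of_surjective _ hs]
    rw [← h1]
    exact hK'.symm.index_eq_card.symm
  have hidx : (N.subgroupOf K₁).index = Nat.card K' := by
    have h1 : (N.subgroupOf K₁).index = N.relIndex K₁ := rfl
    have h2 : ((⊥ : Subgroup (G ⧸ N)).comap (QuotientGroup.mk' N)).relIndex K₁ = Nat.card K' := by
      rw [relIndex_comap, hK₁, map_comap_eq_self_of_surjective hs, relIndex_bot_left]
    have h3 : (⊥ : Subgroup (G ⧸ N)).comap (QuotientGroup.mk' N) = N := hker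
    rw [h1, ← h2, h3]
  have hcop2 : (Nat.card (N.subgroupOf K₁)).Coprime (N.subgroupOf K₁).index := by
    rw [hidx, hK'c, Nat.card_congr (Subgroup.subgroupOfEquivOfLe hNK).toEquiv]
    exact hcop.coprime_dvd_left (card_dvd_of_le hNM)
  obtain ⟨R, hR⟩ := exists_right_complement'_of_coprime hcop2
  refine ⟨R.map K₁.subtype, isComplement'_of_coprime ?_ ?_⟩
  · have h1 : Nat.card (R.map K₁.subtype) = M.index := by
      rw [← hK'c, ← hidx, Nat.card_congr (R.equivMapOfInjective _ K₁.subtype_injective).symm.toEquiv]
      exact hR.symm.index_eq_card.symm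
    rw [h1]
    exact M.card_mul_index
  · have h1 : Nat.card (R.map K₁.subtype) = M.index := by
      rw [← hK'c, ← hidx, Nat.card_congr (R.equivMapOfInjective _ K₁.subtype_injective).symm.toEquiv]
      exact hR.symm.index_eq_card.symm
    rw [h1]
    exact hcop

theorem exists_compl [Finite G] (hmax : HMax G)
    (hgood : ∀ (S : Type u) [Group S] [Finite S], IsSimpleGroup S → ¬ IsMulCommutative S → Good S)
    {M : Subgroup G} (hM : IsCoatom M) : ∃ K : Subgroup G, Subgroup.IsComplement' M K :=
  exists_compl_aux hmax hgood hM (normalCore_le M) fun _ hX hXM => @normal_le_normalCore _ _ _ _ hX |>.mpr hXM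

end

end Cfsg.Agent.H554
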