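import Mathlib
import Cfsg.Agent.H554.Compl
import Cfsg.Agent.H554.Num
import Cfsg.Agent.SmallSimple.BurnsideNC

/-!
# Hall maximal subgroups of small simple groups: tools (helper554)

* `inner_of` : a Hall system with odd `n` in a group with `|Out| = 2` consists of inner automorphisms;
* `normalizer_eq_of_coatom`, `exists_sylow_le`, `le_normalizer_sylow`, `eq_normalizer_sylow` : the normal Sylow subgroups
  of a maximal subgroup;
* `not_sylow_coatom` : a maximal subgroup of a simple group is not an abelian Sylow subgroup;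
* `exists_compl_of_card` : complements by orders.
-/

set_option autoImplicit false

namespace Cfsg.Agent.H554

open Subgroup

section Inner
variable {S : Type*} [Group S] [Finite S]

omit [Finite S] in
theorem inner_of {A : Subgroup (MulAut S)} {n : ℕ} (hA : HallSys S A n)
    (h2 : (MulAut.conj : S →* MulAut S).range.index ∣ 2) (hn : Nat.Coprime 2 n) :
    ∀ a ∈ A, ∃ s : S, a = MulAut.conj s := by
  have hle : (MulAut.conj : S →* MulAut S).range ≤ A := by
    rintro _ ⟨s, rfl⟩
    exact hA.inn s
  have h3 : (MulAut.conj : S →* MulAut S).range.relIndex A ∣ 2 :=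
    (Dvd.intro _ (relIndex_mul_index hle)).trans h2
  have h4 : (MulAut.conj : S →* MulAut S).range.relIndex A = 1 :=
    Nat.eq_one_of_dvd_coprimes hn h3 hA.idx
  have h5 : A ≤ (MulAut.conj : S →* MulAut S).range := relIndex_eq_one.mp h4
  intro a ha
  obtain ⟨s, hs⟩ := h5 ha
  exact ⟨s, hs.symm⟩

end Inner

section Coatom
variable {S : Type*} [Group S] [Finite S] [IsSimpleGroup S]

theorem normalizer_eq_of_coatom (hna : ¬ IsMulCommutative S) {M X : Subgroup S} (hM : IsCoatom M) (hX : X ≠ ⊥)
    (hX' : X ≠ ⊤) (h : M ≤ normalizer (X : Set S)) : normalizer (X : Set S) = M := by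
  rcases eq_or_lt_of_le h with h1 | h1
  · exact h1.symm
  · exact absurd (hM.2 _ h1) (normalizer_ne_top hna hX hX')

omit [IsSimpleGroup S] in
theorem exists_sylow_le {M : Subgroup S} {p : ℕ} [hp : Fact p.Prime] (h : ¬ p ∣ M.index) :
    ∃ P : Sylow p S, (P : Subgroup S) ≤ M := by
  obtain ⟨Q⟩ : Nonempty (Sylow p M) := inferInstance
  have h1 : IsPGroup p ((Q : Subgroup M).map M.subtype) := Q.2.map _
  have h2 : ¬ p ∣ ((Q : Subgroup M).map M.subtype).index := by
    rw [index_map_subtype]
    intro h3
    rcases hp.out.dvd_mul.mp h3 with h4 | h4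
    · exact Q.not_dvd_index h4
    · exact h h4
  exact ⟨h1.toSylow h2, by rw [IsPGroup.toSylow_coe]; exact map_subtype_le _⟩

omit [IsSimpleGroup S] in
theorem le_normalizer_sylow {M : Subgroup S} {p : ℕ} [hp : Fact p.Prime] {P : Sylow p S} (hP : (P : Subgroup S) ≤ M)
    (h1 : ∀ n, n ∣ (P : Subgroup S).relIndex M → n % p = 1 → n = 1) : M ≤ normalizer ((P : Subgroup S) : Set S) := by
  set Q : Sylow p M := P.subtype hP with hQ
  have h2 : Nat.card (Sylow p M) ∣ (P : Subgroup S).relIndex M := by
    have := Q.card_dvd_index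
    rwa [hQ, P.coe_subtype] at this
  have h3 : Nat.card (Sylow p M) % p = 1 := by
    have := card_sylow_modEq_one p M
    unfold Nat.ModEq at this
    rwa [Nat.mod_eq_of_lt hp.out.one_lt] at this
  have h4 : Subsingleton (Sylow p M) := (Nat.card_eq_one_iff_unique.mp (h1 _ h2 h3)).1
  have h5 : (Q : Subgroup M).Normal := Sylow.normal_of_subsingleton Q
  rw [hQ, P.coe_subtype] at h5
  exact (normal_subgroupOf_iff_le_normalizer hP).mp h5

omit [Finite S] [IsSimpleGroup S] in
theorem relIndex_of_card {H K : Subgroup S} (h : H ≤ K) : Nat.card H * H.relIndex K = Nat.card K := by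
  rw [← relIndex_bot_left, ← relIndex_bot_left]
  exact relIndex_mul_relIndex _ _ _ bot_le h

/-- A maximal subgroup in which the Sylow `p`-subgroup must be normal is the normaliser of a Sylow `p`-subgroup. -/
theorem eq_normalizer_sylow (hna : ¬ IsMulCommutative S) {M : Subgroup S} (hM : IsCoatom M) {p : ℕ}
    [hp : Fact p.Prime] (hd : p ∣ Nat.card S) (hi : ¬ p ∣ M.index)
    (h1 : ∀ P : Sylow p S, ∀ n, n ∣ Nat.card M / Nat.card P → n % p = 1 → n = 1) :
    ∃ P : Sylow p S, M = normalizer ((P : Subgroup S) : Set S) := by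
  obtain ⟨P, hP⟩ := exists_sylow_le hi
  refine ⟨P, (normalizer_eq_of_coatom hna hM (sylow_ne_bot hd P) (sylow_ne_top hna P)
    (le_normalizer_sylow hP fun n hn => h1 P n ?_)).symm⟩
  rw [← relIndex_of_card hP]
  rwa [Nat.mul_div_cancel_left]
  exact Nat.card_pos

/-- A maximal subgroup of a simple group is not an abelian Sylow subgroup. -/
theorem not_sylow_coatom (hna : ¬ IsMulCommutative S) {M : Subgroup S} (hM : IsCoatom M) {p : ℕ}
    [hp : Fact p.Prime] (hd : p ∣ Nat.card S) (P : Sylow p S) (hP : (P : Subgroup S) = M)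
    (hc : IsMulCommutative P) : False := by
  have h1 : normalizer ((P : Subgroup S) : Set S) = M :=
    normalizer_eq_of_coatom hna hM (sylow_ne_bot hd P) (sylow_ne_top hna P) (hP ▸ le_normalizer)
  refine SmallSimple.BurnsideNC.not_normalizer_le_centralizer hd ?_ P ?_
  · intro h
    exact hna (isCyclic_of_prime_card h).isMulCommutative
  · intro x hx
    have hx' : x ∈ (P : Subgroup S) := by
      rw [hP, ← h1]; exact hx
    rw [mem_centralizer_iff]
    intro y hy
    exact congrArg Subtype.val (hc.is_comm.comm (⟨y, hy⟩ : P) ⟨x, hx'⟩)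

omit [IsSimpleGroup S] in
theorem exists_compl_of_card {M K : Subgroup S} (h : Nat.card K = M.index) (hc : (Nat.card M).Coprime M.index) :
    ∃ K : Subgroup S, IsComplement' M K := by
  refine ⟨K, isComplement'_of_coprime ?_ ?_⟩
  · rw [h]
    exact M.card_mul_index
  · rwa [h]

omit [Finite S] [IsSimpleGroup S] in
theorem coatom_ne_bot {M : Subgroup S} (hM : IsCoatom M) {K : Subgroup S} (hK : K ≠ ⊥) (hK' : K ≠ ⊤) : M ≠ ⊥ := by
  rintro rfl
  exact hK' (hM.2 K (bot_lt_iff_ne_bot.mpr hK))

omit [IsSimpleGroup S] in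
/-- orders of Sylow subgroups by divisibility -/
theorem card_sylow_of {p e m : ℕ} [hp : Fact p.Prime] (P : Sylow p S) (h : Nat.card S = p ^ e * m) (hm : ¬ p ∣ m) :
    Nat.card P = p ^ e := by
  rw [P.card_eq_multiplicity, h]
  congr 1
  have hm0 : m ≠ 0 := by rintro rfl; exact hm (dvd_zero _)
  rw [Nat.factorization_mul (pow_ne_zero _ hp.out.ne_zero) hm0, Finsupp.add_apply,
    Nat.Prime.factorization_pow hp.out, Finsupp.single_eq_same, Nat.factorization_eq_zero_of_not_dvd hm, add_zero]

omit [IsSimpleGroup S] in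
/-- a coatom over a subgroup -/
theorem exists_coatom_ge {X : Subgroup S} (h : X ≠ ⊤) : ∃ M : Subgroup S, IsCoatom M ∧ X ≤ M := by
  rcases eq_top_or_exists_le_coatom X with h1 | ⟨M, h1, h2⟩
  · exact absurd h1 h
  · exact ⟨M, h1, h2⟩

/-- the index of a Sylow normaliser -/
theorem index_normalizer_sylow (hna : ¬ IsMulCommutative S) {p e m : ℕ} [hp : Fact p.Prime] (P : Sylow p S)
    (h : Nat.card S = p ^ e * m) (hm : ¬ p ∣ m) (he : e ≠ 0) :
    (normalizer ((P : Subgroup S) : Set S)).index ∣ m ∧ (normalizer ((P : Subgroup S) : Set S)).index % p = 1 ∧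
      (normalizer ((P : Subgroup S) : Set S)).index ≠ 1 ∧
      Nat.card (normalizer ((P : Subgroup S) : Set S)) * (normalizer ((P : Subgroup S) : Set S)).index = p ^ e * m := by
  have hc := card_sylow_of P h hm
  have hpos : 0 < p ^ e := pow_pos hp.out.pos _
  refine ⟨?_, ?_, ?_, ?_⟩
  · have h1 : Nat.card P * (P : Subgroup S).index = Nat.card S := card_mul_index (P : Subgroup S)
    rw [hc, h] at h1
    have h2 : (P : Subgroup S).index = m := Nat.eq_of_mul_eq_mul_left hpos h1
    exact h2 ▸ index_dvd_of_le (le_normalizer (H := (P : Subgroup S)))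
  · have := index_modEq_one P (le_refl (normalizer ((P : Subgroup S) : Set S)))
    unfold Nat.ModEq at this
    rwa [Nat.mod_eq_of_lt hp.out.one_lt] at this
  · intro h1
    have hd : p ∣ Nat.card S := by
      rw [h]
      exact Dvd.dvd.mul_right (dvd_pow_self p he) m
    exact normalizer_ne_top hna (sylow_ne_bot hd P) (sylow_ne_top hna P) (index_eq_one.mp h1)
  · rw [card_mul_index, h]

/-- a maximal subgroup which is a Sylow subgroup of prime or prime square order does not exist -/
theorem not_coatom_card (hna : ¬ IsMulCommutative S) {M : Subgroup S} (hM : IsCoatom M) {p : ℕ}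
    [hp : Fact p.Prime] (h : Nat.card M = p ∨ Nat.card M = p ^ 2) (hi : ¬ p ∣ M.index) : False := by
  have hd : p ∣ Nat.card S := by
    refine dvd_trans ?_ M.card_subgroup_dvd_card
    rcases h with h | h <;> rw [h]
    exact dvd_pow_self p two_ne_zero
  have hP : IsPGroup p M := by
    rcases h with h | h
    · exact IsPGroup.of_card (n := 1) (by rw [h, pow_one])
    · exact IsPGroup.of_card h
  refine not_sylow_coatom hna hM hd (hP.toSylow hi) rfl ?_
  have : IsMulCommutative M := by
    rcases h with h | h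
    · exact (isCyclic_of_prime_card h).isMulCommutative
    · exact IsPGroup.isMulCommutative_of_card_eq_prime_sq h
  exact this

end Coatom

end Cfsg.Agent.H554
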