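import Mathlib
import Cfsg.Agent.H554.GoodBase

/-!
# The simple groups of order 168 and 660 are good (helper554)
-/

set_option autoImplicit false

namespace Cfsg.Agent.H554

open Subgroup

variable {S : Type*} [Group S] [Finite S] [IsSimpleGroup S]

instance fact_prime_11 : Fact (Nat.Prime 11) := ⟨by norm_num⟩
instance fact_prime_7 : Fact (Nat.Prime 7) := ⟨by norm_num⟩
instance fact_prime_5 : Fact (Nat.Prime 5) := ⟨by norm_num⟩

theorem inner_168 (hna : ¬ IsMulCommutative S) (hcard : Nat.card S = 168) {A : Subgroup (MulAut S)} {n : ℕ}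
    (hA : HallSys S A n) (hout : (MulAut.conj : S →* MulAut S).range.index ∣ 2) :
    ∀ a ∈ A, ∃ s : S, a = MulAut.conj s := by
  obtain ⟨P⟩ : Nonempty (Sylow 7 S) := inferInstance
  obtain ⟨M, hM1, hM2, -, -, hM5, hM6⟩ := hA.sylow hna (r := 7) (by rw [hcard]; norm_num) P
  have h1 : M.index ∣ 168 := hcard ▸ M.index_dvd_card
  have h2 : M.index ≠ 1 := fun h => hM2 (index_eq_one.mp h)
  have h3 : M.index ≤ 168 := Nat.le_of_dvd (by norm_num) h1
  unfold Nat.ModEq at hM6
  have h4 : M.index = 8 := by
    generalize M.index = i at *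
    interval_cases i <;> omega
  rw [h4] at hM5
  exact inner_of hA hout (Nat.Coprime.coprime_dvd_left (by norm_num) hM5)

theorem inner_660 (hna : ¬ IsMulCommutative S) (hcard : Nat.card S = 660) {A : Subgroup (MulAut S)} {n : ℕ}
    (hA : HallSys S A n) (hout : (MulAut.conj : S →* MulAut S).range.index ∣ 2) :
    ∀ a ∈ A, ∃ s : S, a = MulAut.conj s := by
  obtain ⟨P⟩ : Nonempty (Sylow 11 S) := inferInstance
  obtain ⟨M, hM1, hM2, -, -, hM5, hM6⟩ := hA.sylow hna (r := 11) (by rw [hcard]; norm_num) P
  have h1 : M.index ∣ 660 := hcard ▸ M.index_dvd_card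
  have h2 : M.index ≠ 1 := fun h => hM2 (index_eq_one.mp h)
  have h3 : M.index ≤ 660 := Nat.le_of_dvd (by norm_num) h1
  unfold Nat.ModEq at hM6
  have h4 : M.index = 12 := by
    generalize M.index = i at *
    interval_cases i <;> omega
  rw [h4] at hM5
  exact inner_of hA hout (Nat.Coprime.coprime_dvd_left (by norm_num) hM5)

theorem compl_168 (hna : ¬ IsMulCommutative S) (hcard : Nat.card S = 168) (hmax : HMax S) {M : Subgroup S}
    (hM : IsCoatom M) : ∃ K : Subgroup S, IsComplement' M K := by
  have hc := hmax M hM
  obtain ⟨P2⟩ : Nonempty (Sylow 2 S) := inferInstance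
  obtain ⟨P7⟩ : Nonempty (Sylow 7 S) := inferInstance
  have c2 : Nat.card P2 = 8 := card_sylow_of (e := 3) (m := 21) P2 (by rw [hcard]; norm_num) (by norm_num)
  have c7 : ∀ P7 : Sylow 7 S, Nat.card P7 = 7 := fun P7 =>
    card_sylow_of (e := 1) (m := 24) P7 (by rw [hcard]; norm_num) (by norm_num)
  have cN : ∀ P7 : Sylow 7 S, Nat.card (normalizer ((P7 : Subgroup S) : Set S)) = 21 := by
    intro P7
    obtain ⟨h1, h2, h3, h4⟩ := index_normalizer_sylow hna (e := 1) (m := 24) P7 (by rw [hcard]; norm_num) (by norm_num)
      one_ne_zero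
    generalize (normalizer ((P7 : Subgroup S) : Set S)).index = i at *
    have h5 : i ≤ 24 := Nat.le_of_dvd (by norm_num) h1
    interval_cases i <;> omega
  have hmul : Nat.card M * M.index = 168 := by rw [card_mul_index, hcard]
  have hm : M.index ∈ subProds [(2, 3), (3, 1), (7, 1)] := by
    refine mem_subProds [(2, 3), (3, 1), (7, 1)] ?_ M.index (Nat.card M) ?_ hc.symm
    · intro x hx
      simp only [List.mem_cons, List.not_mem_nil, or_false] at hx
      rcases hx with rfl | rfl | rfl <;> norm_num
    · rw [mul_comm, hmul]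
      rfl
  have hfac := card_dvd_factorial hM.1
  have hidx : M.index ≠ 1 := fun h => hM.1 (index_eq_one.mp h)
  simp only [subProds, List.map_cons, List.map_nil, List.cons_append, List.nil_append, List.mem_cons,
    List.not_mem_nil, or_false] at hm
  norm_num at hm
  rcases hm with h | h | h | h | h | h | h | h
  · exact absurd h hM.1
  · exact exists_compl_of_card (K := (P7 : Subgroup S)) (by rw [h]; exact c7 P7) hc
  · rw [h, hcard] at hfac
    exact absurd hfac (by decide)
  · exact exists_compl_of_card (K := normalizer ((P7 : Subgroup S) : Set S)) (by rw [h]; exact cN P7) hc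
  · exact exists_compl_of_card (K := (P2 : Subgroup S)) (by rw [h]; exact c2) hc
  · exfalso
    rw [h] at hmul
    have hq : Nat.card M = 3 := by omega
    refine not_coatom_card hna hM (p := 3) (Or.inl hq) (by rw [h]; norm_num)
  · exfalso
    rw [h] at hmul
    have hq : Nat.card M = 7 := by omega
    exact not_coatom_card hna hM (p := 7) (Or.inl hq) (by rw [h]; norm_num)
  · exfalso
    rw [h] at hmul
    have hq : Nat.card M = 1 := by omega
    exact coatom_ne_bot hM (sylow_ne_bot (by rw [hcard]; norm_num) P7) (sylow_ne_top hna P7)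
      (card_eq_one.mp hq)

/-- A simple group of order 660 has a subgroup of order 12. -/
theorem exists_card_12 (hcard : Nat.card S = 660) :
    ∃ K : Subgroup S, Nat.card K = 12 := by
  obtain ⟨P⟩ : Nonempty (Sylow 2 S) := inferInstance
  have c2 : Nat.card P = 2 ^ 2 := card_sylow_of (e := 2) (m := 165) P (by rw [hcard]; norm_num) (by norm_num)
  have h1 := SmallSimple.BurnsideNC.relIndex_dvd_of_card_eq_sq P c2
  have h2 := SmallSimple.BurnsideNC.relIndex_ne_one (by rw [hcard]; norm_num) (by rw [hcard]; norm_num) P
  have h3 : (centralizer (P : Set S)).relIndex (normalizer (P : Set S)) = 3 := by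
    norm_num at h1
    exact (Nat.dvd_prime Nat.prime_three).mp h1 |>.resolve_left h2
  have h4 : Nat.card (normalizer (P : Set S)) = Nat.card (centralizer (P : Set S)) *
      (centralizer (P : Set S)).relIndex (normalizer (P : Set S)) :=
    SmallSimple.BurnsideNC.card_normalizer_eq (P : Subgroup S)
  rw [h3] at h4
  set N : Subgroup S := normalizer ((P : Subgroup S) : Set S) with hN
  have h5 : 3 ∣ Nat.card N := ⟨_, h4.trans (mul_comm _ _)⟩
  obtain ⟨x, hx⟩ := exists_prime_orderOf_dvd_card' 3 h5
  have hPN : (P : Subgroup S) ≤ N := le_normalizer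
  have hnorm : ((P : Subgroup S).subgroupOf N).Normal := inferInstance
  have c2' : Nat.card ((P : Subgroup S).subgroupOf N) = 4 := by
    rw [Nat.card_congr (subgroupOfEquivOfLe hPN).toEquiv]
    exact c2
  have c3 : Nat.card (zpowers x) = 3 := by rw [Nat.card_zpowers, hx]
  set K : Subgroup N := zpowers x ⊔ (P : Subgroup S).subgroupOf N with hK
  have h6 : Nat.card ((P : Subgroup S).subgroupOf N) * ((P : Subgroup S).subgroupOf N).relIndex K = Nat.card K :=
    relIndex_of_card le_sup_right
  have h7 : ((P : Subgroup S).subgroupOf N).relIndex K ∣ 3 := by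
    rw [hK, relIndex_sup_right]
    exact c3 ▸ relIndex_dvd_card _ _
  have h8 : 3 ∣ Nat.card K := c3 ▸ card_dvd_of_le (le_sup_left : zpowers x ≤ K)
  have h9 : Nat.card K = 12 := by
    rw [c2'] at h6
    rcases (Nat.dvd_prime Nat.prime_three).mp h7 with h | h
    · rw [h] at h6
      omega
    · rw [h] at h6
      omega
  exact ⟨K.map N.subtype, by rw [← h9]; exact card_map_of_injective N.subtype_injective⟩

theorem compl_660 (hna : ¬ IsMulCommutative S) (hcard : Nat.card S = 660) (hmax : HMax S) {M : Subgroup S}
    (hM : IsCoatom M) : ∃ K : Subgroup S, IsComplement' M K := by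
  have hc := hmax M hM
  obtain ⟨P11⟩ : Nonempty (Sylow 11 S) := inferInstance
  have c11 : ∀ P : Sylow 11 S, Nat.card P = 11 := fun P =>
    card_sylow_of (e := 1) (m := 60) P (by rw [hcard]; norm_num) (by norm_num)
  have c5 : ∀ P : Sylow 5 S, Nat.card P = 5 := fun P =>
    card_sylow_of (e := 1) (m := 132) P (by rw [hcard]; norm_num) (by norm_num)
  have cN : ∀ P : Sylow 11 S, Nat.card (normalizer ((P : Subgroup S) : Set S)) = 55 := by
    intro P
    obtain ⟨h1, h2, h3, h4⟩ := index_normalizer_sylow hna (e := 1) (m := 60) P (by rw [hcard]; norm_num)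
      (by norm_num) one_ne_zero
    generalize (normalizer ((P : Subgroup S) : Set S)).index = i at *
    have h5 : i ≤ 60 := Nat.le_of_dvd (by norm_num) h1
    interval_cases i <;> omega
  have hmul : Nat.card M * M.index = 660 := by rw [card_mul_index, hcard]
  have hm : M.index ∈ subProds [(2, 2), (3, 1), (5, 1), (11, 1)] := by
    refine mem_subProds [(2, 2), (3, 1), (5, 1), (11, 1)] ?_ M.index (Nat.card M) ?_ hc.symm
    · intro x hx
      simp only [List.mem_cons, List.not_mem_nil, or_false] at hx
      rcases hx with rfl | rfl | rfl | rfl <;> norm_num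
    · rw [mul_comm, hmul]
      rfl
  have hfac := card_dvd_factorial hM.1
  rw [hcard] at hfac
  -- the Sylow 11-subgroup is normal in a maximal subgroup of order 11, 33, 44
  have h11 : ∀ k, k < 12 → Nat.card M = 11 * k → ¬ 11 ∣ M.index → Nat.card M = 55 := by
    intro k hk hk' hi
    obtain ⟨P, hP⟩ := eq_normalizer_sylow hna hM (p := 11) (by rw [hcard]; norm_num) hi (by
      intro P n hn hn1
      rw [c11 P, hk', Nat.mul_div_cancel_left _ (by norm_num)] at hn
      have hk0 : 0 < k := by
        rcases Nat.eq_zero_or_pos k with rfl | h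
        · have := Nat.card_pos (α := M)
          omega
        · exact h
      have := Nat.le_of_dvd hk0 hn
      omega)
    rw [hP]
    exact cN P
  have h5 : ∀ k, k < 6 → Nat.card M = 5 * k → ¬ 5 ∣ M.index → M.index % 5 = 1 := by
    intro k hk hk' hi
    obtain ⟨P, hP⟩ := eq_normalizer_sylow hna hM (p := 5) (by rw [hcard]; norm_num) hi (by
      intro P n hn hn1
      rw [c5 P, hk', Nat.mul_div_cancel_left _ (by norm_num)] at hn
      have hk0 : 0 < k := by
        rcases Nat.eq_zero_or_pos k with rfl | h
        · have := Nat.card_pos (α := M)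
          omega
        · exact h
      have := Nat.le_of_dvd hk0 hn
      omega)
    rw [hP]
    have := index_modEq_one P (le_refl (normalizer ((P : Subgroup S) : Set S)))
    unfold Nat.ModEq at this
    omega
  simp only [subProds, List.map_cons, List.map_nil, List.cons_append, List.nil_append, List.mem_cons,
    List.not_mem_nil, or_false] at hm
  norm_num at hm
  rcases hm with h | h | h | h | h | h | h | h | h | h | h | h | h | h | h | h
  · exact absurd h hM.1
  · exact exists_compl_of_card (K := (P11 : Subgroup S)) (by rw [h]; exact c11 P11) hc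
  · rw [h] at hfac
    exact absurd hfac (by decide)
  · exact exists_compl_of_card (K := normalizer ((P11 : Subgroup S) : Set S)) (by rw [h]; exact cN P11) hc
  · rw [h] at hfac
    exact absurd hfac (by decide)
  · have := h5 4 (by norm_num) (by rw [h] at hmul; omega) (by omega)
    omega
  · have := h11 4 (by norm_num) (by rw [h] at hmul; omega) (by omega)
    rw [h] at hmul
    omega
  · exfalso
    rw [h] at hmul
    exact not_coatom_card hna hM (p := 2) (Or.inr (by omega)) (by omega)
  · rw [h] at hfac
    exact absurd hfac (by decide)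
  · have := h5 3 (by norm_num) (by rw [h] at hmul; omega) (by omega)
    omega
  · have := h11 3 (by norm_num) (by rw [h] at hmul; omega) (by omega)
    rw [h] at hmul
    omega
  · exfalso
    rw [h] at hmul
    exact not_coatom_card hna hM (p := 3) (Or.inl (by omega)) (by omega)
  · obtain ⟨K, hK⟩ := exists_card_12 hcard
    exact exists_compl_of_card (K := K) (by rw [h]; exact hK) hc
  · have := h5 1 (by norm_num) (by rw [h] at hmul; omega) (by omega)
    omega
  · have := h11 1 (by norm_num) (by rw [h] at hmul; omega) (by omega)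
    rw [h] at hmul
    omega
  · exfalso
    rw [h] at hmul
    have hq : Nat.card M = 1 := by omega
    exact coatom_ne_bot hM (sylow_ne_bot (by rw [hcard]; norm_num) P11) (sylow_ne_top hna P11)
      (card_eq_one.mp hq)

end Cfsg.Agent.H554
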