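import Mathlib
import Cfsg.Agent.H554.Good168
import Cfsg.Agent.Lib.Cores
import Cfsg.Agent.S0044

/-!
# Simple groups of order 9999360 (helper554)

Let `S` be a simple group of order `9999360 = 2^10·3^2·5·7·31` whose maximal subgroups of odd index have index 31 or
155. Then its maximal subgroups which are Hall subgroups of odd order have order 155.
-/

set_option autoImplicit false

namespace Cfsg.Agent.H554

open Subgroup Cfsg Cfsg.Agent.Lib.Cores

instance fact_prime_31 : Fact (Nat.Prime 31) := ⟨by norm_num⟩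

section Core
variable {S : Type*} [Group S] [Finite S] [IsSimpleGroup S]

/-- The image of a nontrivial `r`-core of a maximal subgroup. -/
theorem core_image (hna : ¬ IsMulCommutative S) {M : Subgroup S} (hM : IsCoatom M) {r : ℕ}
    (h : pCore r M ≠ ⊥) : (pCore r M).map M.subtype ≠ ⊥ ∧ (pCore r M).map M.subtype ≤ M ∧
      IsPGroup r ((pCore r M).map M.subtype) ∧
      normalizer (((pCore r M).map M.subtype : Subgroup S) : Set S) = M := by
  have h1 : (pCore r M).map M.subtype ≠ ⊥ := fun h2 =>
    h ((Subgroup.map_eq_bot_iff_of_injective _ M.subtype_injective).mp h2)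
  have h2 : (pCore r M).map M.subtype ≤ M := map_subtype_le _
  refine ⟨h1, h2, (pCore_isPGroup r).map _, normalizer_eq_of_coatom hna hM h1 (fun h3 => ?_) ?_⟩
  · exact hM.1 (top_le_iff.mp (h3 ▸ h2))
  · have h3 := le_normalizer_map M.subtype (H := pCore r M)
    have h4 : normalizer ((pCore r M : Subgroup M) : Set M) = ⊤ := normalizer_eq_top_iff.mpr (pCore_normal r M)
    rw [h4, ← MonoidHom.range_eq_map, range_subtype] at h3
    exact h3

omit [Finite S] [IsSimpleGroup S] in
theorem card_core_image {M : Subgroup S} {r : ℕ} :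
    Nat.card ((pCore r M).map M.subtype) = Nat.card (pCore r M) :=
  card_map_of_injective M.subtype_injective

omit [IsSimpleGroup S] in
theorem core_eq_bot {M : Subgroup S} {r : ℕ} [Fact r.Prime] (h : ¬ r ∣ Nat.card M) : pCore r M = ⊥ := by
  obtain ⟨k, hk⟩ := (pCore_isPGroup (G := M) r).exists_card_eq
  rcases Nat.eq_zero_or_pos k with rfl | hk0
  · exact card_eq_one.mp (by rw [hk, pow_zero])
  · exact absurd ((dvd_pow_self r hk0.ne').trans (hk ▸ (pCore r M).card_subgroup_dvd_card)) h

omit [IsSimpleGroup S] in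
theorem card_of_isPGroup {X : Subgroup S} {r m : ℕ} [hr : Fact r.Prime] (h : Nat.card S = r * m) (hm : ¬ r ∣ m)
    (hX : X ≠ ⊥) (hp : IsPGroup r X) : Nat.card X = r ∧ ¬ r ∣ X.index := by
  obtain ⟨k, hk⟩ := hp.exists_card_eq
  have h1 : Nat.card X * X.index = r * m := by rw [card_mul_index, h]
  have hk0 : k ≠ 0 := by
    rintro rfl
    exact hX (card_eq_one.mp (by rw [hk, pow_zero]))
  obtain ⟨j, rfl⟩ : ∃ j, k = j + 1 := ⟨k - 1, by omega⟩
  rw [hk, pow_succ, mul_comm (r ^ j) r, mul_assoc] at h1
  have h2 : r ^ j * X.index = m := Nat.eq_of_mul_eq_mul_left hr.out.pos h1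
  have hj : j = 0 := by
    by_contra hj
    exact hm (h2 ▸ Dvd.dvd.mul_right (dvd_pow_self r hj) _)
  subst hj
  refine ⟨by rw [hk]; simp, fun h3 => hm ?_⟩
  rw [← h2]
  exact Dvd.dvd.mul_left h3 _

theorem relIndex_props {X : Subgroup S} {r : ℕ} [hr : Fact r.Prime] (hX : Nat.card X = r) (hi : ¬ r ∣ X.index)
    (hne : Nat.card S ≠ r) : (centralizer (X : Set S)).relIndex (normalizer (X : Set S)) ∣ r - 1 ∧
      (centralizer (X : Set S)).relIndex (normalizer (X : Set S)) ≠ 1 := by
  have hp : IsPGroup r X := IsPGroup.of_card (n := 1) (by rw [hX, pow_one])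
  have hd : r ∣ Nat.card S := by
    have h := X.card_subgroup_dvd_card
    rwa [hX] at h
  exact ⟨SmallSimple.BurnsideNC.relIndex_dvd_of_card_eq_prime (hp.toSylow hi) hX,
    SmallSimple.BurnsideNC.relIndex_ne_one hd hne (hp.toSylow hi)⟩

theorem relIndex_props_sq {X : Subgroup S} {r : ℕ} [hr : Fact r.Prime] (hX : Nat.card X = r ^ 2)
    (hi : ¬ r ∣ X.index) (hne : Nat.card S ≠ r) :
    (centralizer (X : Set S)).relIndex (normalizer (X : Set S)) ∣ (r ^ 2 - 1) * (r - 1) ∧
      (centralizer (X : Set S)).relIndex (normalizer (X : Set S)) ≠ 1 := by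
  have hp : IsPGroup r X := IsPGroup.of_card (n := 2) hX
  have hd : r ∣ Nat.card S := by
    have h := X.card_subgroup_dvd_card
    rw [hX] at h
    exact (dvd_pow_self r two_ne_zero).trans h
  exact ⟨SmallSimple.BurnsideNC.relIndex_dvd_of_card_eq_sq (hp.toSylow hi) hX,
    SmallSimple.BurnsideNC.relIndex_ne_one hd hne (hp.toSylow hi)⟩

omit [IsSimpleGroup S] in
theorem modEq_of_normalizer {X : Subgroup S} {r : ℕ} [hr : Fact r.Prime] (hp : IsPGroup r X) (hi : ¬ r ∣ X.index) :
    (normalizer (X : Set S)).index % r = 1 := by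
  have h1 := index_modEq_one (hp.toSylow hi) (le_refl (normalizer (((hp.toSylow hi) : Subgroup S) : Set S)))
  unfold Nat.ModEq at h1
  rw [Nat.mod_eq_of_lt hr.out.one_lt] at h1
  exact h1

end Core

section Main
variable {S : Type*} [Group S] [Finite S] [IsSimpleGroup S]

theorem subProds_all (P : ℕ → Bool) (l : List (ℕ × ℕ)) (h : (subProds l).all P = true) {i : ℕ}
    (hi : i ∈ subProds l) : P i = true := List.all_eq_true.mp h _ hi

omit [Finite S] [IsSimpleGroup S] in
theorem index_mem (hcard : Nat.card S = 9999360) {M : Subgroup S} (hc : (Nat.card M).Coprime M.index) :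
    M.index ∈ subProds [(2, 10), (3, 2), (5, 1), (7, 1), (31, 1)] := by
  refine mem_subProds _ ?_ M.index (Nat.card M) ?_ hc.symm
  · intro x hx
    simp only [List.mem_cons, List.not_mem_nil, or_false] at hx
    rcases hx with rfl | rfl | rfl | rfl | rfl <;> norm_num
  · rw [mul_comm, card_mul_index, hcard]
    rfl

/-- **Maximal Hall subgroups of odd order.** -/
theorem card_eq_155 (hna : ¬ IsMulCommutative S) (hcard : Nat.card S = 9999360) {M : Subgroup S} (hM : IsCoatom M)
    (hc : (Nat.card M).Coprime M.index) (hodd : ¬ 2 ∣ Nat.card M) (hsol : Group.IsSolvable M) :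
    Nat.card M = 155 := by
  have hmul : Nat.card M * M.index = 9999360 := by rw [card_mul_index, hcard]
  have hmem := index_mem hcard hc
  have hNe : ∀ X : Subgroup S, normalizer (X : Set S) = M → ¬ 2 ∣ (centralizer (X : Set S)).relIndex
      (normalizer (X : Set S)) := by
    intro X hX h2
    apply hodd
    have h3 := SmallSimple.BurnsideNC.card_normalizer_eq X
    rw [hX] at h3
    rw [h3]
    exact Dvd.dvd.mul_left (hX ▸ h2) _
  -- the numbers of Sylow subgroups
  have h5 : pCore 5 M = ⊥ := by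
    by_contra h
    obtain ⟨h1, h2, h3, h4⟩ := core_image hna hM h
    obtain ⟨h5, h6⟩ := card_of_isPGroup (r := 5) (m := 1999872) (by rw [hcard]) (by norm_num) h1 h3
    obtain ⟨h7, h8⟩ := relIndex_props h5 h6 (by rw [hcard]; norm_num)
    have h9 := hNe _ h4
    generalize (centralizer (((pCore 5 M).map M.subtype : Subgroup S) : Set S)).relIndex
      (normalizer (((pCore 5 M).map M.subtype : Subgroup S) : Set S)) = e at *
    have h10 : e ≤ 4 := Nat.le_of_dvd (by norm_num) h7
    interval_cases e <;> omega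
  have heven : 2 ∣ M.index := by
    have : 2 ∣ Nat.card M * M.index := by rw [hmul]; norm_num
    exact (Nat.prime_two.dvd_mul.mp this).resolve_left hodd
  have h7 : pCore 7 M = ⊥ := by
    by_contra h
    obtain ⟨h1, h2, h3, h4⟩ := core_image hna hM h
    obtain ⟨h5, h6⟩ := card_of_isPGroup (r := 7) (m := 1428480) (by rw [hcard]) (by norm_num) h1 h3
    have h7 := modEq_of_normalizer h3 h6
    rw [h4] at h7
    have h8 := subProds_all (fun i => decide (i % 7 ≠ 1 ∨ i % 2 ≠ 0 ∨ i % 7 = 0)) _ (by decide) hmem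
    simp only [decide_eq_true_eq] at h8
    omega
  have hr : ∀ r : ℕ, r.Prime → r ≠ 3 → r ≠ 31 → pCore r M = ⊥ := by
    intro r hr h3 h31
    have : Fact r.Prime := ⟨hr⟩
    rcases eq_or_ne r 5 with rfl | hr5
    · exact h5
    rcases eq_or_ne r 7 with rfl | hr7
    · exact h7
    apply core_eq_bot
    intro hd
    have hd2 : r ∣ 9999360 := hcard ▸ hd.trans M.card_subgroup_dvd_card
    have e : 9999360 = 2 ^ 10 * (3 ^ 2 * (5 * (7 * 31))) := by norm_num
    rw [e, hr.dvd_mul, hr.dvd_mul, hr.dvd_mul, hr.dvd_mul] at hd2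
    rcases hd2 with h | h | h | h | h
    · have := (Nat.prime_dvd_prime_iff_eq hr Nat.prime_two).mp (hr.dvd_of_dvd_pow h)
      subst this
      exact hodd hd
    · exact h3 ((Nat.prime_dvd_prime_iff_eq hr Nat.prime_three).mp (hr.dvd_of_dvd_pow h))
    · exact hr5 ((Nat.prime_dvd_prime_iff_eq hr Nat.prime_five).mp h)
    · exact hr7 ((Nat.prime_dvd_prime_iff_eq hr (by norm_num)).mp h)
    · exact h31 ((Nat.prime_dvd_prime_iff_eq hr (by norm_num)).mp h)
  -- the 3-core is central, of order at most 3
  have h3 : pCore 3 M ≤ center M ∧ Nat.card (pCore 3 M) ∣ 3 := by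
    by_cases h : pCore 3 M = ⊥
    · rw [h]
      exact ⟨bot_le, by simp⟩
    obtain ⟨h1, h2, h3, h4⟩ := core_image hna hM h
    obtain ⟨k, hk⟩ := h3.exists_card_eq
    have hk2 : k ≤ 2 := by
      by_contra hk2
      have h5 : 3 ^ 3 ∣ Nat.card S := ((pow_dvd_pow 3 (by omega)).trans (dvd_of_eq hk.symm)).trans
        (card_subgroup_dvd_card _)
      rw [hcard] at h5
      norm_num at h5
    have hk0 : k ≠ 0 := by
      rintro rfl
      exact h1 (card_eq_one.mp (by rw [hk, pow_zero]))
    have hN := hNe _ h4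
    rcases (by omega : k = 1 ∨ k = 2) with rfl | rfl
    · rw [pow_one] at hk
      refine ⟨?_, by rw [← card_core_image, hk]⟩
      have h5 := SmallSimple.BurnsideNC.relIndex_dvd_card_mulAut ((pCore 3 M).map M.subtype)
      have hcyc : IsCyclic ((pCore 3 M).map M.subtype) := isCyclic_of_prime_card hk
      rw [hcyc.card_mulAut, hk, Nat.totient_prime Nat.prime_three] at h5
      have h6 : (centralizer (((pCore 3 M).map M.subtype : Subgroup S) : Set S)).relIndex
        (normalizer (((pCore 3 M).map M.subtype : Subgroup S) : Set S)) = 1 := by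
        rcases (Nat.dvd_prime Nat.prime_two).mp h5 with h | h
        · exact h
        · exact absurd (h ▸ dvd_refl _) hN
      rw [relIndex_eq_one, h4] at h6
      intro x hx
      rw [mem_center_iff]
      intro m
      have h7 := mem_centralizer_iff.mp (h6 m.2) x ⟨x, hx, rfl⟩
      exact Subtype.ext h7.symm
    · exfalso
      have hi : ¬ 3 ∣ ((pCore 3 M).map M.subtype).index := by
        intro h5
        have h6 : Nat.card ((pCore 3 M).map M.subtype) * ((pCore 3 M).map M.subtype).index = 9999360 := by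
          rw [card_mul_index, hcard]
        rw [hk] at h6
        omega
      obtain ⟨h7, h8⟩ := relIndex_props_sq hk hi (by rw [hcard]; norm_num)
      generalize (centralizer (((pCore 3 M).map M.subtype : Subgroup S) : Set S)).relIndex
        (normalizer (((pCore 3 M).map M.subtype : Subgroup S) : Set S)) = e at *
      have h9 : e ∣ 2 ^ 4 := h7
      obtain ⟨j, hj, rfl⟩ := (Nat.dvd_prime_pow Nat.prime_two).mp h9
      rcases Nat.eq_zero_or_pos j with rfl | hj0
      · exact h8 rfl
      · exact hN (dvd_pow_self 2 hj0.ne')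
  -- the Fitting subgroup
  have hF : fittingSubgroup M = pCore 3 M ⊔ pCore 31 M := by
    rw [fittingSubgroup_eq_iSup_pCore]
    apply le_antisymm
    · refine iSup_le fun p => ?_
      rcases eq_or_ne (p : ℕ) 3 with h | h
      · rw [h]; exact le_sup_left
      rcases eq_or_ne (p : ℕ) 31 with h' | h'
      · rw [h']; exact le_sup_right
      · rw [hr p p.2 h h']; exact bot_le
    · exact sup_le (le_iSup (fun p : Nat.Primes => pCore (p : ℕ) M) ⟨3, Nat.prime_three⟩)
        (le_iSup (fun p : Nat.Primes => pCore (p : ℕ) M) ⟨31, by norm_num⟩)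
  have hCF : centralizer (fittingSubgroup M : Set M) ≤ fittingSubgroup M := S0044.result
  have h31 : pCore 31 M ≠ ⊥ := by
    intro h
    rw [h, sup_bot_eq] at hF
    have h4 : centralizer (fittingSubgroup M : Set M) = ⊤ := by
      rw [eq_top_iff]
      intro x _
      rw [mem_centralizer_iff]
      intro y hy
      rw [hF] at hy
      exact (mem_center_iff.mp (h3.1 hy) x).symm
    rw [h4, hF] at hCF
    have h5 : Nat.card M ∣ 3 := by
      have := h3.2
      rw [top_le_iff.mp hCF] at this
      rwa [card_top] at this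
    rcases (Nat.dvd_prime Nat.prime_three).mp h5 with h6 | h6
    · obtain ⟨P⟩ : Nonempty (Sylow 31 S) := inferInstance
      exact coatom_ne_bot hM (sylow_ne_bot (by rw [hcard]; norm_num) P) (sylow_ne_top hna P)
        (card_eq_one.mp h6)
    · rw [h6] at hmul hc
      have h7 : M.index = 3333120 := by omega
      rw [h7] at hc
      norm_num at hc
  obtain ⟨k1, k2, k3, k4⟩ := core_image hna hM h31
  obtain ⟨k5, k6⟩ := card_of_isPGroup (r := 31) (m := 322560) (by rw [hcard]) (by norm_num) k1 k3
  have k7 := modEq_of_normalizer k3 k6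
  rw [k4] at k7
  have k8 := subProds_all (fun i => decide (i % 31 ≠ 1 ∨ i % 2 ≠ 0 ∨ i % 31 = 0 ∨ i = 1024 ∨ i = 64512)) _
    (by decide) hmem
  simp only [decide_eq_true_eq] at k8
  have k9 : M.index = 1024 ∨ M.index = 64512 := by omega
  rcases k9 with k9 | k9
  swap
  · rw [k9] at hmul
    omega
  exfalso
  rw [k9] at hmul
  have c1 : Nat.card M = 9765 := by omega
  obtain ⟨l1, l2⟩ := relIndex_props k5 k6 (by rw [hcard]; norm_num)
  have l3 := hNe _ k4
  have l4 := SmallSimple.BurnsideNC.card_normalizer_eq ((pCore 31 M).map M.subtype)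
  rw [k4] at l1 l4
  rw [c1] at l4
  have l5 : 7 ∣ Nat.card (centralizer (((pCore 31 M).map M.subtype : Subgroup S) : Set S)) := by
    have e : 7 ∣ Nat.card (centralizer (((pCore 31 M).map M.subtype : Subgroup S) : Set S)) *
      (centralizer (((pCore 31 M).map M.subtype : Subgroup S) : Set S)).relIndex M := by
      rw [← l4]; norm_num
    rcases (Nat.Prime.dvd_mul (by norm_num : Nat.Prime 7)).mp e with h | h
    · exact h
    · exact absurd (h.trans l1) (by norm_num)
  obtain ⟨c, hc7⟩ := exists_prime_orderOf_dvd_card' 7 l5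
  have hcM : (c : S) ∈ M := k4.le (SmallSimple.BurnsideNC.centralizer_le_normalizer _ c.2)
  have hcF : (⟨c, hcM⟩ : M) ∈ fittingSubgroup M := by
    apply hCF
    have hle : fittingSubgroup M ≤ centralizer ({(⟨c, hcM⟩ : M)} : Set M) := by
      rw [hF]
      refine sup_le ?_ ?_
      · intro x hx
        rw [mem_centralizer_singleton_iff]
        exact (mem_center_iff.mp (h3.1 hx) _).symm
      · intro x hx
        rw [mem_centralizer_singleton_iff]
        exact Subtype.ext (mem_centralizer_iff.mp c.2 x ⟨x, hx, rfl⟩)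
    rw [mem_centralizer_iff]
    intro y hy
    exact mem_centralizer_singleton_iff.mp (hle hy)
  have l6 : Nat.card (fittingSubgroup M) ∣ 3 * 31 := by
    rw [hF]
    refine (card_sup_dvd _ _ (pCore_normal 3 M)).trans (mul_dvd_mul h3.2 ?_)
    rw [← card_core_image, k5]
  have l7 : 7 ∣ Nat.card (fittingSubgroup M) := by
    have : orderOf (⟨⟨c, hcM⟩, hcF⟩ : fittingSubgroup M) = 7 := by
      rw [← orderOf_coe, ← orderOf_coe, ← hc7, ← orderOf_coe]
    rw [← this]
    exact orderOf_dvd_natCard _
  exact absurd (l7.trans l6) (by norm_num)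

omit [IsSimpleGroup S] in
theorem not_dvd_of_odd_index (hcard : Nat.card S = 9999360)
    (hE : ∀ M : Subgroup S, IsCoatom M → ¬ 2 ∣ M.index → M.index = 31 ∨ M.index = 155) {M : Subgroup S}
    (hM : M ≠ ⊤) (hd : 31 ∣ Nat.card M) : 2 ∣ M.index := by
  by_contra h2
  obtain ⟨M', h1, h3⟩ := exists_coatom_ge hM
  have h4 : ¬ 2 ∣ M'.index := fun h => h2 (h.trans (index_dvd_of_le h3))
  have h5 : Nat.card M' * M'.index = 9999360 := by rw [card_mul_index, hcard]
  have h6 : 31 ∣ Nat.card M' := hd.trans (card_dvd_of_le h3)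
  rcases hE M' h1 h4 with h | h
  · rw [h] at h5
    omega
  · rw [h] at h5
    omega

theorem inner_L52 (hna : ¬ IsMulCommutative S) (hcard : Nat.card S = 9999360)
    (hE : ∀ M : Subgroup S, IsCoatom M → ¬ 2 ∣ M.index → M.index = 31 ∨ M.index = 155)
    {A : Subgroup (MulAut S)} {n : ℕ} (hA : HallSys S A n)
    (hout : (MulAut.conj : S →* MulAut S).range.index ∣ 2) : ∀ a ∈ A, ∃ s : S, a = MulAut.conj s := by
  obtain ⟨P⟩ : Nonempty (Sylow 31 S) := inferInstance
  obtain ⟨M, hM1, hM2, -, -, hM5, -⟩ := hA.sylow hna (r := 31) (by rw [hcard]; norm_num) P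
  refine inner_of hA hout (Nat.Coprime.coprime_dvd_left (not_dvd_of_odd_index hcard hE hM2 ?_) hM5)
  have h1 : Nat.card P = 31 := card_sylow_of (e := 1) (m := 322560) P (by rw [hcard]; norm_num) (by norm_num)
  rw [← h1]
  exact card_dvd_of_le (le_normalizer.trans hM1)

theorem compl_L52 (hna : ¬ IsMulCommutative S) (hcard : Nat.card S = 9999360)
    (hE : ∀ M : Subgroup S, IsCoatom M → ¬ 2 ∣ M.index → M.index = 31 ∨ M.index = 155)
    (hF : ∃ K : Subgroup S, Nat.card K = 64512)
    (hsol : ∀ M : Subgroup S, ¬ 2 ∣ Nat.card M → Group.IsSolvable M) (hmax : HMax S) {M : Subgroup S}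
    (hM : IsCoatom M) : ∃ K : Subgroup S, IsComplement' M K := by
  have hc := hmax M hM
  have hmul : Nat.card M * M.index = 9999360 := by rw [card_mul_index, hcard]
  obtain ⟨P⟩ : Nonempty (Sylow 31 S) := inferInstance
  have h1 : Nat.card P = 31 := card_sylow_of (e := 1) (m := 322560) P (by rw [hcard]; norm_num) (by norm_num)
  have hodd : ∀ M : Subgroup S, IsCoatom M → 2 ∣ M.index → Nat.card M = 155 := by
    intro M hM h2
    have h3 : ¬ 2 ∣ Nat.card M := fun h4 => absurd ((hmax M hM) ▸ Nat.dvd_gcd h4 h2) (by norm_num)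
    exact card_eq_155 hna hcard hM (hmax M hM) h3 (hsol M h3)
  by_cases h2 : 2 ∣ M.index
  · have h3 := hodd M hM h2
    obtain ⟨K, hK⟩ := hF
    refine exists_compl_of_card (K := K) ?_ hc
    rw [h3] at hmul
    omega
  · rcases hE M hM h2 with h | h
    · exact exists_compl_of_card (K := (P : Subgroup S)) (by rw [h]; exact h1) hc
    · obtain ⟨M', h3, h4⟩ := exists_coatom_ge (sylow_ne_top hna P)
      have h5 : 31 ∣ Nat.card M' := h1 ▸ card_dvd_of_le h4
      have h6 := hodd M' h3 (not_dvd_of_odd_index hcard hE h3.1 h5)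
      exact exists_compl_of_card (K := M') (by rw [h, h6]) hc

end Main

end Cfsg.Agent.H554
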