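import Mathlib
import Cfsg.Agent.H554.Good5
import Cfsg.Agent.H554.LiePSL3
import Cfsg.Agent.H554.Assembly
import Cfsg.Agent.S2601
import Cfsg.Agent.S2602
import Cfsg.Agent.S0205

/-!
# `PSL(2,7)`, `PSL(2,11)`, `PSL(5,2)` are good (helper554)

* `index_inn_PSL2`, `index_inn_PSL5` : `|Out|` divides 2;
* `odd_index_L52` : the maximal subgroups of odd index of `PSL(5,2)` have index 31 or 155;
* `good_of_exc`, `good_of_known`.
-/

set_option autoImplicit false

namespace Cfsg.Agent.H554

open Matrix Cfsg
open Cfsg.Agent.H554.RG Cfsg.Agent.H554.PSLNum Cfsg.Agent.H554.LiePSL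

section Out

theorem index_inn_congr {S S' : Type*} [Group S] [Group S'] (e : S ≃* S') :
    (MulAut.conj : S →* MulAut S).range.index = (MulAut.conj : S' →* MulAut S').range.index := by
  have h1 : (MulAut.conj : S →* MulAut S).range =
      (MulAut.conj : S' →* MulAut S').range.comap (MulAut.congr e).toMonoidHom := by
    ext a
    constructor
    · rintro ⟨s, rfl⟩
      refine ⟨e s, ?_⟩
      ext x
      simp [MulAut.congr]
    · rintro ⟨t, ht⟩
      refine ⟨e.symm t, ?_⟩
      ext x
      have h2 := congrArg (fun b : MulAut S' => e.symm (b (e x))) ht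
      simpa [MulAut.congr] using h2
  rw [h1, Subgroup.index_comap_of_surjective _ (MulAut.congr e).surjective]

theorem card_of_surj {G H : Type*} [Group G] [Group H] (φ : G →* H) (h : Function.Surjective φ) :
    Nat.card G = Nat.card φ.ker * Nat.card H := by
  rw [← φ.ker.card_mul_index, Subgroup.index_ker, MonoidHom.range_eq_top.mpr h, Subgroup.card_top]

theorem index_inn_PSL2 {F : Type*} [Field F] [Fintype F] {p : ℕ} [Fact p.Prime] (hF : Fintype.card F = p)
    (h4 : 4 ≤ p) : (MulAut.conj : ProjectiveSpecialLinearGroup (Fin 2) F →*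
      MulAut (ProjectiveSpecialLinearGroup (Fin 2) F)).range.index ∣ 2 := by
  obtain ⟨φ, h1, -, h3⟩ := S2602.result (F := F) (p := p) (f := 1) le_rfl (by rw [hF, pow_one]) (by rwa [pow_one])
  have h5 := card_of_surj φ h1
  have h6 : Nat.card (Multiplicative (ZMod 1)) = 1 := by
    rw [Nat.card_congr Multiplicative.toAdd, Nat.card_zmod]
  rw [h6, mul_one, h3] at h5
  change Nat.card (Out _) ∣ 2
  rw [h5]
  exact Nat.gcd_dvd_left _ _

theorem index_inn_PSL5 {F : Type*} [Field F] [Fintype F] (hF : Fintype.card F = 2) :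
    (MulAut.conj : ProjectiveSpecialLinearGroup (Fin 5) F →*
      MulAut (ProjectiveSpecialLinearGroup (Fin 5) F)).range.index ∣ 2 := by
  obtain ⟨φ, h1, -, h3⟩ := S2601.result (F := F) (p := 2) (f := 1) (n := 5) le_rfl (by rw [hF, pow_one]) (by norm_num)
  have h5 := card_of_surj φ h1
  have h6 : Nat.card (Multiplicative (ZMod 1 × ZMod 2)) = 2 := by
    rw [Nat.card_congr Multiplicative.toAdd, Nat.card_prod, Nat.card_zmod, Nat.card_zmod]
  rw [h6, h3] at h5
  change Nat.card (Out _) ∣ 2
  rw [h5]
  norm_num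

end Out

section Card

theorem card_PSL2_7 {F : Type*} [Field F] [Fintype F] (hF : Fintype.card F = 7) :
    Nat.card (ProjectiveSpecialLinearGroup (Fin 2) F) = 168 := by
  have h := S0243.result hF 2 le_rfl
  rw [Fin.prod_univ_two] at h
  norm_num at h
  omega

theorem card_PSL2_11 {F : Type*} [Field F] [Fintype F] (hF : Fintype.card F = 11) :
    Nat.card (ProjectiveSpecialLinearGroup (Fin 2) F) = 660 := by
  have h := S0243.result hF 2 le_rfl
  rw [Fin.prod_univ_two] at h
  norm_num at h
  omega

theorem card_PSL5_2 {F : Type*} [Field F] [Fintype F] (hF : Fintype.card F = 2) :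
    Nat.card (ProjectiveSpecialLinearGroup (Fin 5) F) = 9999360 := by
  have h := S0243.result hF 5 (by norm_num)
  rw [Fin.prod_univ_five] at h
  norm_num at h
  omega

end Card

section L52
variable {F : Type*} [Field F] [Fintype F] (hF : Fintype.card F = 2)
include hF

theorem charP_L52 : CharP F 2 := by
  obtain ⟨p, hp⟩ := CharP.exists F
  have : Fact p.Prime := ⟨CharP.char_is_prime F p⟩
  obtain ⟨n, hp', hn⟩ := FiniteField.card F p
  rw [hF] at hn
  have : p ∣ 2 := hn ▸ dvd_pow_self p n.pos.ne'
  have h2 : p = 2 := (Nat.prime_dvd_prime_iff_eq hp' Nat.prime_two).mp this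
  rwa [h2] at hp

theorem card_PP_L52 : (∀ i : Fin 4, Nat.card (PP (F := F) (ca 4) i) = 322560 ∨
    Nat.card (PP (F := F) (ca 4) i) = 64512) ∧ Nat.card (PP (F := F) (ca 4) 1) = 64512 := by
  have hc : CharP F 2 := charP_L52 hF
  have key : ∀ i : Fin 4, _ := fun i => card_PP (F := F) (p := 2) (ca 4) i
  have h0 := key 0
  have h1 := key 1
  have h2 := key 2
  have h3 := key 3
  rw [hF] at h0 h1 h2 h3
  simp [Finset.prod_range_succ, Finset.prod_Ico_succ_top] at h0 h1 h2 h3
  refine ⟨fun i => ?_, h1⟩
  fin_cases i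
  exacts [Or.inl h0, Or.inr h1, Or.inr h2, Or.inl h3]

/-- The maximal subgroups of odd index of `PSL(5,2)`. -/
theorem odd_index_L52 {M : Subgroup (ProjectiveSpecialLinearGroup (Fin 5) F)} (hM : IsCoatom M)
    (h2 : ¬ 2 ∣ M.index) : M.index = 31 ∨ M.index = 155 := by
  have hc : CharP F 2 := charP_L52 hF
  obtain ⟨g, i, hgi⟩ := exists_conj_le (rgdP (n := 4) (F := F) 2) GG_P Sup_P h2 hM.1
  change M.map (MulAut.conj g).toMonoidHom ≤ PP (F := F) (ca 4) i at hgi
  have hcard := card_PSL5_2 hF
  have h3 := (card_PP_L52 hF).1 i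
  have h4 : M ≤ (PP (F := F) (ca 4) i).map (MulAut.conj g⁻¹).toMonoidHom := by
    have := Subgroup.map_mono (f := (MulAut.conj g⁻¹).toMonoidHom) hgi
    rwa [map_conj_map_conj, inv_mul_cancel, map_conj_one] at this
  have h5 : Nat.card ((PP (F := F) (ca 4) i).map (MulAut.conj g⁻¹).toMonoidHom) = Nat.card (PP (F := F) (ca 4) i) :=
    Subgroup.card_map_of_injective (MulAut.conj g⁻¹).injective
  have h6 : (PP (F := F) (ca 4) i).map (MulAut.conj g⁻¹).toMonoidHom ≠ ⊤ := by
    intro h
    rw [h, Subgroup.card_top] at h5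
    change Nat.card (ProjectiveSpecialLinearGroup (Fin 5) F) = _ at h5
    rw [hcard] at h5
    rcases h3 with h3 | h3 <;> rw [h3] at h5 <;> norm_num at h5
  have h7 : M = (PP (F := F) (ca 4) i).map (MulAut.conj g⁻¹).toMonoidHom := by
    rcases eq_or_lt_of_le h4 with h | h
    · exact h
    · exact absurd (hM.2 _ h) h6
  have h8 : Nat.card M * M.index = 9999360 := by rw [M.card_mul_index, hcard]
  have h9 : Nat.card M = Nat.card (PP (F := F) (ca 4) i) := by rw [h7]; exact h5
  rw [h9] at h8
  rcases h3 with h3 | h3 <;> rw [h3] at h8 <;> omega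

end L52

/-- **The groups with a Hall system are good.** -/
theorem good_of_exc {S : Type*} [Group S] [Finite S] [IsSimpleGroup S] (hna : ¬ IsMulCommutative S) (h : Exc S) :
    Good S := by
  intro A n hA
  obtain ⟨F, _, _, h⟩ := h
  rcases h with ⟨hF, ⟨e⟩⟩ | ⟨hF, ⟨e⟩⟩ | ⟨hF, ⟨e⟩⟩
  · have hcard : Nat.card S = 168 := by rw [Nat.card_congr e.toEquiv, card_PSL2_7 hF]
    have hout : (MulAut.conj : S →* MulAut S).range.index ∣ 2 := by
      rw [index_inn_congr e]
      exact index_inn_PSL2 hF (by norm_num)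
    exact ⟨inner_168 hna hcard hA hout, fun hmax M hM => compl_168 hna hcard hmax hM⟩
  · have hcard : Nat.card S = 660 := by rw [Nat.card_congr e.toEquiv, card_PSL2_11 hF]
    have hout : (MulAut.conj : S →* MulAut S).range.index ∣ 2 := by
      rw [index_inn_congr e]
      exact index_inn_PSL2 hF (by norm_num)
    exact ⟨inner_660 hna hcard hA hout, fun hmax M hM => compl_660 hna hcard hmax hM⟩
  · have hcard : Nat.card S = 9999360 := by rw [Nat.card_congr e.toEquiv, card_PSL5_2 hF]
    have hout : (MulAut.conj : S →* MulAut S).range.index ∣ 2 := by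
      rw [index_inn_congr e]
      exact index_inn_PSL5 hF
    have hE : ∀ M : Subgroup S, IsCoatom M → ¬ 2 ∣ M.index → M.index = 31 ∨ M.index = 155 := by
      intro M hM h2
      have h3 : IsCoatom (e.mapSubgroup M) := (OrderIso.isCoatom_iff e.mapSubgroup M).mpr hM
      have h4 : (e.mapSubgroup M).index = M.index := Subgroup.index_map_equiv M e
      have h5 := odd_index_L52 hF h3 (by rwa [h4])
      rwa [h4] at h5
    have hK : ∃ K : Subgroup S, Nat.card K = 64512 := by
      refine ⟨e.symm.mapSubgroup (PP (F := F) (ca 4) 1), ?_⟩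
      have h5 : Nat.card (e.symm.mapSubgroup (PP (F := F) (ca 4) 1)) = Nat.card (PP (F := F) (ca 4) 1) :=
        Subgroup.card_map_of_injective e.symm.injective
      rw [h5]
      exact (card_PP_L52 hF).2
    have hsol : ∀ M : Subgroup S, ¬ 2 ∣ Nat.card M → Group.IsSolvable M := fun M hM =>
      S0205.result (Nat.odd_iff.mpr (by omega))
    exact ⟨inner_L52 hna hcard hE hA hout, fun hmax M hM => compl_L52 hna hcard hE hK hsol hmax hM⟩

/-- **The known simple groups are good.** -/
theorem good_of_known {S : Type*} [Group S] [Finite S] [IsSimpleGroup S] (hna : ¬ IsMulCommutative S)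
    (hK : IsKnownSimple' S) (hsp : IsSporadicGroup S → NoHall S) : Good S := fun A n hA =>
  good_of_exc hna (exc_of_known hna hK hsp hA) A n hA

end Cfsg.Agent.H554
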